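import Mathlib

/-!
# coded linear maps over the field with two elements (helper29)
-/

set_option autoImplicit false
set_option linter.style.haveILetI false

namespace Cfsg.Agent.H29.BinRep

open Matrix

def bt (n i : ℕ) : ZMod 2 := if n.testBit i then 1 else 0

theorem bt_xor (a b i : ℕ) : bt (a ^^^ b) i = bt a i + bt b i := by
  unfold bt
  rw [Nat.testBit_xor]
  cases a.testBit i <;> cases b.testBit i <;> decide

theorem bt_zero (i : ℕ) : bt 0 i = 0 := by simp [bt]

def dec (n : ℕ) : Fin 12 → ZMod 2 := fun i => bt n i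

def mat (c : ℕ → ℕ) : Matrix (Fin 12) (Fin 12) (ZMod 2) := Matrix.of fun i j => bt (c j) i

/-- apply the map with columns `c` to the coded vector -/
def apN (c : ℕ → ℕ) (v : ℕ) : ℕ → ℕ
  | 0 => 0
  | k + 1 => if v.testBit k then apN c v k ^^^ c k else apN c v k

def ap (c : ℕ → ℕ) (v : ℕ) : ℕ := apN c v 12

theorem bt_apN (c : ℕ → ℕ) (v k i : ℕ) : bt (apN c v k) i = ∑ j ∈ Finset.range k, bt (c j) i * bt v j := by
  induction k with
  | zero => simp [apN, bt_zero]
  | succ k ih =>
    rw [Finset.sum_range_succ, ← ih]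
    by_cases h : v.testBit k
    · have e : apN c v (k + 1) = apN c v k ^^^ c k := if_pos h
      rw [e, bt_xor]
      congr 1
      unfold bt
      rw [h]; simp
    · have e : apN c v (k + 1) = apN c v k := if_neg h
      rw [e]
      unfold bt
      simp [h]

theorem dec_ap (c : ℕ → ℕ) (v : ℕ) : mat c *ᵥ dec v = dec (ap c v) := by
  ext i
  rw [Matrix.mulVec, dotProduct]
  show ∑ j : Fin 12, bt (c j) i * bt v j = bt (apN c v 12) i
  rw [bt_apN, Finset.sum_range]

theorem dec_pow (j : Fin 12) : dec (2 ^ (j : ℕ)) = Pi.single j 1 := by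
  funext i
  show bt (2 ^ (j : ℕ)) i = _
  unfold bt
  rw [Nat.testBit_two_pow]
  by_cases h : i = j
  · subst h; simp
  · rw [Pi.single_eq_of_ne h]
    have : (j : ℕ) ≠ i := fun h' => h (Fin.ext h'.symm)
    simp [this]

/-- the identity -/
def idc (k : ℕ) : ℕ := 2 ^ k

/-- a word applied to a coded vector -/
def apW (cs : ℕ → ℕ → ℕ) (u : List ℕ) (v : ℕ) : ℕ := u.foldr (fun l acc => ap (cs l) acc) v

theorem dec_apW (cs : ℕ → ℕ → ℕ) (u : List ℕ) (v : ℕ) :
    ((u.map fun l => mat (cs l)).prod) *ᵥ dec v = dec (apW cs u v) := by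
  induction u with
  | nil => simp [apW]
  | cons l u ih =>
    rw [List.map_cons, List.prod_cons, ← Matrix.mulVec_mulVec, ih, dec_ap]
    rfl

/-- iterate -/
def itW (cs : ℕ → ℕ → ℕ) (u : List ℕ) : ℕ → ℕ → ℕ
  | 0, v => v
  | k + 1, v => itW cs u k (apW cs u v)

theorem dec_itW (cs : ℕ → ℕ → ℕ) (u : List ℕ) (k v : ℕ) :
    ((u.map fun l => mat (cs l)).prod) ^ k *ᵥ dec v = dec (itW cs u k v) := by
  induction k generalizing v with
  | zero => simp [itW]
  | succ k ih =>
    rw [pow_succ, ← Matrix.mulVec_mulVec, dec_apW, ih]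
    rfl

theorem eq_of_basis {A B : Matrix (Fin 12) (Fin 12) (ZMod 2)} (h : ∀ j < 12, A *ᵥ dec (2 ^ j) = B *ᵥ dec (2 ^ j)) :
    A = B := by
  apply Matrix.ext_of_mulVec_single
  intro j
  rw [← dec_pow]
  exact h j j.2

/-- the check that a power of a word is trivial -/
def relC (cs : ℕ → ℕ → ℕ) (u : List ℕ) (k : ℕ) : Bool := (List.range 12).all fun j => itW cs u k (2 ^ j) == 2 ^ j

theorem rel_of {cs : ℕ → ℕ → ℕ} {u : List ℕ} {k : ℕ} (h : relC cs u k = true) :
    ((u.map fun l => mat (cs l)).prod) ^ k = 1 := by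
  apply eq_of_basis
  intro j hj
  unfold relC at h
  have h1 := List.all_eq_true.1 h j (List.mem_range.2 hj)
  rw [dec_itW, Matrix.one_mulVec, beq_iff_eq.1 h1]

theorem dec_inj {a b : ℕ} (ha : a < 4096) (hb : b < 4096) (h : dec a = dec b) : a = b := by
  apply Nat.eq_of_testBit_eq
  intro i
  by_cases hi : i < 12
  · have h1 := congrFun h ⟨i, hi⟩
    change bt a i = bt b i at h1
    unfold bt at h1
    cases ha' : a.testBit i <;> cases hb' : b.testBit i <;> simp [ha', hb'] at h1 ⊢
  · have h2 : ∀ n < 4096, n.testBit i = false := by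
      intro n hn
      apply Nat.testBit_lt_two_pow
      calc n < 2 ^ 12 := by norm_num; exact hn
        _ ≤ 2 ^ i := Nat.pow_le_pow_right (by norm_num) (by omega)
    rw [h2 a ha, h2 b hb]

/-- sum of the powers of a word applied to a vector -/
def smW (cs : ℕ → ℕ → ℕ) (u : List ℕ) : ℕ → ℕ → ℕ
  | 0, _ => 0
  | k + 1, v => smW cs u k v ^^^ itW cs u k v

theorem dec_xor (a b : ℕ) : dec (a ^^^ b) = dec a + dec b := by
  funext i; exact bt_xor a b i

theorem dec_zero : dec 0 = 0 := by funext i; exact bt_zero i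

theorem dec_smW (cs : ℕ → ℕ → ℕ) (u : List ℕ) (k v : ℕ) :
    (∑ i ∈ Finset.range k, ((u.map fun l => mat (cs l)).prod) ^ i) *ᵥ dec v = dec (smW cs u k v) := by
  induction k with
  | zero => simp [smW, dec_zero]
  | succ k ih =>
    rw [Finset.sum_range_succ, Matrix.add_mulVec, ih, dec_itW]
    exact (dec_xor _ _).symm

/-- the check that the sum of powers is zero -/
def sumC (cs : ℕ → ℕ → ℕ) (u : List ℕ) (k : ℕ) : Bool := (List.range 12).all fun j => smW cs u k (2 ^ j) == 0

theorem sum_of {cs : ℕ → ℕ → ℕ} {u : List ℕ} {k : ℕ} (h : sumC cs u k = true) :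
    (∑ i ∈ Finset.range k, ((u.map fun l => mat (cs l)).prod) ^ i) = 0 := by
  apply eq_of_basis
  intro j hj
  unfold sumC at h
  have h1 := List.all_eq_true.1 h j (List.mem_range.2 hj)
  rw [dec_smW, Matrix.zero_mulVec, beq_iff_eq.1 h1, dec_zero]

/-- no fixed vectors when the sum of an odd number of powers is zero -/
theorem fixed_zero {M : Matrix (Fin 12) (Fin 12) (ZMod 2)} {k : ℕ} (hk : k % 2 = 1)
    (h : (∑ i ∈ Finset.range k, M ^ i) = 0) {v : Fin 12 → ZMod 2} (hv : M *ᵥ v = v) : v = 0 := by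
  have h1 : ∀ i : ℕ, M ^ i *ᵥ v = v := by
    intro i
    induction i with
    | zero => simp
    | succ i ih => rw [pow_succ, ← Matrix.mulVec_mulVec, hv, ih]
  have h2 : ∀ k : ℕ, (∑ i ∈ Finset.range k, M ^ i) *ᵥ v = (k : ZMod 2) • v := by
    intro k
    induction k with
    | zero => simp
    | succ k ih => rw [Finset.sum_range_succ, Matrix.add_mulVec, ih, h1]; push_cast; rw [add_smul, one_smul]
  have h3 := h2 k
  rw [h, Matrix.zero_mulVec] at h3
  have h4 : (k : ZMod 2) = 1 := by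
    have : ((k : ℕ) : ZMod 2) = ((1 : ℕ) : ZMod 2) := (ZMod.natCast_eq_natCast_iff _ _ 2).2 (by
      unfold Nat.ModEq; rw [hk])
    rw [this]; simp
  rw [h4, one_smul] at h3
  exact h3.symm

end Cfsg.Agent.H29.BinRep
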