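import Cfsg.Agent.H18.PSU3a

/-!
# a module for `SU₃(4)` in characteristic 5 from the Cartan invariant of isotropic points (helper29)
-/

set_option autoImplicit false
set_option linter.style.haveILetI false
set_option linter.unusedSectionVars false
set_option linter.unusedSimpArgs false

namespace Cfsg.Agent.H29.CartanMod

open Matrix Cfsg Cfsg.Agent.H5 Cfsg.Agent.H5.FormData Cfsg.Agent.H18

variable {F : Type*} [Field F] {σ : F →+* F}

local notation "h⟪" x ", " y "⟫" => hB (Fin 3) σ x y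

/-- isotropic vectors -/
def Is (σ : F →+* F) (u : Fin 3 → F) : Prop := u ≠ 0 ∧ hB (Fin 3) σ u u = 0

theorem Is.smul {u : Fin 3 → F} (hu : Is σ u) {c : F} (hc : c ≠ 0) : Is σ (c • u) := by
  refine ⟨smul_ne_zero hc hu.1, ?_⟩
  rw [br_smul, bl_smul, hu.2, mul_zero, mul_zero]

theorem Is.sv (hσ : ∀ x, σ x = x ^ 4) {u : Fin 3 → F} (hu : Is σ u) (s : SU 3 F 4) : Is σ (sv s u) := by
  refine ⟨?_, by rw [sv_isom hσ, hu.2]⟩
  intro h0
  apply hu.1
  have h1 := sv_inv s u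
  rw [h0] at h1
  rw [← h1]
  exact Matrix.mulVec_zero _

theorem is_sv_iff (hσ : ∀ x, σ x = x ^ 4) {u : Fin 3 → F} (s : SU 3 F 4) : Is σ (H5.sv s u) ↔ Is σ u := by
  refine ⟨fun h => ?_, fun h => h.sv hσ s⟩
  have h1 := h.sv hσ s⁻¹
  rwa [sv_inv] at h1

theorem witt [Fintype F] (hσ1 : σ ≠ RingHom.id F) (hσ2 : ∀ a, σ (σ a) = a) {y z : Fin 3 → F} (hy : Is σ y)
    (hz : Is σ z) (h : h⟪y, z⟫ = 0) : ∃ a : F, a ≠ 0 ∧ z = a • y := by
  obtain ⟨w, u, hf⟩ := exists_fr hσ1 hσ2 hy.1 hy.2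
  have he := hf.exp hσ2 z
  rw [h, zero_smul, add_zero] at he
  have h1 : h⟪z, z⟫ = σ h⟪u, z⟫ * h⟪u, z⟫ := by
    conv_lhs => rw [he]
    simp only [br_add, bl_add, br_smul, bl_smul, hf.vv, hf.vu, hf.uv, hf.uu]
    ring
  rw [hz.2] at h1
  have h2 : h⟪u, z⟫ = 0 := by
    rcases mul_eq_zero.1 h1.symm with h3 | h3
    · exact (map_eq_zero σ).1 h3
    · exact h3
  rw [h2, zero_smul, add_zero] at he
  refine ⟨_, ?_, he⟩
  intro h0
  rw [h0, zero_smul] at he
  exact hz.1 he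

variable (σ) in
/-- the module -/
def W (ω : F) (A : Type*) [AddCommGroup A] : AddSubgroup ((Fin 3 → F) → (Fin 3 → F) → A) where
  carrier := {ψ | (∀ u v, ¬ (Is σ u ∧ Is σ v) → ψ u v = 0) ∧
    (∀ u v w, Is σ u → Is σ v → Is σ w → ψ u v + ψ v w = ψ u w) ∧
    (∀ (c : F) u v, c ≠ 0 → Is σ u → Is σ v → ψ (c • u) v = ψ u v) ∧
    (∀ e f v, Is σ e → Is σ f → Is σ v → hB (Fin 3) σ e f = 1 →
      ψ e v + (ψ f v + ψ (f + e) v + ψ (f + ω • e) v + ψ (f + ω ^ 2 • e) v) = 0)}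
  zero_mem' := by
    refine ⟨fun _ _ _ => rfl, fun _ _ _ _ _ _ => ?_, fun _ _ _ _ _ _ => rfl, fun _ _ _ _ _ _ _ => ?_⟩ <;>
    simp
  add_mem' := by
    rintro a b ⟨a0, a1, a2, a3⟩ ⟨b0, b1, b2, b3⟩
    refine ⟨fun u v h => ?_, fun u v w hu hv hw => ?_, fun c u v hc hu hv => ?_, fun e f v he hf hv h => ?_⟩
    · simp only [Pi.add_apply]; rw [a0 u v h, b0 u v h, add_zero]
    · simp only [Pi.add_apply]; rw [← a1 u v w hu hv hw, ← b1 u v w hu hv hw]; abel
    · simp only [Pi.add_apply]; rw [a2 c u v hc hu hv, b2 c u v hc hu hv]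
    · simp only [Pi.add_apply]
      have h1 := a3 e f v he hf hv h
      have h2 := b3 e f v he hf hv h
      calc _ = (a e v + (a f v + a (f + e) v + a (f + ω • e) v + a (f + ω ^ 2 • e) v)) +
          (b e v + (b f v + b (f + e) v + b (f + ω • e) v + b (f + ω ^ 2 • e) v)) := by abel
        _ = 0 := by rw [h1, h2, add_zero]
  neg_mem' := by
    rintro a ⟨a0, a1, a2, a3⟩
    refine ⟨fun u v h => ?_, fun u v w hu hv hw => ?_, fun c u v hc hu hv => ?_, fun e f v he hf hv h => ?_⟩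
    · simp only [Pi.neg_apply]; rw [a0 u v h, neg_zero]
    · simp only [Pi.neg_apply]; rw [← a1 u v w hu hv hw]; abel
    · simp only [Pi.neg_apply]; rw [a2 c u v hc hu hv]
    · simp only [Pi.neg_apply]
      have h1 := a3 e f v he hf hv h
      calc _ = -(a e v + (a f v + a (f + e) v + a (f + ω • e) v + a (f + ω ^ 2 • e) v)) := by abel
        _ = 0 := by rw [h1, neg_zero]

theorem mem_W {ω : F} {A : Type*} [AddCommGroup A] {ψ : (Fin 3 → F) → (Fin 3 → F) → A} :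
    ψ ∈ W σ ω A ↔ (∀ u v, ¬ (Is σ u ∧ Is σ v) → ψ u v = 0) ∧
    (∀ u v w, Is σ u → Is σ v → Is σ w → ψ u v + ψ v w = ψ u w) ∧
    (∀ (c : F) u v, c ≠ 0 → Is σ u → Is σ v → ψ (c • u) v = ψ u v) ∧
    (∀ e f v, Is σ e → Is σ f → Is σ v → hB (Fin 3) σ e f = 1 →
      ψ e v + (ψ f v + ψ (f + e) v + ψ (f + ω • e) v + ψ (f + ω ^ 2 • e) v) = 0) := Iff.rfl

theorem act_mem (hσ : ∀ x, σ x = x ^ 4) {ω : F} {A : Type*} [AddCommGroup A] {ψ : (Fin 3 → F) → (Fin 3 → F) → A}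
    (h : ψ ∈ W σ ω A) (s : SU 3 F 4) : (fun u v => ψ (sv s u) (sv s v)) ∈ W σ ω A := by
  obtain ⟨a0, a1, a2, a3⟩ := mem_W.1 h
  refine mem_W.2 ⟨fun u v h => ?_, fun u v w hu hv hw => ?_, fun c u v hc hu hv => ?_, fun e f v he hf hv h => ?_⟩
  · exact a0 _ _ (by rwa [is_sv_iff hσ, is_sv_iff hσ])
  · exact a1 _ _ _ (hu.sv hσ s) (hv.sv hσ s) (hw.sv hσ s)
  · show ψ (sv s (c • u)) (sv s v) = ψ (sv s u) (sv s v)
    rw [sv_smul]
    exact a2 c _ _ hc (hu.sv hσ s) (hv.sv hσ s)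
  · show ψ (sv s e) (sv s v) + (ψ (sv s f) (sv s v) + ψ (sv s (f + e)) (sv s v) + ψ (sv s (f + ω • e)) (sv s v) +
      ψ (sv s (f + ω ^ 2 • e)) (sv s v)) = 0
    rw [sv_add, sv_add, sv_add, sv_smul, sv_smul]
    exact a3 _ _ _ (he.sv hσ s) (hf.sv hσ s) (hv.sv hσ s) (by rw [sv_isom hσ, h])

/-- the action of one element -/
def actE (hσ : ∀ x, σ x = x ^ 4) (ω : F) (A : Type*) [AddCommGroup A] (s : SU 3 F 4) : W σ ω A ≃+ W σ ω A where
  toFun ψ := ⟨fun u v => ψ.1 (sv s⁻¹ u) (sv s⁻¹ v), act_mem hσ ψ.2 s⁻¹⟩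
  invFun ψ := ⟨fun u v => ψ.1 (sv s u) (sv s v), act_mem hσ ψ.2 s⟩
  left_inv ψ := by
    apply Subtype.ext
    funext u v
    show ψ.1 (sv s⁻¹ (sv s u)) (sv s⁻¹ (sv s v)) = ψ.1 u v
    rw [sv_inv, sv_inv]
  right_inv ψ := by
    apply Subtype.ext
    funext u v
    show ψ.1 (sv s (sv s⁻¹ u)) (sv s (sv s⁻¹ v)) = ψ.1 u v
    rw [sv_inv', sv_inv']
  map_add' a b := by
    apply Subtype.ext
    funext u v
    rfl

/-- the action -/
def phi (hσ : ∀ x, σ x = x ^ 4) (ω : F) (A : Type*) [AddCommGroup A] : SU 3 F 4 →* MulAut (Multiplicative (W σ ω A)) where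
  toFun s := AddEquiv.toMultiplicative (actE hσ ω A s)
  map_one' := by
    ext ψ u v
    show (Multiplicative.toAdd ψ).1 (sv (1 : SU 3 F 4)⁻¹ u) (sv (1 : SU 3 F 4)⁻¹ v) = (Multiplicative.toAdd ψ).1 u v
    rw [inv_one, sv_one, sv_one]
  map_mul' s t := by
    ext ψ u v
    show (Multiplicative.toAdd ψ).1 (sv (s * t)⁻¹ u) (sv (s * t)⁻¹ v) =
      (Multiplicative.toAdd ψ).1 (sv t⁻¹ (sv s⁻¹ u)) (sv t⁻¹ (sv s⁻¹ v))
    rw [_root_.mul_inv_rev, sv_mul, sv_mul]

theorem phi_apply (hσ : ∀ x, σ x = x ^ 4) (ω : F) (A : Type*) [AddCommGroup A] (s : SU 3 F 4)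
    (ψ : Multiplicative (W σ ω A)) (u v : Fin 3 → F) :
    (Multiplicative.toAdd (phi hσ ω A s ψ)).1 u v = (Multiplicative.toAdd ψ).1 (sv s⁻¹ u) (sv s⁻¹ v) := rfl

/-! ### a nonzero element -/

open Classical in
/-- logarithm of the form, adjusted -/
noncomputable def m (σ : F →+* F) (lg : F → ZMod 5) (y z : Fin 3 → F) : ZMod 5 :=
  if hB (Fin 3) σ y z = 0 then lg (z 0 / y 0) else lg (hB (Fin 3) σ y z)

theorem m_ne {lg : F → ZMod 5} {y z : Fin 3 → F} (h : h⟪y, z⟫ ≠ 0) : m σ lg y z = lg h⟪y, z⟫ := by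
  unfold m; rw [if_neg h]

theorem m_eq {lg : F → ZMod 5} {y : Fin 3 → F} (hy : Is σ y) (hy0 : y 0 ≠ 0) (a : F) :
    m σ lg y (a • y) = lg a := by
  unfold m
  rw [if_pos (by rw [br_smul, hy.2, mul_zero])]
  congr 1
  rw [Pi.smul_apply, smul_eq_mul, mul_div_assoc, div_self hy0, mul_one]

open Classical in
/-- the element of the module attached to a vector of coefficients -/
noncomputable def psi (σ : F →+* F) (lg : F → ZMod 5) {ι : Type*} (x y : Fin 3 → F) (a : ι → ZMod 5)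
    (u v : Fin 3 → F) (i : ι) : ZMod 5 :=
  if Is σ u ∧ Is σ v then ((m σ lg y u - m σ lg x u) - (m σ lg y v - m σ lg x v)) * a i else 0

theorem psi_pos {lg : F → ZMod 5} {ι : Type*} {x y : Fin 3 → F} (a : ι → ZMod 5) {u v : Fin 3 → F}
    (hu : Is σ u) (hv : Is σ v) (i : ι) : psi σ lg x y a u v i =
      ((m σ lg y u - m σ lg x u) - (m σ lg y v - m σ lg x v)) * a i := by
  unfold psi; rw [if_pos ⟨hu, hv⟩]

theorem psi_neg {lg : F → ZMod 5} {ι : Type*} {x y : Fin 3 → F} (a : ι → ZMod 5) {u v : Fin 3 → F}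
    (h : ¬ (Is σ u ∧ Is σ v)) (i : ι) : psi σ lg x y a u v i = 0 := by
  unfold psi; rw [if_neg h]

section
variable [Fintype F] (hσ : ∀ x, σ x = x ^ 4) (hσ1 : σ ≠ RingHom.id F) (hσ2 : ∀ a, σ (σ a) = a)
  (h2 : (2 : F) = 0) {ω : F} (hω : ω ^ 2 + ω + 1 = 0) {lg : F → ZMod 5}
  (hm : ∀ a b : F, a ≠ 0 → b ≠ 0 → lg (a * b) = lg a + lg b)
include hσ hσ1 hσ2 h2 hω hm

omit [Fintype F] hσ hσ1 hσ2 h2 hω in
theorem lg_one : lg 1 = 0 := by
  have h := hm 1 1 one_ne_zero one_ne_zero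
  rw [mul_one] at h
  exact left_eq_add.1 h

omit [Fintype F] hσ hσ1 hσ2 h2 hω in
theorem lg_pow {a : F} (ha : a ≠ 0) (n : ℕ) : lg (a ^ n) = n * lg a := by
  induction n with
  | zero => rw [pow_zero, lg_one hm]; simp
  | succ n ih => rw [pow_succ, hm _ _ (pow_ne_zero _ ha) ha, ih]; push_cast; ring

omit [Fintype F] hσ hσ1 hσ2 h2 hω in
theorem lg_cube {a : F} (ha : a ^ 3 = 1) : lg a = 0 := by
  have ha0 : a ≠ 0 := by rintro rfl; norm_num at ha
  have h := lg_pow hm ha0 3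
  rw [ha, lg_one hm] at h
  have h5 : (5 : ZMod 5) = 0 := by decide
  push_cast at h
  linear_combination (-2 : ZMod 5) * h - lg a * h5

omit [Fintype F] hσ hσ1 hσ2 h2 hω in
theorem lg_mulc {a t : F} (ha : a ≠ 0) (ht : t ^ 3 = 1) : lg (t * a) = lg a := by
  have ht0 : t ≠ 0 := by rintro rfl; norm_num at ht
  rw [hm _ _ ht0 ha, lg_cube hm ht, zero_add]

omit [Fintype F] hσ hσ1 hσ2 h2 hω in
theorem lg_div {a b : F} (ha : a ≠ 0) (hb : b ≠ 0) : lg (a / b) = lg a - lg b := by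
  have h := hm (a / b) b (div_ne_zero ha hb) hb
  rw [div_mul_cancel₀ _ hb] at h
  rw [h]; ring

omit h2 hω hσ in
theorem m_smul {y z : Fin 3 → F} (hy : Is σ y) (hy0 : y 0 ≠ 0) (hz : Is σ z) {c : F} (hc : c ≠ 0) :
    m σ lg y (c • z) = lg c + m σ lg y z := by
  by_cases h : h⟪y, z⟫ = 0
  · obtain ⟨a, ha, rfl⟩ := witt hσ1 hσ2 hy hz h
    rw [smul_smul, m_eq hy hy0, m_eq hy hy0, hm _ _ hc ha]
  · rw [m_ne h, m_ne (by rw [br_smul]; exact mul_ne_zero hc h), br_smul, hm _ _ hc h]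

/-- main property: the values on a block add to zero -/
theorem m_block {y e f : Fin 3 → F} (hy : Is σ y) (hy0 : y 0 ≠ 0) (he : Is σ e) (hf : Is σ f) (hef : h⟪e, f⟫ = 1) :
    m σ lg y e + (m σ lg y f + m σ lg y (f + e) + m σ lg y (f + ω • e) + m σ lg y (f + ω ^ 2 • e)) = 0 := by
  have h5 : (5 : ZMod 5) = 0 := by decide
  have hfe : h⟪f, e⟫ = 1 := by rw [← hB_symm hσ2, hef, map_one]
  have w3 : ω ^ 3 = 1 := by linear_combination (ω - 1) * hω
  have w0 : ω ≠ 0 := by rintro rfl; norm_num at hω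
  have w23 : (ω ^ 2) ^ 3 = 1 := by rw [← pow_mul, mul_comm, pow_mul, w3, one_pow]
  have sw : σ ω = ω := by rw [hσ]; linear_combination ω * w3
  have hbr : ∀ t : F, h⟪y, f + t • e⟫ = h⟪y, f⟫ + t * h⟪y, e⟫ := by
    intro t; rw [br_add, br_smul]
  have hbl : ∀ t : F, h⟪f + t • e, e⟫ = 1 := by
    intro t; rw [bl_add, bl_smul, he.2, mul_zero, add_zero, hfe]
  have hiso : ∀ t : F, σ t = t → Is σ (f + t • e) := by
    intro t ht
    refine ⟨?_, ?_⟩
    · intro h0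
      have := hbl t
      rw [h0] at this
      simp at this
    · rw [br_add, bl_add, br_smul, bl_smul, bl_add, bl_smul, hf.2, he.2, hef, hfe, ht]
      linear_combination t * h2
  have e1 : f + e = f + (1 : F) • e := by rw [one_smul]
  have e0 : m σ lg y f = m σ lg y (f + (0 : F) • e) := by rw [zero_smul, add_zero]
  rw [e1, e0]
  set A := h⟪y, e⟫ with hA
  set B := h⟪y, f⟫ with hBB
  by_cases hA0 : A = 0
  · -- `e` is a multiple of `y`
    obtain ⟨a, ha, hae⟩ := witt hσ1 hσ2 hy he hA0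
    have h1 : σ a * B = 1 := by rw [hBB, ← bl_smul, ← hae, hef]
    have hB0 : B ≠ 0 := by intro h; rw [h, mul_zero] at h1; exact zero_ne_one h1
    have h3 : 4 * lg a + lg B = 0 := by
      have := hm (a ^ 4) B (pow_ne_zero _ ha) hB0
      rw [← hσ, h1, lg_one hm, hσ, lg_pow hm ha] at this
      push_cast at this
      exact this.symm
    have h4 : ∀ t : F, m σ lg y (f + t • e) = lg B := by
      intro t
      have : h⟪y, f + t • e⟫ = B := by rw [hbr, hA0, mul_zero, add_zero]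
      rw [m_ne (by rw [this]; exact hB0), this]
    rw [h4, h4, h4, h4]
    have h6 : m σ lg y e = lg a := by rw [hae, m_eq hy hy0]
    rw [h6]
    linear_combination 4 * h3 - 3 * lg a * h5
  -- the case that `y` is on the block
  have hcase : ∀ t : F, σ t = t → B + t * A = 0 → ∃ a : F, a ≠ 0 ∧ m σ lg y (f + t • e) = lg a ∧ 4 * lg a + lg A = 0 := by
    intro t ht h0
    have h0' : h⟪y, f + t • e⟫ = 0 := by rw [hbr]; exact h0
    obtain ⟨a, ha, hae⟩ := witt hσ1 hσ2 hy (hiso t ht) h0'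
    refine ⟨a, ha, by rw [hae, m_eq hy hy0], ?_⟩
    have h1 : σ a * A = 1 := by rw [hA, ← bl_smul, ← hae, hbl]
    have := hm (a ^ 4) A (pow_ne_zero _ ha) hA0
    rw [← hσ, h1, lg_one hm, hσ, lg_pow hm ha] at this
    push_cast at this
    exact this.symm
  have hval : ∀ t : F, B + t * A ≠ 0 → m σ lg y (f + t • e) = lg (B + t * A) := by
    intro t h
    rw [m_ne (by rw [hbr]; exact h), hbr]
  have hme : m σ lg y e = lg A := m_ne hA0
  rw [hme]
  have m1 : (-1 : F) = 1 := by linear_combination (-1 : F) * h2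
  -- differences of elements of the small field
  by_cases c0 : B + 0 * A = 0
  · obtain ⟨a, ha, h3, h4⟩ := hcase 0 (map_zero σ) c0
    have hB : B = 0 := by linear_combination c0
    have v1 : B + 1 * A = 1 * A := by rw [hB]; ring
    have v2 : B + ω * A = ω * A := by rw [hB]; ring
    have v3 : B + ω ^ 2 * A = ω ^ 2 * A := by rw [hB]; ring
    rw [h3, hval 1 (by rw [v1]; exact mul_ne_zero one_ne_zero hA0), hval ω (by rw [v2]; exact mul_ne_zero w0 hA0),
      hval (ω ^ 2) (by rw [v3]; exact mul_ne_zero (pow_ne_zero _ w0) hA0), v1, v2, v3,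
      lg_mulc hm hA0 (one_pow 3), lg_mulc hm hA0 w3, lg_mulc hm hA0 w23]
    linear_combination 4 * h4 - 3 * lg a * h5
  by_cases c1 : B + 1 * A = 0
  · obtain ⟨a, ha, h3, h4⟩ := hcase 1 (map_one σ) c1
    have hB : B = A := by linear_combination c1 - A * h2
    have v1 : B + 0 * A = 1 * A := by rw [hB]; ring
    have v2 : B + ω * A = ω ^ 2 * A := by rw [hB]; linear_combination A * (-1 : F) * hω + (A + ω * A) * h2
    have v3 : B + ω ^ 2 * A = ω * A := by rw [hB]; linear_combination A * hω - (ω * A) * h2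
    rw [h3, hval 0 (by rw [v1]; exact mul_ne_zero one_ne_zero hA0), hval ω (by rw [v2]; exact mul_ne_zero (pow_ne_zero _ w0) hA0),
      hval (ω ^ 2) (by rw [v3]; exact mul_ne_zero w0 hA0), v1, v2, v3,
      lg_mulc hm hA0 (one_pow 3), lg_mulc hm hA0 w3, lg_mulc hm hA0 w23]
    linear_combination 4 * h4 - 3 * lg a * h5
  by_cases c2 : B + ω * A = 0
  · obtain ⟨a, ha, h3, h4⟩ := hcase ω sw c2
    have hB : B = ω * A := by linear_combination c2 - ω * A * h2
    have v1 : B + 0 * A = ω * A := by rw [hB]; ring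
    have v2 : B + 1 * A = ω ^ 2 * A := by rw [hB]; linear_combination A * (-1 : F) * hω + (A + ω * A) * h2
    have v3 : B + ω ^ 2 * A = 1 * A := by rw [hB]; linear_combination A * hω - A * h2
    rw [h3, hval 0 (by rw [v1]; exact mul_ne_zero w0 hA0), hval 1 (by rw [v2]; exact mul_ne_zero (pow_ne_zero _ w0) hA0),
      hval (ω ^ 2) (by rw [v3]; exact mul_ne_zero one_ne_zero hA0), v1, v2, v3,
      lg_mulc hm hA0 (one_pow 3), lg_mulc hm hA0 w3, lg_mulc hm hA0 w23]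
    linear_combination 4 * h4 - 3 * lg a * h5
  by_cases c3 : B + ω ^ 2 * A = 0
  · obtain ⟨a, ha, h3, h4⟩ := hcase (ω ^ 2) (by rw [map_pow, sw]) c3
    have hB : B = ω ^ 2 * A := by linear_combination c3 - ω ^ 2 * A * h2
    have v1 : B + 0 * A = ω ^ 2 * A := by rw [hB]; ring
    have v2 : B + 1 * A = ω * A := by rw [hB]; linear_combination A * hω - (ω * A) * h2
    have v3 : B + ω * A = 1 * A := by rw [hB]; linear_combination A * hω - A * h2
    rw [h3, hval 0 (by rw [v1]; exact mul_ne_zero (pow_ne_zero _ w0) hA0), hval 1 (by rw [v2]; exact mul_ne_zero w0 hA0),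
      hval ω (by rw [v3]; exact mul_ne_zero one_ne_zero hA0), v1, v2, v3,
      lg_mulc hm hA0 (one_pow 3), lg_mulc hm hA0 w3, lg_mulc hm hA0 w23]
    linear_combination 4 * h4 - 3 * lg a * h5
  -- the general case
  rw [hval 0 c0, hval 1 c1, hval ω c2, hval (ω ^ 2) c3, ← hm _ _ c0 c1, ← hm _ _ (mul_ne_zero c0 c1) c2,
    ← hm _ _ (mul_ne_zero (mul_ne_zero c0 c1) c2) c3,
    ← hm _ _ hA0 (mul_ne_zero (mul_ne_zero (mul_ne_zero c0 c1) c2) c3)]
  apply lg_cube hm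
  set P := A * ((B + 0 * A) * (B + 1 * A) * (B + ω * A) * (B + ω ^ 2 * A)) with hP
  have hP0 : P ≠ 0 := mul_ne_zero hA0 (mul_ne_zero (mul_ne_zero (mul_ne_zero c0 c1) c2) c3)
  have hP1 : P = A * σ B + σ A * B := by
    rw [hP, hσ, hσ]
    linear_combination (A * B * (B + A) * (A * B)) * hω + (A * B * (B + A) * A ^ 2) * w3
  have hP2 : σ P = P := by
    rw [hP1, map_add, map_mul, map_mul, hσ2, hσ2]; ring
  rw [hσ] at hP2
  have h6 : P * (P ^ 3 - 1) = 0 := by linear_combination hP2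
  rcases mul_eq_zero.1 h6 with h | h
  · exact absurd h hP0
  · exact sub_eq_zero.1 h

/-- the block points are isotropic -/
theorem is_block {e f : Fin 3 → F} (he : Is σ e) (hf : Is σ f) (hef : h⟪e, f⟫ = 1) {t : F} (ht : σ t = t) :
    Is σ (f + t • e) := by
  have hfe : h⟪f, e⟫ = 1 := by rw [← hB_symm hσ2, hef, map_one]
  refine ⟨?_, ?_⟩
  · intro h0
    have : h⟪f + t • e, e⟫ = 1 := by rw [bl_add, bl_smul, he.2, mul_zero, add_zero, hfe]
    rw [h0] at this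
    simp at this
  · rw [br_add, bl_add, br_smul, bl_smul, bl_add, bl_smul, hf.2, he.2, hef, hfe, ht]
    linear_combination t * h2

theorem psi_mem {ι : Type*} (a : ι → ZMod 5) {x y : Fin 3 → F} (hx : Is σ x) (hx0 : x 0 ≠ 0) (hy : Is σ y)
    (hy0 : y 0 ≠ 0) : psi σ lg x y a ∈ W σ ω (ι → ZMod 5) := by
  have h5 : (5 : ZMod 5) = 0 := by decide
  have w3 : ω ^ 3 = 1 := by linear_combination (ω - 1) * hω
  have sw : σ ω = ω := by rw [hσ]; linear_combination ω * w3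
  refine mem_W.2 ⟨fun u v h => ?_, fun u v w hu hv hw => ?_, fun c u v hc hu hv => ?_, fun e f v he hf hv h => ?_⟩
  · funext i
    exact psi_neg a h i
  · funext i
    show psi σ lg x y a u v i + psi σ lg x y a v w i = psi σ lg x y a u w i
    rw [psi_pos a hu hv, psi_pos a hv hw, psi_pos a hu hw]
    ring
  · funext i
    rw [psi_pos a (hu.smul hc) hv, psi_pos a hu hv, m_smul hσ1 hσ2 hm hy hy0 hu hc, m_smul hσ1 hσ2 hm hx hx0 hu hc]
    ring
  · have i0 : Is σ (f + e) := by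
      have := is_block hσ hσ1 hσ2 h2 hω hm he hf h (map_one σ)
      rwa [one_smul] at this
    have i1 := is_block hσ hσ1 hσ2 h2 hω hm he hf h sw
    have i2 := is_block hσ hσ1 hσ2 h2 hω hm he hf h (t := ω ^ 2) (by rw [map_pow, sw])
    have b1 := m_block hσ hσ1 hσ2 h2 hω hm hy hy0 he hf h
    have b2 := m_block hσ hσ1 hσ2 h2 hω hm hx hx0 he hf h
    funext i
    show psi σ lg x y a e v i + (psi σ lg x y a f v i + psi σ lg x y a (f + e) v i + psi σ lg x y a (f + ω • e) v i +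
      psi σ lg x y a (f + ω ^ 2 • e) v i) = 0
    rw [psi_pos a he hv, psi_pos a hf hv, psi_pos a i0 hv, psi_pos a i1 hv, psi_pos a i2 hv]
    linear_combination (a i) * b1 - (a i) * b2 - (a i) * (m σ lg y v - m σ lg x v) * h5

/-- the module is large -/
theorem card_W (k : ℕ) {x y u v : Fin 3 → F} (hx : Is σ x) (hx0 : x 0 ≠ 0) (hy : Is σ y)
    (hy0 : y 0 ≠ 0) (hu : Is σ u) (hv : Is σ v)
    (hne : (m σ lg y u - m σ lg x u) - (m σ lg y v - m σ lg x v) ≠ 0) :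
    5 ^ k ≤ Nat.card (W σ ω (Fin k → ZMod 5)) := by
  classical
  haveI : Fact (Nat.Prime 5) := ⟨by norm_num⟩
  have h1 : Nat.card (Fin k → ZMod 5) = 5 ^ k := by
    rw [Nat.card_eq_fintype_card, Fintype.card_fun, ZMod.card, Fintype.card_fin]
  rw [← h1]
  haveI : Finite (Fin 3 → F) := inferInstance
  haveI : Finite (W σ ω (Fin k → ZMod 5)) := inferInstance
  apply Nat.card_le_card_of_injective
    (fun a : Fin k → ZMod 5 => (⟨psi σ lg x y a, psi_mem hσ hσ1 hσ2 h2 hω hm a hx hx0 hy hy0⟩ : W σ ω (Fin k → ZMod 5)))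
  intro a b hab
  have h3 := congrArg (fun w : W σ ω (Fin k → ZMod 5) => w.1 u v) hab
  funext i
  have h4 := congrFun h3 i
  change psi σ lg x y a u v i = psi σ lg x y b u v i at h4
  rw [psi_pos a hu hv, psi_pos b hu hv] at h4
  exact mul_left_cancel₀ hne h4

end

/-- the logarithm -/
theorem exists_lg [Fintype F] (hF : Fintype.card F = 16) : ∃ lg : F → ZMod 5,
    (∀ a b : F, a ≠ 0 → b ≠ 0 → lg (a * b) = lg a + lg b) ∧ (∀ a : F, a ≠ 0 → lg a = 0 → a ^ 3 = 1) := by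
  classical
  obtain ⟨g, hg⟩ := IsCyclic.exists_generator (α := Fˣ)
  have hord : orderOf g = 15 := by
    rw [orderOf_eq_card_of_forall_mem_zpowers hg, Nat.card_eq_fintype_card, Fintype.card_units, hF]
  have h1 : ∀ a : F, a ≠ 0 → ∃ n : ℕ, (g : F) ^ n = a := by
    intro a ha
    have h2 := (isOfFinOrder_of_finite g).mem_powers_iff_mem_zpowers.2 (hg (Units.mk0 a ha))
    obtain ⟨n, hn⟩ := Submonoid.mem_powers_iff _ _ |>.1 h2
    exact ⟨n, by rw [← Units.val_pow_eq_pow_val, hn, Units.val_mk0]⟩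
  have hmod : ∀ a b : ℕ, (g : F) ^ a = (g : F) ^ b → a ≡ b [MOD 15] := by
    intro a b h
    have h2 : g ^ a = g ^ b := Units.ext (by rw [Units.val_pow_eq_pow_val, Units.val_pow_eq_pow_val, h])
    have h3 := pow_eq_pow_iff_modEq.1 h2
    rwa [hord] at h3
  let ex : F → ℕ := fun a => if h : a ≠ 0 then (h1 a h).choose else 0
  have hex : ∀ a : F, a ≠ 0 → (g : F) ^ (ex a) = a := by
    intro a ha
    have : ex a = (h1 a ha).choose := dif_pos ha
    rw [this]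
    exact (h1 a ha).choose_spec
  refine ⟨fun a => (ex a : ZMod 5), ?_, ?_⟩
  · intro a b ha hb
    have h2 : ex (a * b) ≡ ex a + ex b [MOD 15] := by
      apply hmod
      rw [hex _ (mul_ne_zero ha hb), pow_add, hex a ha, hex b hb]
    have h3 : ex (a * b) ≡ ex a + ex b [MOD 5] := h2.of_dvd (by norm_num)
    have h4 := (ZMod.natCast_eq_natCast_iff _ _ 5).2 h3
    show ((ex (a * b) : ℕ) : ZMod 5) = (ex a : ZMod 5) + (ex b : ZMod 5)
    rw [h4]; push_cast; rfl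
  · intro a ha h
    have h2 : 5 ∣ ex a := (ZMod.natCast_eq_zero_iff _ _).1 h
    obtain ⟨k, hk⟩ := h2
    rw [← hex a ha, hk, ← pow_mul, show 5 * k * 3 = 15 * k by ring, pow_mul]
    have h3 : (g : F) ^ 15 = 1 := by
      rw [← Units.val_pow_eq_pow_val, ← hord, pow_orderOf_eq_one, Units.val_one]
    rw [h3, one_pow]

end Cfsg.Agent.H29.CartanMod
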