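import Cfsg.Agent.H27.CentralChar
import Cfsg.Agent.H3.Core4
import Mathlib

/-! # Class-sum eigenfunctions and irreducible character values -/

set_option autoImplicit false
set_option linter.all false

namespace Cfsg.Agent.H29.ClassEig

open Cfsg

section one

variable {G : Type*} [Group G] [Fintype G]

/-- `F` is an eigenfunction for the (averaged) class sum of `z` with eigenvalue `μ`. -/
def Eig (F : G → ℂ) (z : G) (μ : ℂ) : Prop :=
  ∀ g, ∑ x : G, F (x * z * x⁻¹ * g) = μ * (Fintype.card G : ℂ) * F g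

theorem exists_chi (F : G → ℂ) (g : G) (hF : F g ≠ 0) :
    ∃ χ : IrrCharacter G, ∀ z μ, Eig F z μ → (χ : G → ℂ) z = μ * (χ : G → ℂ) 1 := by
  classical
  haveI : Finite (IrrCharacter G) := by infer_instance
  haveI := Fintype.ofFinite (IrrCharacter G)
  have hG : (Fintype.card G : ℂ) ≠ 0 := by exact_mod_cast Fintype.card_ne_zero
  let Φ : IrrCharacter G → ℂ := fun χ => ∑ u : G, (χ : G → ℂ) u * F (u⁻¹ * g)
  have hsum : ∑ χ : IrrCharacter G, (χ : G → ℂ) 1 * Φ χ = (Fintype.card G : ℂ) * F g := by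
    simp only [Φ, Finset.mul_sum]
    rw [Finset.sum_comm]
    have h1 : ∀ u : G, ∑ χ : IrrCharacter G, (χ : G → ℂ) 1 * ((χ : G → ℂ) u * F (u⁻¹ * g)) =
        (if u = 1 then (Nat.card G : ℂ) else 0) * F (u⁻¹ * g) := by
      intro u
      rw [← H3.sum_degree_mul u, Finset.sum_mul]
      exact Finset.sum_congr rfl fun χ _ => by ring
    simp only [h1]
    simp [Nat.card_eq_fintype_card]
  have hex : ∃ χ : IrrCharacter G, Φ χ ≠ 0 := by
    by_contra hcon
    push Not at hcon
    simp only [hcon, mul_zero, Finset.sum_const_zero] at hsum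
    exact (mul_ne_zero hG hF) hsum.symm
  obtain ⟨χ, hχ⟩ := hex
  refine ⟨χ, fun z μ hz => ?_⟩
  have h10 : (χ : G → ℂ) 1 ≠ 0 := H27.isIrr_one_ne_zero χ.2
  have e1 : ∑ x : G, ∑ u : G, (χ : G → ℂ) u * F (u⁻¹ * (x * z * x⁻¹ * g)) =
      μ * (Fintype.card G : ℂ) * Φ χ := by
    rw [Finset.sum_comm]
    simp only [Φ, Finset.mul_sum]
    refine Finset.sum_congr rfl fun u _ => ?_
    rw [← Finset.mul_sum]
    have h2 := hz (u⁻¹ * g)
    rw [← Equiv.sum_comp (Equiv.mulLeft u⁻¹)] at h2
    have h3 : ∀ x : G, F (u⁻¹ * (x * z * x⁻¹ * g)) =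
        F ((Equiv.mulLeft u⁻¹) x * z * ((Equiv.mulLeft u⁻¹) x)⁻¹ * (u⁻¹ * g)) := by
      intro x
      congr 1
      simp only [Equiv.coe_mulLeft]
      group
    simp only [h3, h2]
    ring
  have e2 : ∑ x : G, ∑ u : G, (χ : G → ℂ) u * F (u⁻¹ * (x * z * x⁻¹ * g)) =
      (Fintype.card G : ℂ) * (χ : G → ℂ) z / (χ : G → ℂ) 1 * Φ χ := by
    have h1 : ∀ x : G, ∑ u : G, (χ : G → ℂ) u * F (u⁻¹ * (x * z * x⁻¹ * g)) =
        ∑ v : G, (χ : G → ℂ) (x * z * x⁻¹ * v) * F (v⁻¹ * g) := by
      intro x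
      rw [← Equiv.sum_comp (Equiv.mulLeft (x * z * x⁻¹))]
      refine Finset.sum_congr rfl fun v _ => ?_
      simp only [Equiv.coe_mulLeft]
      congr 2
      group
    simp only [h1]
    rw [Finset.sum_comm]
    simp only [Φ, Finset.mul_sum]
    refine Finset.sum_congr rfl fun v _ => ?_
    rw [← Finset.sum_mul, H27.irr_sum_conj_mul χ.2 z v]
    ring
  rw [e1] at e2
  have e3 := mul_right_cancel₀ hχ e2
  field_simp at e3
  linear_combination -e3

end one

section two

variable {G : Type*} [Group G]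

theorem nine (χ : G → ℂ) (hχ : IsIrrCharacter G χ) {z x y : G} (hz3 : z ^ 3 = 1)
    (hinv : IsConj z z⁻¹) (hc : x * y = z * (y * x)) (hxz : x * z = z * x) (hyz : y * z = z * y) :
    ∃ b : ℕ, χ z = χ 1 - 9 * b := by
  have hcj : χ z⁻¹ = χ z := (H27.isCharacter_isConj (H27.isIrr_isCharacter hχ) hinv).symm
  obtain ⟨n, ρ, hρ, rfl⟩ := hχ
  obtain ⟨ω, hω⟩ : ∃ ω : ℂ, IsPrimitiveRoot ω 3 :=
    ⟨_, Complex.isPrimitiveRoot_exp 3 (by norm_num)⟩
  have hω3 : ω ^ 3 = 1 := hω.pow_eq_one
  have hω1 : ω ≠ 1 := hω.ne_one (by norm_num)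
  have hω0 : ω ≠ 0 := hω.ne_zero (by norm_num)
  have hωs : 1 + ω + ω ^ 2 = 0 := by
    have : (ω - 1) * (1 + ω + ω ^ 2) = 0 := by linear_combination hω3
    rcases mul_eq_zero.mp this with h | h
    · exact absurd (sub_eq_zero.mp h) hω1
    · exact h
  let V := Fin n → ℂ
  let Z : Module.End ℂ V := ρ z
  have hZ3 : Z * (Z * Z) = 1 := by
    change ρ z * (ρ z * ρ z) = 1
    rw [← map_mul, ← map_mul, show z * (z * z) = 1 by rw [← hz3, pow_three], map_one]
  let e : Module.End ℂ V := (3 : ℂ)⁻¹ • (1 + ω ^ 2 • Z + ω • (Z * Z))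
  have hZe : Z * e = ω • e := by
    simp only [e, mul_smul_comm, mul_add, mul_one, hZ3, smul_add, smul_smul]
    have h1 : ω * ((3 : ℂ)⁻¹ * ω ^ 2) = 3⁻¹ := by linear_combination (3 : ℂ)⁻¹ * hω3
    rw [h1]
    have h2 : ω * ((3 : ℂ)⁻¹ * ω) = 3⁻¹ * ω ^ 2 := by ring
    rw [h2, mul_comm ω (3 : ℂ)⁻¹]
    abel
  let E : Submodule ℂ V := LinearMap.ker (Z - ω • (1 : Module.End ℂ V))
  have hE : ∀ v, v ∈ E ↔ Z v = ω • v := by
    intro v
    simp [E, sub_eq_zero]
  have hproj : LinearMap.IsProj E e := by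
    constructor
    · intro v
      rw [hE]
      exact congrArg (fun T : Module.End ℂ V => T v) hZe
    · intro v hv
      rw [hE] at hv
      have h2 : (Z * Z) v = ω ^ 2 • v := by
        change Z (Z v) = _
        rw [hv, map_smul, hv, smul_smul, sq]
      change (3 : ℂ)⁻¹ • (v + ω ^ 2 • Z v + ω • (Z * Z) v) = v
      rw [h2, hv, smul_smul, smul_smul]
      have h3 : ω ^ 2 * ω = 1 := by linear_combination hω3
      have h4 : ω * ω ^ 2 = 1 := by linear_combination hω3
      rw [h3, h4, one_smul, show v + v + v = (3 : ℂ) • v by module, smul_smul]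
      norm_num
  have htr := hproj.trace
  have htr2 : LinearMap.trace ℂ V e = (3 : ℂ)⁻¹ * (n + ω ^ 2 * ρ.character z + ω * ρ.character z) := by
    simp only [e, map_smul, map_add, smul_eq_mul]
    have h1 : LinearMap.trace ℂ V (1 : Module.End ℂ V) = n := by
      rw [LinearMap.trace_one]
      simp [V]
    have h2 : LinearMap.trace ℂ V Z = ρ.character z := rfl
    have h3 : LinearMap.trace ℂ V (Z * Z) = ρ.character z := by
      rw [← hcj]
      change LinearMap.trace ℂ V (ρ z * ρ z) = LinearMap.trace ℂ V (ρ z⁻¹)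
      rw [← map_mul]
      congr 2
      rw [eq_inv_iff_mul_eq_one, ← hz3, pow_three']
    rw [h1, h2, h3]
  have h1n : ρ.character 1 = n := by
    rw [Representation.char_one]
    simp
  have h3d : 3 ∣ Module.finrank ℂ E := by
    have hres : ∀ w : G, w * z = z * w → ∀ v ∈ E, ρ w v ∈ E := by
      intro w hw v hv
      rw [hE] at hv ⊢
      change (ρ z * ρ w) v = _
      rw [← map_mul, ← hw, map_mul]
      change ρ w (ρ z v) = _
      have : ρ z v = ω • v := hv
      rw [this, map_smul]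
    let X' : Module.End ℂ E := (ρ x).restrict (hres x hxz)
    let Y' : Module.End ℂ E := (ρ y).restrict (hres y hyz)
    have hxi : x⁻¹ * z = z * x⁻¹ := by
      rw [inv_mul_eq_iff_eq_mul, ← mul_assoc, hxz, mul_assoc, mul_inv_cancel, mul_one]
    have hyi : y⁻¹ * z = z * y⁻¹ := by
      rw [inv_mul_eq_iff_eq_mul, ← mul_assoc, hyz, mul_assoc, mul_inv_cancel, mul_one]
    let Xi : Module.End ℂ E := (ρ x⁻¹).restrict (hres _ hxi)
    let Yi : Module.End ℂ E := (ρ y⁻¹).restrict (hres _ hyi)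
    have hX : X' * Xi = 1 := by
      ext v : 1
      apply Subtype.ext
      change (ρ x * ρ x⁻¹) (v : V) = v
      rw [← map_mul, mul_inv_cancel, map_one]; rfl
    have hY : Y' * Yi = 1 := by
      ext v : 1
      apply Subtype.ext
      change (ρ y * ρ y⁻¹) (v : V) = v
      rw [← map_mul, mul_inv_cancel, map_one]; rfl
    have hXY : X' * Y' = ω • (Y' * X') := by
      ext v : 1
      apply Subtype.ext
      change (ρ x * ρ y) (v : V) = ω • ((ρ y * ρ x) (v : V))
      rw [← map_mul, ← map_mul, hc, map_mul]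
      change ρ z (ρ (y * x) v) = _
      have hmem : ρ (y * x) (v : V) ∈ E := by
        rw [map_mul]
        exact hres y hyz _ (hres x hxz _ v.2)
      rw [hE] at hmem
      exact hmem
    have hd := congrArg (LinearMap.det) hXY
    rw [LinearMap.det_smul, map_mul, map_mul] at hd
    have hdX : LinearMap.det X' ≠ 0 := by
      intro h0
      have := congrArg LinearMap.det hX
      rw [map_mul, h0, zero_mul, map_one] at this
      exact zero_ne_one this
    have hdY : LinearMap.det Y' ≠ 0 := by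
      intro h0
      have := congrArg LinearMap.det hY
      rw [map_mul, h0, zero_mul, map_one] at this
      exact zero_ne_one this
    have h5 : ω ^ Module.finrank ℂ E = 1 := by
      have h6 : (ω ^ Module.finrank ℂ E - 1) * (LinearMap.det X' * LinearMap.det Y') = 0 := by
        linear_combination -hd
      rcases mul_eq_zero.mp h6 with h | h
      · exact sub_eq_zero.mp h
      · exact absurd h (mul_ne_zero hdX hdY)
    exact (hω.pow_eq_one_iff_dvd _).mp h5
  obtain ⟨b, hb⟩ := h3d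
  refine ⟨b, ?_⟩
  rw [htr, hb] at htr2
  push_cast at htr2
  rw [h1n]
  have hω2 : ω ^ 2 = -1 - ω := by linear_combination hωs
  rw [hω2] at htr2
  linear_combination 3 * htr2

end two

end Cfsg.Agent.H29.ClassEig
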