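import Cfsg.Agent.H29.ClassEig
import Cfsg.Agent.H3.Ind
import Cfsg.Prelude.Def_DegreeGraph

/-! # Degree divisibility from class-sum eigenfunctions; the graph for order 6048 -/

set_option autoImplicit false
set_option linter.all false

namespace Cfsg.Agent.H29.ClassEig

open Cfsg

section fam

variable {G : Type*} [Group G] [Fintype G]

theorem eig_fam {ι : Type*} [Fintype ι] (r : ι → G) (F : G → ℂ) (z : G) (ν : ℂ)
    (hι : (Fintype.card ι : ℂ) ≠ 0)
    (h : ∀ x g, ∑ i, F (x * (r i * z * (r i)⁻¹) * x⁻¹ * g) = ν * F g) :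
    Eig F z (ν / Fintype.card ι) := by
  intro g
  have h1 : ∑ x : G, ∑ i, F (x * (r i * z * (r i)⁻¹) * x⁻¹ * g) = (Fintype.card G : ℂ) * (ν * F g) := by
    simp only [h]
    simp
  rw [Finset.sum_comm] at h1
  have h2 : ∀ i, ∑ x : G, F (x * (r i * z * (r i)⁻¹) * x⁻¹ * g) = ∑ x : G, F (x * z * x⁻¹ * g) := by
    intro i
    rw [← Equiv.sum_comp (Equiv.mulRight (r i)) (fun x => F (x * z * x⁻¹ * g))]
    refine Finset.sum_congr rfl fun x _ => ?_
    congr 1
    simp only [Equiv.coe_mulRight]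
    group
  simp only [h2] at h1
  rw [Finset.sum_const, Finset.card_univ, nsmul_eq_mul] at h1
  field_simp
  linear_combination h1

theorem int_val (χ : G → ℂ) (hχ : IsIrrCharacter G χ) (z : G) (q : ℚ) (h : χ z = q * χ 1) :
    ∃ m : ℤ, (m : ℚ) = q * charDegree χ := by
  apply H27.int_of_isIntegral_rat
  have := H27.isCharacter_isIntegral (H27.isIrr_isCharacter hχ) z
  rw [h, ← H27.charDegree_cast (H27.isIrr_isCharacter hχ)] at this
  push_cast
  exact this

end fam

theorem charDegrees_sub {A B : Type*} [Group A] [Group B] (e : A ≃* B) (d : ℕ)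
    (hd : d ∈ charDegrees B) : d ∈ charDegrees A := by
  obtain ⟨χ, rfl⟩ := hd
  refine ⟨⟨fun a => (χ : B → ℂ) (e a), (H3.isIrr_comp_equiv_iff e).mpr χ.2⟩, ?_⟩
  unfold charDegree
  simp

theorem charDegrees_of_equiv {G H : Type*} [Group G] [Group H] (e : G ≃* H) :
    charDegrees G = charDegrees H :=
  Set.ext fun d => ⟨charDegrees_sub e.symm d, charDegrees_sub e d⟩

section graph

variable {G : Type*} [Group G] [Finite G]

theorem prime_cases {p : ℕ} (hp : p.Prime) (h : p ∣ 6048) : p = 2 ∨ p = 3 ∨ p = 7 := by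
  have h1 : p ∣ 2 ^ 5 * (3 ^ 3 * 7) := by
    have : (2 ^ 5 * (3 ^ 3 * 7) : ℕ) = 6048 := by norm_num
    rw [this]; exact h
  rcases (Nat.Prime.dvd_mul hp).mp h1 with h2 | h2
  · exact Or.inl ((Nat.prime_dvd_prime_iff_eq hp Nat.prime_two).mp (hp.dvd_of_dvd_pow h2))
  · rcases (Nat.Prime.dvd_mul hp).mp h2 with h3 | h3
    · exact Or.inr (Or.inl ((Nat.prime_dvd_prime_iff_eq hp Nat.prime_three).mp (hp.dvd_of_dvd_pow h3)))
    · exact Or.inr (Or.inr ((Nat.prime_dvd_prime_iff_eq hp (by norm_num)).mp h3))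

theorem dvd_card {d : ℕ} (hd : d ∈ charDegrees G) : d ∣ Nat.card G := by
  haveI := Fintype.ofFinite G
  obtain ⟨χ, rfl⟩ := hd
  exact H27.charDegree_dvd_card χ.2

theorem degreePrimes_eq (hc : Nat.card G = 6048) (h6 : ∃ d ∈ charDegrees G, 6 ∣ d)
    (h14 : ∃ d ∈ charDegrees G, 14 ∣ d) : degreePrimes G = {2, 3, 7} := by
  ext p
  constructor
  · rintro ⟨hp, d, hd, hpd⟩
    have := prime_cases hp (hc ▸ hpd.trans (dvd_card hd))
    simpa using this
  · intro h
    have h' : p = 2 ∨ p = 3 ∨ p = 7 := by simpa using h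
    obtain ⟨d, hd, h6⟩ := h6
    obtain ⟨d', hd', h14⟩ := h14
    rcases h' with rfl | rfl | rfl
    · exact ⟨by norm_num, d, hd, (by norm_num : 2 ∣ 6).trans h6⟩
    · exact ⟨by norm_num, d, hd, (by norm_num : 3 ∣ 6).trans h6⟩
    · exact ⟨by norm_num, d', hd', (by norm_num : 7 ∣ 14).trans h14⟩

theorem degreeGraph_adj (hc : Nat.card G = 6048) (h6 : ∃ d ∈ charDegrees G, 6 ∣ d)
    (h14 : ∃ d ∈ charDegrees G, 14 ∣ d) (h21 : ∃ d ∈ charDegrees G, 21 ∣ d) (p q : ℕ) :
    (degreeGraph G).Adj p q ↔ p ≠ q ∧ (p = 2 ∨ p = 3 ∨ p = 7) ∧ (q = 2 ∨ q = 3 ∨ q = 7) := by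
  constructor
  · rintro ⟨hne, hp, hq, d, hd, hpd⟩
    have h1 := hc ▸ hpd.trans (dvd_card hd)
    exact ⟨hne, prime_cases hp ((dvd_mul_right p q).trans h1), prime_cases hq ((dvd_mul_left q p).trans h1)⟩
  · rintro ⟨hne, hp, hq⟩
    have h2 : Nat.Prime 2 := by norm_num
    have h3 : Nat.Prime 3 := by norm_num
    have h7 : Nat.Prime 7 := by norm_num
    rcases hp with rfl | rfl | rfl <;> rcases hq with rfl | rfl | rfl <;>
      first
        | exact absurd rfl hne
        | exact ⟨hne, by assumption, by assumption, h6⟩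
        | exact ⟨hne, by assumption, by assumption, h14⟩
        | exact ⟨hne, by assumption, by assumption, h21⟩

end graph

end Cfsg.Agent.H29.ClassEig
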