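import Mathlib
import Cfsg.Agent.H29.PrimeDeg
import Cfsg.Agent.S0678
import Cfsg.Agent.S0713

set_option autoImplicit false
set_option linter.unusedSectionVars false
set_option linter.style.haveILetI false
set_option linter.unusedTactic false

/-!
Even permutation groups of degree 8 with trivial solvable radical.
-/

namespace Cfsg.Agent.H29.Deg8

open Subgroup MulAction
open Cfsg.Agent.H29.TrivRad Cfsg.Agent.H29.PrimeDeg
open scoped Pointwise

/-- degree 7, nonsolvable -/
theorem deg7_card {S X : Type*} [Group S] [Finite S] [MulAction S X] [Finite X] [FaithfulSMul S X] [IsPretransitive S X]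
    (hX : Nat.card X = 7) (hs : ¬ Group.IsSolvable S) : 2520 ∣ Nat.card S ∨ (Nat.card S = 168 ∧ IsSimpleGroup S) := by
  classical
  haveI := Fintype.ofFinite X
  set T := (MulAction.toPermHom S X).range with hT
  have e : S ≃* T := imgEquiv S X
  haveI hTt : IsPretransitive T X := img_trans
  have hTs : ¬ Group.IsSolvable T := fun h => hs (isSolvable_congr e.symm h)
  have hc : Nat.card S = Nat.card T := Nat.card_congr e.toEquiv
  haveI : Nontrivial X := by rw [← Finite.one_lt_card_iff_nontrivial, hX]; norm_num
  by_cases hA : alternatingGroup X ≤ T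
  · left
    have h1 := Subgroup.card_dvd_of_le hA
    rw [nat_card_alternatingGroup, hX] at h1
    rw [hc]
    exact h1
  · right
    obtain ⟨h1, h2⟩ := Cfsg.Agent.S0678.result (by rw [← Nat.card_eq_fintype_card, hX]) T hTs hA
    refine ⟨by rw [hc, h1], ?_⟩
    haveI := h2
    haveI : Nontrivial T := h2.toNontrivial
    haveI : Nontrivial S := e.toEquiv.nontrivial
    exact IsSimpleGroup.isSimpleGroup_of_surjective e.symm.toMonoidHom e.symm.surjective

/-- an even involution of degree 8 fixing a point fixes four points -/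
theorem even_invol {σ : Equiv.Perm (Fin 8)} (h1 : orderOf σ = 2) (hs : Equiv.Perm.sign σ = 1) {x : Fin 8} (hx : σ x = x) :
    ∃ y z : Fin 8, y ≠ z ∧ y ≠ x ∧ z ≠ x ∧ σ y = y ∧ σ z = z := by
  obtain ⟨n, hn⟩ := Equiv.Perm.cycleType_prime_order (σ := σ) (by rw [h1]; norm_num)
  rw [h1] at hn
  have h2 := Equiv.Perm.sign_of_cycleType σ
  rw [hs, hn, Multiset.sum_replicate, Multiset.card_replicate, smul_eq_mul] at h2
  have h3 := σ.sum_cycleType
  rw [hn, Multiset.sum_replicate, smul_eq_mul] at h3
  have h4 : σ.support.card ≤ 7 := by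
    have h5 : σ.support ⊆ Finset.univ.erase x := by
      intro y hy
      rw [Finset.mem_erase]
      refine ⟨fun h => ?_, Finset.mem_univ _⟩
      rw [h, Equiv.Perm.mem_support] at hy
      exact hy hx
    have := Finset.card_le_card h5
    rwa [Finset.card_erase_of_mem (Finset.mem_univ _), Finset.card_univ, Fintype.card_fin] at this
  have h6 : n = 1 := by
    have hn3 : n < 3 := by omega
    interval_cases n
    · exfalso
      revert h2
      decide
    · rfl
    · exfalso
      revert h2
      decide
  have h7 : (σ.supportᶜ.erase x).card = 3 := by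
    rw [Finset.card_erase_of_mem (by rw [Finset.mem_compl, Equiv.Perm.notMem_support]; exact hx), Finset.card_compl, Fintype.card_fin]
    omega
  obtain ⟨y, z, hy, hz, hyz⟩ := Finset.one_lt_card_iff.1 (by rw [h7]; norm_num : 1 < (σ.supportᶜ.erase x).card)
  rw [Finset.mem_erase, Finset.mem_compl, Equiv.Perm.notMem_support] at hy hz
  exact ⟨y, z, hyz, hy.1, hz.1, hy.2, hz.2⟩

theorem deg8 (K : Subgroup (Equiv.Perm (Fin 8))) (hK : K ≤ alternatingGroup (Fin 8)) [hT : IsPretransitive K (Fin 8)]
    (h7 : 7 ∣ Nat.card K) (hNS : NS K) :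
    K = alternatingGroup (Fin 8) ∨ Nat.card K = 168 ∨ (Nat.card K = 1344 ∧ IsSimpleGroup K) := by
  have hX : Nat.card (Fin 8) = 8 := Nat.card_fin 8
  haveI hnt : Nontrivial K := nontrivial_of_trans (X := Fin 8) (by rw [hX]; norm_num)
  obtain ⟨x, y, horb, hc, hf, hO⟩ := stab_data (S := K) (X := Fin 8) (p := 7) (by norm_num) hX h7
  haveI := hf
  have hA8 : Nat.card (alternatingGroup (Fin 8)) = 20160 := by
    rw [nat_card_alternatingGroup, Nat.card_fin]; decide
  have hK8 : Nat.card K ∣ 20160 := by rw [← hA8]; exact Subgroup.card_dvd_of_le hK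
  by_cases hs : Group.IsSolvable (stabilizer K x)
  · right; left
    obtain ⟨⟨d, hd, hcd⟩, hfix⟩ := prime_solv (S := stabilizer K x) (X := orbit (stabilizer K x) y) (p := 7) (by norm_num) hO hs
    have h5 : ¬ 5 ∣ Nat.card (stabilizer K x) := by
      intro h
      have := mod_le_one (q := 5) (by norm_num) hO hfix h
      norm_num at this
    have h2 : ¬ 2 ∣ Nat.card (stabilizer K x) := by
      intro h
      haveI : Fact (Nat.Prime 2) := ⟨by norm_num⟩
      obtain ⟨t, ht⟩ := exists_prime_orderOf_dvd_card' (G := stabilizer K x) 2 h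
      have ho : orderOf ((t : K) : Equiv.Perm (Fin 8)) = 2 := by rw [Subgroup.orderOf_coe, Subgroup.orderOf_coe]; exact ht
      have hsg : Equiv.Perm.sign ((t : K) : Equiv.Perm (Fin 8)) = 1 := Equiv.Perm.mem_alternatingGroup.1 (hK (t : K).2)
      have hfx : ((t : K) : Equiv.Perm (Fin 8)) x = x := t.2
      obtain ⟨a, b, hab, ha, hb, hfa, hfb⟩ := even_invol ho hsg hfx
      have ha' : a ∈ orbit (stabilizer K x) y := by rw [horb]; exact ha
      have hb' : b ∈ orbit (stabilizer K x) y := by rw [horb]; exact hb
      have h1 := hfix t ⟨a, ha'⟩ ⟨b, hb'⟩ (fun h => hab (congrArg Subtype.val h)) (Subtype.ext hfa) (Subtype.ext hfb)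
      rw [h1, orderOf_one] at ht
      norm_num at ht
    have hd0 : d ≠ 0 := by
      rintro rfl
      have : Nat.card (stabilizer K x) ≠ 0 := Nat.card_pos.ne'
      omega
    rw [hcd] at h2 h5
    have hd13 : d = 1 ∨ d = 3 := by
      interval_cases d <;> first | (left; rfl) | (right; rfl) | (exfalso; revert h2; norm_num; done) | (exfalso; revert h5; norm_num; done)
    rw [hcd] at hc
    rcases hd13 with rfl | rfl
    · exfalso
      exact hNS.not_solvable (Cfsg.Agent.S0144.result 2 7 3 1 (by norm_num) (by norm_num) (by rw [hc]; norm_num))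
    · rw [hc]
  · rcases deg7_card hO hs with h | ⟨h, hsimp⟩
    · left
      obtain ⟨k, hk⟩ := h
      rw [hk] at hc
      have h1 : Nat.card K = 20160 := by
        obtain ⟨m, hm⟩ := hK8
        rw [hc] at hm
        have hkm : k * m = 1 := by nlinarith
        have hk1 : k = 1 := Nat.eq_one_of_mul_eq_one_right hkm
        rw [hc, hk1]
      exact Subgroup.eq_of_le_of_card_ge hK (by rw [hA8, h1])
    · right; right
      have hc' : Nat.card K = 1344 := by rw [hc, h]
      refine ⟨hc', ⟨fun N hN => ?_⟩⟩
      by_cases hne : N = ⊥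
      · left; exact hne
      right
      -- N is transitive
      obtain ⟨n, hn, hn1⟩ : ∃ n ∈ N, n ≠ 1 := by
        obtain ⟨a, ha⟩ := (Subgroup.ne_bot_iff_exists_ne_one).1 hne
        exact ⟨a.1, a.2, fun h => ha (Subtype.ext h)⟩
      obtain ⟨w, hw⟩ : ∃ w : Fin 8, n • w ≠ w := by
        by_contra hcon
        push Not at hcon
        apply hn1
        apply FaithfulSMul.eq_of_smul_eq_smul (α := Fin 8)
        intro x; rw [hcon x, one_smul]
      obtain ⟨k, hk⟩ := exists_smul_eq K w x
      have hn' : k * n * k⁻¹ ∈ N := hN.conj_mem n hn k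
      have hmove : (k * n * k⁻¹) • x ≠ x := by
        rw [← hk, ← smul_smul, inv_smul_smul, ← smul_smul]
        intro h
        exact hw (smul_left_cancel k h)
      have htrN : ∀ z : Fin 8, ∃ m ∈ N, m • x = z := by
        intro z
        by_cases hz : z = x
        · exact ⟨1, N.one_mem, by rw [one_smul, hz]⟩
        · have hz1 : (k * n * k⁻¹) • x ∈ orbit (stabilizer K x) y := by rw [horb]; exact hmove
          have hz2 : z ∈ orbit (stabilizer K x) y := by rw [horb]; exact hz
          obtain ⟨p1, hp1⟩ := hz1
          obtain ⟨p2, hp2⟩ := hz2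
          set p : stabilizer K x := p2 * p1⁻¹ with hp
          have hpx : (p : K) • x = x := p.2
          have hpz : (p : K) • ((k * n * k⁻¹) • x) = z := by
            have h1 : (p1 : K) • y = (k * n * k⁻¹) • x := hp1
            have h2 : (p2 : K) • y = z := hp2
            rw [← h1, hp, Subgroup.coe_mul, ← smul_smul, Subgroup.coe_inv, inv_smul_smul, h2]
          refine ⟨p * (k * n * k⁻¹) * (p : K)⁻¹, hN.conj_mem _ hn' _, ?_⟩
          have hpx' : (p : K)⁻¹ • x = x := by rw [inv_smul_eq_iff, hpx]
          rw [← smul_smul, hpx', ← smul_smul, hpz]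
      haveI hNt : IsPretransitive N (Fin 8) := by
        refine ⟨fun a b => ?_⟩
        obtain ⟨m, hm, hma⟩ := htrN a
        obtain ⟨m', hm', hmb⟩ := htrN b
        refine ⟨⟨m' * m⁻¹, N.mul_mem hm' (N.inv_mem hm)⟩, ?_⟩
        change (m' * m⁻¹) • a = b
        rw [← hma, ← smul_smul, inv_smul_smul, hmb]
      have hNc : Nat.card N = 8 * Nat.card (stabilizer N x) := by
        have h1 := MulAction.index_stabilizer_of_transitive N x
        rw [← Subgroup.card_mul_index (stabilizer N x), h1, hX, mul_comm]
      have hst : Nat.card (stabilizer N x) = Nat.card ((N.subgroupOf (stabilizer K x)) : Subgroup (stabilizer K x)) := by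
        refine Nat.card_congr
          { toFun := fun a => ⟨⟨a.1.1, a.2⟩, a.1.2⟩
            invFun := fun a => ⟨⟨a.1.1, a.2⟩, a.1.2⟩
            left_inv := fun a => rfl
            right_inv := fun a => rfl }
      haveI := hsimp
      haveI hnn : (N.subgroupOf (stabilizer K x)).Normal := inferInstance
      rcases hnn.eq_bot_or_eq_top with h1 | h1
      · exfalso
        rw [h1, Subgroup.card_bot] at hst
        rw [hst] at hNc
        exact hne (hNS.eq_one_of_card hN (p := 2) (q := 3) (a := 3) (b := 0) (by norm_num) (by norm_num) (by rw [hNc]; norm_num))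
      · apply Subgroup.eq_top_of_card_eq
        rw [hNc, hst, h1, Subgroup.card_top, h, hc']

/-- a transitive group of degree 8 with an element of order 5 contains the alternating group -/
theorem five_eight (K : Subgroup (Equiv.Perm (Fin 8))) [hT : IsPretransitive K (Fin 8)] (h5 : 5 ∣ Nat.card K) :
    alternatingGroup (Fin 8) ≤ K := by
  classical
  have hX : Nat.card (Fin 8) = 8 := Nat.card_fin 8
  haveI : Fact (Nat.Prime 5) := ⟨by norm_num⟩
  obtain ⟨g, hg⟩ := exists_prime_orderOf_dvd_card' (G := K) 5 h5
  have hg' : orderOf (g : Equiv.Perm (Fin 8)) = 5 := by rw [Subgroup.orderOf_coe]; exact hg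
  have hcyc : (g : Equiv.Perm (Fin 8)).cycleType = {5} := by
    obtain ⟨n, hn⟩ := Equiv.Perm.cycleType_prime_order (σ := (g : Equiv.Perm (Fin 8))) (by rw [hg']; norm_num)
    have h1 := (g : Equiv.Perm (Fin 8)).sum_cycleType
    have h2 := Finset.card_le_univ (g : Equiv.Perm (Fin 8)).support
    rw [Fintype.card_fin, ← h1, hn, Multiset.sum_replicate, hg', smul_eq_mul] at h2
    have h4 : n = 0 := by omega
    rw [hn, h4, hg']
    rfl
  have hcycle : (g : Equiv.Perm (Fin 8)).IsCycle := by
    rw [← Equiv.Perm.card_cycleType_eq_one, hcyc]; rfl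
  have hsupp : (g : Equiv.Perm (Fin 8)).support.card = 5 := by
    rw [← Equiv.Perm.sum_cycleType, hcyc]; rfl
  have hprim : IsPreprimitive K (Fin 8) := by
    refine { toIsPretransitive := hT, isTrivialBlock_of_isBlock := ?_ }
    intro B hB
    by_cases hsub : B.Subsingleton
    · left; exact hsub
    right
    rw [Set.not_subsingleton_iff] at hsub
    obtain ⟨b, hb, b', hb', hbb⟩ := hsub
    obtain ⟨m, hm⟩ : ∃ m : Fin 8, m ∈ (g : Equiv.Perm (Fin 8)).support := by
      have : 0 < (g : Equiv.Perm (Fin 8)).support.card := by rw [hsupp]; norm_num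
      exact Finset.card_pos.1 this
    obtain ⟨k, hk⟩ := exists_smul_eq K b m
    have hB' : IsBlock K (k • B) := hB.translate k
    set B' : Set (Fin 8) := k • B with hBdef
    have hmB : m ∈ B' := ⟨b, hb, hk⟩
    have hcardB : B'.ncard = B.ncard := Set.ncard_smul_set k B
    have h2B : 2 ≤ B'.ncard := by
      rw [hcardB]
      have h1 : ({b, b'} : Set (Fin 8)) ⊆ B := by
        intro z hz
        rcases hz with rfl | rfl
        · exact hb
        · exact hb'
      have h2 := Set.ncard_le_ncard h1 (Set.toFinite _)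
      rwa [Set.ncard_pair hbb] at h2
    have hgB : g • B' = B' := by
      by_contra hne
      have hstep : ∀ i j : Fin 5, (g ^ (i : ℕ)) • B' = (g ^ (j : ℕ)) • B' → i = j := by
        intro i j hij
        by_contra hne'
        apply hne
        -- stabilizer argument
        have key : ∀ a c : ℕ, a < c → c < 5 → (g ^ a) • B' = (g ^ c) • B' → g • B' = B' := by
          intro a c hac hc5 h
          have h1 : g ^ (c - a) • B' = B' := by
            have h2 : g ^ c = g ^ a * g ^ (c - a) := by rw [← pow_add]; congr 1; omega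
            rw [h2, mul_smul] at h
            exact (smul_left_cancel (g ^ a) h).symm
          have h3 : g ^ (c - a) ∈ stabilizer K B' := h1
          have hcop : Nat.Coprime (c - a) 5 := by
            have : ∀ n < 5, 0 < n → Nat.Coprime n 5 := by decide
            exact this _ (by omega) (by omega)
          obtain ⟨e, he⟩ := Nat.exists_mul_mod_eq_one_of_coprime hcop (by norm_num)
          have h4 : g ∈ stabilizer K B' := by
            have h5 : g = (g ^ (c - a)) ^ e := by
              rw [← pow_mul]
              conv_lhs => rw [← pow_one g]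
              rw [← pow_mod_orderOf g ((c - a) * e), hg, he.2]
            rw [h5]; exact Subgroup.pow_mem _ h3 e
          exact h4
        rcases Nat.lt_trichotomy i j with h | h | h
        · exact key i j h j.2 hij
        · exact absurd (Fin.ext h) hne'
        · exact key j i h i.2 hij.symm
      have hinj : Function.Injective (fun x : Fin 5 × B' => (g ^ (x.1 : ℕ)) • (x.2 : Fin 8)) := by
        rintro ⟨i, x⟩ ⟨j, y⟩ hxy
        have hxy' : (g ^ (i : ℕ)) • (x : Fin 8) = (g ^ (j : ℕ)) • (y : Fin 8) := hxy
        have h1 : (g ^ (i : ℕ)) • B' = (g ^ (j : ℕ)) • B' := by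
          by_contra hne'
          have := hB' hne'
          rw [Set.disjoint_left] at this
          exact this ⟨x, x.2, rfl⟩ ⟨y, y.2, hxy'.symm⟩
        have h2 := hstep i j h1
        subst h2
        have h3 := smul_left_cancel _ hxy'
        exact Prod.ext rfl (Subtype.ext h3)
      have h1 := Nat.card_le_card_of_injective _ hinj
      rw [Nat.card_prod, Nat.card_fin, Nat.card_fin, Nat.card_coe_set_eq] at h1
      omega
    have hsub5 : ((g : Equiv.Perm (Fin 8)).support : Set (Fin 8)) ⊆ B' := by
      intro z hz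
      have hz' : z ∈ (g : Equiv.Perm (Fin 8)).support := hz
      rw [Equiv.Perm.mem_support] at hz' hm
      obtain ⟨n, hn⟩ := hcycle.exists_pow_eq hm hz'
      have h1 : ∀ n : ℕ, g ^ n • m ∈ B' := by
        intro n
        have h2 : g ^ n ∈ stabilizer K B' := Subgroup.pow_mem _ (show g ∈ stabilizer K B' from hgB) n
        have h3 : g ^ n • B' = B' := h2
        rw [← h3]; exact ⟨m, hmB, rfl⟩
      have := h1 n
      have e : g ^ n • m = ((g : Equiv.Perm (Fin 8)) ^ n) m := by
        rw [Subgroup.smul_def, Subgroup.coe_pow]; rfl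
      rw [e, hn] at this
      exact this
    have h5B : 5 ≤ B'.ncard := by
      rw [← hsupp, ← Set.ncard_coe_finset]
      exact Set.ncard_le_ncard hsub5 (Set.toFinite _)
    have hdvd : B'.ncard ∣ 8 := by
      have := hB'.ncard_dvd_card ⟨m, hmB⟩
      rwa [hX] at this
    have h8 : B'.ncard = 8 := by
      have : ∀ n < 9, 5 ≤ n → n ∣ 8 → n = 8 := by decide
      exact this _ (Nat.lt_succ_of_le (Nat.le_of_dvd (by norm_num) hdvd)) h5B hdvd
    apply Set.eq_of_subset_of_ncard_le (Set.subset_univ _)
    rw [Set.ncard_univ, hX, ← hcardB, h8]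
  exact Cfsg.Agent.S0713.result K hprim (p := 5) (by norm_num) (by rw [Fintype.card_fin]; norm_num)
    (by rw [Fintype.card_fin]) hcycle hsupp g.2

/-- the permutation part -/
theorem perm_main (K : Subgroup (Equiv.Perm (Fin 8))) (hK : K ≤ alternatingGroup (Fin 8)) (hne : Nontrivial K) (hNS : NS K) :
    (∃ n : ℕ, 5 ≤ n ∧ n ≤ 8 ∧ Nonempty (K ≃* alternatingGroup (Fin n))) ∨ Nonempty (K ≃* Equiv.Perm (Fin 5)) ∨
    Nonempty (K ≃* Equiv.Perm (Fin 6)) ∨ Nat.card K = 168 ∨ (Nat.card K = 1344 ∧ IsSimpleGroup K) := by
  classical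
  have hX : Nat.card (Fin 8) = 8 := Nat.card_fin 8
  have hA8 : Nat.card (alternatingGroup (Fin 8)) = 20160 := by
    rw [nat_card_alternatingGroup, Nat.card_fin]; decide
  have hK8 : Nat.card K ∣ 20160 := by rw [← hA8]; exact Subgroup.card_dvd_of_le hK
  have hcompl : ∀ x : Fin 8, Nat.card {y : Fin 8 // y ∉ orbit K x} + Nat.card (orbit K x) = 8 := by
    intro x
    have h1 := Set.ncard_add_ncard_compl (orbit K x)
    rw [hX] at h1
    have h2 : Nat.card {y : Fin 8 // y ∉ orbit K x} = ((orbit K x)ᶜ).ncard := by
      rw [← Nat.card_coe_set_eq]; rfl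
    rw [h2, Nat.card_coe_set_eq, add_comm]; exact h1
  by_cases h7 : 7 ∣ Nat.card K
  · obtain ⟨x, hx⟩ := exists_orbit_ge (S := K) (X := Fin 8) (by norm_num : Nat.Prime 7) h7
    have hcx := hcompl x
    rcases (by omega : Nat.card (orbit K x) = 7 ∨ Nat.card (orbit K x) = 8) with h | h
    · haveI := faithful_orbit hNS x (by omega)
      rcases deg7_card (S := K) (X := orbit K x) h hNS.not_solvable with h1 | ⟨h1, -⟩
      · -- K is alternating of degree 7
        left
        refine ⟨7, by norm_num, by norm_num, ?_⟩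
        apply equiv_alt (X := orbit K x) (by norm_num) h
        -- K fixes a point
        obtain ⟨y, hy⟩ : ∃ y : Fin 8, y ∉ orbit K x := by
          have : Nat.card {y : Fin 8 // y ∉ orbit K x} ≠ 0 := by omega
          obtain ⟨⟨y, hy⟩⟩ : Nonempty {y : Fin 8 // y ∉ orbit K x} := by
            by_contra hcon
            rw [not_nonempty_iff] at hcon
            exact this (Nat.card_eq_zero.2 (Or.inl hcon))
          exact ⟨y, hy⟩
        have hfy : ∀ k ∈ K, k y = y := by
          intro k hk
          by_contra hcon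
          have h2 : k y ∉ orbit K x := by
            intro h3
            apply hy
            obtain ⟨g, hg⟩ := h3
            have hg' : (g : Equiv.Perm (Fin 8)) x = k y := hg
            refine ⟨⟨k, hk⟩⁻¹ * g, ?_⟩
            change (k⁻¹ * (g : Equiv.Perm (Fin 8))) x = y
            rw [Equiv.Perm.mul_apply, hg']
            exact k.symm_apply_apply y
          have h4 : Nat.card {y : Fin 8 // y ∉ orbit K x} ≤ 1 := by omega
          haveI := Finite.card_le_one_iff_subsingleton.1 h4
          exact hcon (congrArg Subtype.val (Subsingleton.elim (⟨k y, h2⟩ : {y : Fin 8 // y ∉ orbit K x}) ⟨y, hy⟩))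
        have hle : K ≤ alternatingGroup (Fin 8) ⊓ stabilizer (Equiv.Perm (Fin 8)) y := fun k hk => ⟨hK hk, hfy k hk⟩
        have hst : Nat.card (alternatingGroup (Fin 8) ⊓ stabilizer (Equiv.Perm (Fin 8)) y : Subgroup (Equiv.Perm (Fin 8))) = 2520 := by
          have h2 : Nat.card (alternatingGroup (Fin 8) ⊓ stabilizer (Equiv.Perm (Fin 8)) y : Subgroup (Equiv.Perm (Fin 8))) =
              Nat.card (stabilizer (alternatingGroup (Fin 8)) y) := by
            refine Nat.card_congr
              { toFun := fun a => ⟨⟨a.1, a.2.1⟩, a.2.2⟩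
                invFun := fun a => ⟨a.1.1, ⟨a.1.2, a.2⟩⟩
                left_inv := fun a => rfl
                right_inv := fun a => rfl }
          haveI : IsPretransitive (alternatingGroup (Fin 8)) (Fin 8) :=
            alternatingGroup.isPretransitive_of_three_le_card (Fin 8) (by rw [hX]; norm_num)
          have h3 := MulAction.index_stabilizer_of_transitive (alternatingGroup (Fin 8)) y
          have h4 := Subgroup.card_mul_index (stabilizer (alternatingGroup (Fin 8)) y)
          rw [h3, hX, hA8] at h4
          omega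
        have h5 : Nat.card K ∣ 2520 := by rw [← hst]; exact Subgroup.card_dvd_of_le hle
        rw [Nat.dvd_antisymm h5 h1]; decide
      · exact Or.inr (Or.inr (Or.inr (Or.inl h1)))
    · haveI : IsPretransitive K (Fin 8) := by
        rw [isPretransitive_iff_orbit_eq_univ x]
        apply Set.eq_of_subset_of_ncard_le (Set.subset_univ _)
        rw [Set.ncard_univ, hX, ← Nat.card_coe_set_eq, h]
      rcases deg8 K hK h7 hNS with h1 | h1 | h1
      · left
        exact ⟨8, by norm_num, le_refl _, ⟨MulEquiv.subgroupCongr h1⟩⟩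
      · exact Or.inr (Or.inr (Or.inr (Or.inl h1)))
      · exact Or.inr (Or.inr (Or.inr (Or.inr h1)))
  · have h5 : 5 ∣ Nat.card K := by
      by_contra hcon
      apply hNS.not_solvable
      apply solvable_of_dvd (p := 2) (q := 3) (a := 6) (b := 2) (by norm_num) (by norm_num)
      have h1 : Nat.Coprime (Nat.card K) 5 := ((by norm_num : Nat.Prime 5).coprime_iff_not_dvd.2 hcon).symm
      have h2 : Nat.Coprime (Nat.card K) 7 := ((by norm_num : Nat.Prime 7).coprime_iff_not_dvd.2 h7).symm
      have h3 : Nat.card K ∣ (2 ^ 6 * 3 ^ 2) * 5 * 7 := by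
        rw [show (2 ^ 6 * 3 ^ 2) * 5 * 7 = 20160 by norm_num]; exact hK8
      exact h1.dvd_of_dvd_mul_right (h2.dvd_of_dvd_mul_right h3)
    obtain ⟨x, hx⟩ := exists_orbit_ge (S := K) (X := Fin 8) (by norm_num : Nat.Prime 5) h5
    have hcx := hcompl x
    have hdvd : Nat.card (orbit K x) ∣ Nat.card K := by
      rw [Nat.card_coe_set_eq, ← MulAction.index_stabilizer]
      exact Subgroup.index_dvd_card _
    rcases (by omega : Nat.card (orbit K x) = 5 ∨ Nat.card (orbit K x) = 6 ∨ Nat.card (orbit K x) = 7 ∨ Nat.card (orbit K x) = 8) with h | h | h | h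
    · haveI := faithful_orbit hNS x (by omega)
      rcases deg5 (S := K) (X := orbit K x) h hNS with h1 | h1
      · exact Or.inl ⟨5, le_refl _, by norm_num, h1⟩
      · exact Or.inr (Or.inl h1)
    · haveI := faithful_orbit hNS x (by omega)
      rcases deg6 (S := K) (X := orbit K x) h h5 hNS with h1 | h1 | h1 | h1
      · exact Or.inl ⟨5, le_refl _, by norm_num, h1⟩
      · exact Or.inr (Or.inl h1)
      · exact Or.inl ⟨6, by norm_num, by norm_num, h1⟩
      · exact Or.inr (Or.inr (Or.inl h1))
    · exact absurd (h ▸ hdvd) h7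
    · exfalso
      haveI hT : IsPretransitive K (Fin 8) := by
        rw [isPretransitive_iff_orbit_eq_univ x]
        apply Set.eq_of_subset_of_ncard_le (Set.subset_univ _)
        rw [Set.ncard_univ, hX, ← Nat.card_coe_set_eq, h]
      have h1 := Subgroup.card_dvd_of_le (five_eight K h5)
      rw [hA8] at h1
      exact h7 ((by norm_num : 7 ∣ 20160).trans h1)

end Cfsg.Agent.H29.Deg8
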