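import Mathlib

/-!
# prime graph of a split extension by a group of prime exponent (helper29)
-/

set_option autoImplicit false
set_option linter.style.haveILetI false

namespace Cfsg.Agent.H29.PGraph2

variable {G : Type*} [Group G] [Finite G] {N : Type*} [CommGroup N] [Finite N] {r : ℕ} (hr : r.Prime)
  (h5 : ∀ n : N, n ^ r = 1) (φ : G →* MulAut N) (hrG : r ∣ Nat.card G)
  (hq : ∀ q : ℕ, q.Prime → q ≠ r → q ∣ Nat.card G → (∃ g : G, orderOf g = r * q) ∨
    (∀ g : G, orderOf g = q → ∀ n : N, φ g n = n → n = 1))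

include hr hq in
theorem aux (q : ℕ) (hqp : q.Prime) (hqr : q ≠ r) (h : N ⋊[φ] G) (ho : orderOf h = r * q)
    (hg : orderOf (SemidirectProduct.rightHom h) = q) : ∃ g : G, orderOf g = r * q := by
  have hd : q ∣ Nat.card G := by rw [← hg]; exact orderOf_dvd_natCard _
  rcases hq q hqp hqr hd with h1 | hfix
  · exact h1
  · exfalso
    set g := SemidirectProduct.rightHom h with hgd
    have hrt : ∀ n : ℕ, (h ^ n).right = g ^ n := fun n => by
      have := map_pow (SemidirectProduct.rightHom (N := N) (G := G) (φ := φ)) h n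
      exact this
    have h13 : (h ^ q).right = 1 := by rw [hrt, ← hg, pow_orderOf_eq_one]
    set w := (h ^ q).left with hw
    have hcomm : h ^ r * h ^ q = h ^ q * h ^ r := by rw [← pow_add, ← pow_add, add_comm]
    have h1 := congrArg SemidirectProduct.left hcomm
    rw [SemidirectProduct.mul_left, SemidirectProduct.mul_left, h13, map_one, MulAut.one_apply, ← hw, hrt,
      mul_comm w] at h1
    have h2 : φ (g ^ r) w = w := mul_left_cancel h1
    have h3 : orderOf (g ^ r) = q := by
      rw [Nat.Coprime.orderOf_pow (by rw [hg]; exact (Nat.coprime_primes hqp hr).2 hqr), hg]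
    have h4 := hfix _ h3 w h2
    have h6 : h ^ q = 1 := SemidirectProduct.ext h4 h13
    have h7 := Nat.le_of_dvd hqp.pos (orderOf_dvd_of_pow_eq_one h6)
    rw [ho] at h7
    have := hr.two_le
    have := hqp.pos
    nlinarith

include hr h5 hrG hq in
theorem pg :
    (∀ p : ℕ, p.Prime → (p ∣ Nat.card G ↔ p ∣ Nat.card (N ⋊[φ] G))) ∧
    (∀ p q : ℕ, p.Prime → q.Prime → p ≠ q →
      ((∃ g : G, orderOf g = p * q) ↔ (∃ g : N ⋊[φ] G, orderOf g = p * q))) := by
  constructor
  · intro p hpp
    rw [SemidirectProduct.card]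
    refine ⟨fun h => h.mul_left _, fun h => ?_⟩
    rcases (Nat.Prime.dvd_mul hpp).1 h with h | h
    · haveI : Fact p.Prime := ⟨hpp⟩
      obtain ⟨n, hn⟩ := exists_prime_orderOf_dvd_card' p h
      have h1 := orderOf_dvd_of_pow_eq_one (h5 n)
      rw [hn] at h1
      have h2 : p = r := (Nat.prime_dvd_prime_iff_eq hpp hr).1 h1
      rw [h2]
      exact hrG
    · exact h
  · intro p q hpp hqp hpq
    constructor
    · rintro ⟨g, hg⟩
      exact ⟨SemidirectProduct.inr g, by rw [orderOf_injective _ SemidirectProduct.inr_injective, hg]⟩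
    · rintro ⟨h, ho⟩
      set g := SemidirectProduct.rightHom h with hgd
      have hn : orderOf g ∣ p * q := by rw [← ho]; exact orderOf_map_dvd _ h
      set n := orderOf g with hnn
      have hrt : (h ^ n).right = 1 := by
        have := map_pow (SemidirectProduct.rightHom (N := N) (G := G) (φ := φ)) h n
        change (h ^ n).right = g ^ n at this
        rw [this, hnn, pow_orderOf_eq_one]
      have hinl : h ^ n = SemidirectProduct.inl (h ^ n).left := SemidirectProduct.ext rfl hrt
      have h5n : h ^ (n * r) = 1 := by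
        rw [pow_mul, hinl, ← map_pow, h5, map_one]
      have hd : p * q ∣ n * r := by rw [← ho]; exact orderOf_dvd_of_pow_eq_one h5n
      obtain ⟨m, hm⟩ := hn
      have hn0 : 0 < n := orderOf_pos g
      have hm5 : m ∣ r := by
        rw [hm] at hd
        exact Nat.dvd_of_mul_dvd_mul_left hn0 hd
      rcases (Nat.dvd_prime hr).1 hm5 with rfl | rfl
      · exact ⟨g, by rw [← hnn, hm, mul_one]⟩
      · have h5d : m ∣ p * q := ⟨n, by rw [hm, mul_comm]⟩
        rcases (Nat.Prime.dvd_mul hr).1 h5d with h6 | h6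
        · have hp5 : m = p := (Nat.prime_dvd_prime_iff_eq hr hpp).1 h6
          subst hp5
          refine aux hr φ hq q hqp (Ne.symm hpq) h ho ?_
          have h7 : n * m = m * q := hm.symm
          rw [mul_comm] at h7
          exact Nat.eq_of_mul_eq_mul_left hr.pos h7
        · have hq5 : m = q := (Nat.prime_dvd_prime_iff_eq hr hqp).1 h6
          subst hq5
          have := aux hr φ hq p hpp hpq h (by rw [ho, mul_comm]) (by
            have h7 : n * m = p * m := hm.symm
            exact Nat.eq_of_mul_eq_mul_right hr.pos h7)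
          rwa [mul_comm] at this

/-- elements of order `p` are conjugate up to powers when `p` exactly divides the order -/
theorem conjp {G : Type*} [Group G] [Finite G] {p m : ℕ} (hp : p.Prime) (hc : Nat.card G = p * m) (hm : ¬ p ∣ m)
    (x g : G) (hx : orderOf x = p) (hg : orderOf g = p) : ∃ (c : G) (n : ℕ), x = c * g ^ n * c⁻¹ := by
  haveI : Fact p.Prime := ⟨hp⟩
  have hm0 : m ≠ 0 := by rintro rfl; simp at hm
  have hfac : (Nat.card G).factorization p = 1 := by
    rw [hc, Nat.factorization_mul hp.ne_zero hm0]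
    rw [Finsupp.add_apply, Nat.Prime.factorization_self hp, Nat.factorization_eq_zero_of_not_dvd hm]
  let P := Sylow.ofCard (p := p) (Subgroup.zpowers x) (by rw [Nat.card_zpowers, hx, hfac, pow_one])
  let Q := Sylow.ofCard (p := p) (Subgroup.zpowers g) (by rw [Nat.card_zpowers, hg, hfac, pow_one])
  obtain ⟨c, hc⟩ := MulAction.exists_smul_eq G Q P
  have h1 : x ∈ (c • Q : Sylow p G) := by
    rw [hc]
    exact Subgroup.mem_zpowers x
  rw [Sylow.smul_def] at h1
  obtain ⟨y, hy, hyx⟩ := h1
  obtain ⟨k, hk⟩ := (isOfFinOrder_of_finite g).mem_powers_iff_mem_zpowers.2 hy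
  refine ⟨c, k, ?_⟩
  rw [← hyx]
  change c * y * c⁻¹ = _
  rw [← hk]

end Cfsg.Agent.H29.PGraph2
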