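import Cfsg.Agent.H8.SuzG24
import Cfsg.Agent.H29.BinRep
import Cfsg.Agent.H29.PGraph2

/-!
# the natural module of `G₂(4)` over the field with two elements (helper29)
-/

set_option autoImplicit false
set_option linter.style.haveILetI false
set_option maxRecDepth 100000

namespace Cfsg.Agent.H29.G24Rep

open Matrix Cfsg Cfsg.Agent.H8 Cfsg.Agent.H29.BinRep

/-- columns of the six generators -/
def cl : List (List ℕ) := [
  [3162, 3289, 2052, 2056, 16, 3972, 2240, 128, 3748, 2560, 1024, 2048],
  [44, 128, 41, 8, 1608, 32, 64, 2, 2048, 512, 600, 256],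
  [90, 1170, 1968, 3139, 16, 1200, 2240, 128, 3344, 3380, 1024, 2048],
  [2386, 258, 4000, 2848, 363, 2824, 2408, 2176, 256, 512, 2188, 2048],
  [52, 256, 604, 1616, 16, 589, 1104, 2048, 2, 72, 1024, 128],
  [3290, 130, 1952, 1964, 16, 2080, 3007, 128, 2304, 1444, 1024, 2048]]

def cs (l j : ℕ) : ℕ := if l < 6 then (cl.getD l []).getD j 0 else 2 ^ j

theorem sq6 : ((List.range 6).all fun l => relC cs [l] 2) = true := by decide +kernel

theorem ge6 {l : ℕ} (h : 6 ≤ l) : mat (cs l) = 1 := by
  ext i j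
  show bt (cs l j) i = _
  have : cs l j = 2 ^ (j : ℕ) := if_neg (by omega)
  rw [this]
  have h1 := congrFun (dec_pow j) i
  change bt (2 ^ (j : ℕ)) i = _ at h1
  rw [h1, Matrix.one_apply, Pi.single_apply]

theorem sqAll (l : ℕ) : mat (cs l) * mat (cs l) = 1 := by
  by_cases h : l < 6
  · have h1 := rel_of (List.all_eq_true.1 sq6 l (List.mem_range.2 h))
    simpa [pow_two] using h1
  · rw [ge6 (by omega), one_mul]

def tt (l : ℕ) : (Matrix (Fin 12) (Fin 12) (ZMod 2))ˣ := ⟨mat (cs l), mat (cs l), sqAll l, sqAll l⟩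

theorem coe_word (u : List ℕ) : (((u.map tt).prod : (Matrix (Fin 12) (Fin 12) (ZMod 2))ˣ) : Matrix (Fin 12) (Fin 12) (ZMod 2)) =
    (u.map fun l => mat (cs l)).prod := by
  induction u with
  | nil => simp
  | cons l u ih => rw [List.map_cons, List.prod_cons, List.map_cons, List.prod_cons, Units.val_mul, ih]; rfl

theorem rels_ok : (G24t.rels2.all fun p => relC cs p.1 p.2) = true := by decide +kernel

theorem word_pow {u : List ℕ} {k : ℕ} (h : relC cs u k = true) : ((u.map tt).prod) ^ k = 1 := by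
  apply Units.ext
  rw [Units.val_pow_eq_pow_val, coe_word, rel_of h, Units.val_one]

/-- the check that a power of a word is not trivial -/
def neC (u : List ℕ) (k : ℕ) : Bool := (List.range 12).any fun j =>
  (itW cs u k (2 ^ j) != 2 ^ j) && decide (itW cs u k (2 ^ j) < 4096)

theorem word_ne {u : List ℕ} {k : ℕ} (h : neC u k = true) : ((u.map tt).prod) ^ k ≠ 1 := by
  intro he
  have h1 := congrArg Units.val he
  rw [Units.val_pow_eq_pow_val, coe_word, Units.val_one] at h1
  unfold neC at h
  rw [List.any_eq_true] at h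
  obtain ⟨j, hj, h2⟩ := h
  rw [Bool.and_eq_true] at h2
  have h3 := dec_itW cs u k (2 ^ j)
  rw [h1, Matrix.one_mulVec] at h3
  have hj' : j < 12 := List.mem_range.1 hj
  have h4 := dec_inj (by interval_cases j <;> norm_num) (of_decide_eq_true h2.2) h3
  have h5 := h2.1
  rw [← h4] at h5
  simp at h5

noncomputable def ψ : G24P.J →* (Matrix (Fin 12) (Fin 12) (ZMod 2))ˣ :=
  RG.lift 6 G24t.rels2 tt (fun l => Units.ext (sqAll l)) (fun l hl => Units.ext (ge6 hl))
    (fun p hp => word_pow (List.all_eq_true.1 rels_ok p hp))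

theorem ψ_gen (l : ℕ) : ψ (G24P.s l) = tt l := RG.lift_gen 6 G24t.rels2 _ _ _ _ l

theorem ψ_word (u : List ℕ) : ψ ((u.map G24P.s).prod) = (u.map tt).prod := by
  rw [map_list_prod, List.map_map]
  congr 1
  apply List.map_congr_left
  intro l _
  exact ψ_gen l

theorem ψ_inj : Function.Injective ψ := by
  apply injective_of_simple G24P.simple _ (G24P.s 0)
  rw [ψ_gen]
  intro h
  apply word_ne (u := [0]) (k := 1) (by decide +kernel)
  simpa using h

theorem order_word (u : List ℕ) : orderOf ((u.map G24P.s).prod) = orderOf ((u.map tt).prod) := by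
  rw [← ψ_word, orderOf_injective ψ ψ_inj]

theorem order_prime {u : List ℕ} {p : ℕ} (hp : p.Prime) (h : relC cs u p = true) (hne : neC u 1 = true) :
    orderOf ((u.map G24P.s).prod) = p := by
  haveI : Fact p.Prime := ⟨hp⟩
  rw [order_word]
  apply orderOf_eq_prime (word_pow h)
  intro h1
  apply word_ne hne
  rw [pow_one, h1]

def u7 : List ℕ := [4, 1, 2, 5, 1, 3, 0, 2]
def u13 : List ℕ := [2, 0, 4, 3, 2, 1, 5]
def u6 : List ℕ := [4, 5, 1]
def u10 : List ℕ := [1, 3, 0]

theorem ord7 : orderOf ((u7.map G24P.s).prod) = 7 := order_prime (by norm_num) (by decide +kernel) (by decide +kernel)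
theorem ord13 : orderOf ((u13.map G24P.s).prod) = 13 := order_prime (by norm_num) (by decide +kernel) (by decide +kernel)

theorem ord6 : orderOf ((u6.map G24P.s).prod) = 6 := by
  rw [order_word]
  apply orderOf_eq_of_pow_and_pow_div_prime (by norm_num) (word_pow (by decide +kernel))
  intro p hp hd
  have h3 : p = 2 ∨ p = 3 := by
    rw [show (6 : ℕ) = 2 * 3 by norm_num] at hd
    rcases (Nat.Prime.dvd_mul hp).1 hd with h | h
    · exact Or.inl ((Nat.prime_dvd_prime_iff_eq hp Nat.prime_two).1 h)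
    · exact Or.inr ((Nat.prime_dvd_prime_iff_eq hp Nat.prime_three).1 h)
  rcases h3 with rfl | rfl
  · exact word_ne (k := 3) (by decide +kernel)
  · exact word_ne (k := 2) (by decide +kernel)

theorem ord10 : orderOf ((u10.map G24P.s).prod) = 10 := by
  rw [order_word]
  apply orderOf_eq_of_pow_and_pow_div_prime (by norm_num) (word_pow (by decide +kernel))
  intro p hp hd
  have h3 : p = 2 ∨ p = 5 := by
    rw [show (10 : ℕ) = 2 * 5 by norm_num] at hd
    rcases (Nat.Prime.dvd_mul hp).1 hd with h | h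
    · exact Or.inl ((Nat.prime_dvd_prime_iff_eq hp Nat.prime_two).1 h)
    · exact Or.inr ((Nat.prime_dvd_prime_iff_eq hp (by norm_num)).1 h)
  rcases h3 with rfl | rfl
  · exact word_ne (k := 5) (by decide +kernel)
  · exact word_ne (k := 2) (by decide +kernel)

/-- the action on copies of the module -/
def act (k : ℕ) : (Matrix (Fin 12) (Fin 12) (ZMod 2))ˣ →* MulAut (Multiplicative (Fin k → Fin 12 → ZMod 2)) where
  toFun g := AddEquiv.toMultiplicative
    { toFun := fun v i => g.1 *ᵥ v i
      invFun := fun v i => g⁻¹.1 *ᵥ v i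
      left_inv := fun v => by funext i; simp [Matrix.mulVec_mulVec]
      right_inv := fun v => by funext i; simp [Matrix.mulVec_mulVec]
      map_add' := fun v w => by funext i; exact Matrix.mulVec_add _ _ _ }
  map_one' := by
    ext v i j
    show ((1 : (Matrix (Fin 12) (Fin 12) (ZMod 2))ˣ).1 *ᵥ (Multiplicative.toAdd v) i) j = (Multiplicative.toAdd v) i j
    simp
  map_mul' g h := by
    ext v i j
    show ((g * h).1 *ᵥ (Multiplicative.toAdd v) i) j = (g.1 *ᵥ (h.1 *ᵥ (Multiplicative.toAdd v) i)) j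
    rw [Matrix.mulVec_mulVec]
    rfl

theorem act_apply (k : ℕ) (g : (Matrix (Fin 12) (Fin 12) (ZMod 2))ˣ) (v : Multiplicative (Fin k → Fin 12 → ZMod 2)) (i : Fin k) :
    Multiplicative.toAdd (act k g v) i = g.1 *ᵥ (Multiplicative.toAdd v) i := rfl

theorem hfix (k : ℕ) {q m : ℕ} (hq : q.Prime) (hq2 : q % 2 = 1) (hc : Nat.card G24P.J = q * m) (hm : ¬ q ∣ m) {u : List ℕ}
    (hu : orderOf ((u.map G24P.s).prod) = q) (hs : sumC cs u q = true) (g : G24P.J) (hg : orderOf g = q)
    (n : Multiplicative (Fin k → Fin 12 → ZMod 2)) (h : ((act k).comp ψ) g n = n) : n = 1 := by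
  haveI : Finite G24P.J := Nat.finite_of_card_ne_zero (by rw [G24P.card_J]; norm_num)
  obtain ⟨c, j, hcj⟩ := PGraph2.conjp hq hc hm _ g hu hg
  have h3 : ∀ j : ℕ, ((act k).comp ψ) (g ^ j) n = n := by
    intro j
    induction j with
    | zero => rw [pow_zero, map_one, MulAut.one_apply]
    | succ j ih => rw [pow_succ, map_mul, MulAut.mul_apply, h, ih]
  set n' := ((act k).comp ψ) c n with hn'
  have h4 : ((act k).comp ψ) ((u.map G24P.s).prod) n' = n' := by
    rw [hn', ← MulAut.mul_apply, ← map_mul, hcj, inv_mul_cancel_right, map_mul, MulAut.mul_apply, h3]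
  have h7 : n' = 1 := by
    have h8 : Multiplicative.toAdd n' = 0 := by
      funext i
      have h5 := congrArg (fun w : Multiplicative (Fin k → Fin 12 → ZMod 2) => Multiplicative.toAdd w i) h4
      change (ψ ((u.map G24P.s).prod)).1 *ᵥ (Multiplicative.toAdd n') i = Multiplicative.toAdd n' i at h5
      rw [ψ_word, coe_word] at h5
      exact fixed_zero hq2 (sum_of hs) h5
    exact h8
  rw [hn'] at h7
  exact (MulEquiv.map_eq_one_iff _).1 h7

end Cfsg.Agent.H29.G24Rep
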