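import Cfsg.Agent.H18.PSU3a

/-!
# coded arithmetic in the field of 16 elements and in `SU₃(4)` (helper29)
-/

set_option autoImplicit false
set_option linter.style.haveILetI false
set_option linter.unusedSectionVars false
set_option linter.unusedSimpArgs false

namespace Cfsg.Agent.H29.GFq16

open Matrix Cfsg Cfsg.Agent.H5 Cfsg.Agent.H5.FormData Cfsg.Agent.H18

/-- pack four bits -/
def pk (a b c d : ℕ) : ℕ := a % 2 + 2 * (b % 2) + 4 * (c % 2) + 8 * (d % 2)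

def ad (x y : ℕ) : ℕ := pk (x + y) (x / 2 + y / 2) (x / 4 + y / 4) (x / 8 + y / 8)

/-- product; `t ^ 4 = t + 1` -/
def ml (x y : ℕ) : ℕ :=
  pk ((x % 2) * (y % 2) + ((x / 2 % 2) * (y / 8 % 2) + (x / 4 % 2) * (y / 4 % 2) + (x / 8 % 2) * (y / 2 % 2)))
    ((x % 2) * (y / 2 % 2) + (x / 2 % 2) * (y % 2) +
      ((x / 2 % 2) * (y / 8 % 2) + (x / 4 % 2) * (y / 4 % 2) + (x / 8 % 2) * (y / 2 % 2)) +
      ((x / 4 % 2) * (y / 8 % 2) + (x / 8 % 2) * (y / 4 % 2)))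
    ((x % 2) * (y / 4 % 2) + (x / 2 % 2) * (y / 2 % 2) + (x / 4 % 2) * (y % 2) +
      ((x / 4 % 2) * (y / 8 % 2) + (x / 8 % 2) * (y / 4 % 2)) + (x / 8 % 2) * (y / 8 % 2))
    ((x % 2) * (y / 8 % 2) + (x / 2 % 2) * (y / 4 % 2) + (x / 4 % 2) * (y / 2 % 2) + (x / 8 % 2) * (y % 2) +
      (x / 8 % 2) * (y / 8 % 2))

def cj (x : ℕ) : ℕ := pk (x + x / 2 + x / 4 + x / 8) (x / 2 + x / 8) (x / 4 + x / 8) (x / 8)

theorem pk_lt (a b c d : ℕ) : pk a b c d < 16 := by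
  unfold pk
  omega

theorem ad_lt (x y : ℕ) : ad x y < 16 := pk_lt _ _ _ _

abbrev C3 := ℕ × ℕ × ℕ
abbrev M3 := C3 × C3 × C3

def dot (r v : C3) : ℕ := ad (ml r.1 v.1) (ad (ml r.2.1 v.2.1) (ml r.2.2 v.2.2))
def mvC (A : M3) (v : C3) : C3 := (dot A.1 v, dot A.2.1 v, dot A.2.2 v)
def trC (A : M3) : M3 := ((A.1.1, A.2.1.1, A.2.2.1), (A.1.2.1, A.2.1.2.1, A.2.2.2.1),
  (A.1.2.2, A.2.1.2.2, A.2.2.2.2))
def rowC (r : C3) (B : M3) : C3 := (dot r B.1, dot r B.2.1, dot r B.2.2)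
/-- matrix product -/
def mmC (A B : M3) : M3 := (rowC A.1 (trC B), rowC A.2.1 (trC B), rowC A.2.2 (trC B))
def oneC : M3 := ((1, 0, 0), (0, 1, 0), (0, 0, 1))
def cjv (v : C3) : C3 := (cj v.1, cj v.2.1, cj v.2.2)
def smC (c : ℕ) (v : C3) : C3 := (ml c v.1, ml c v.2.1, ml c v.2.2)
def adC (v w : C3) : C3 := (ad v.1 w.1, ad v.2.1 w.2.1, ad v.2.2 w.2.2)
/-- conjugate transpose times the matrix -/
def gramC (A : M3) : M3 := mmC (cjv (trC A).1, cjv (trC A).2.1, cjv (trC A).2.2) A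
def detC (A : M3) : ℕ :=
  ad (ml A.1.1 (ad (ml A.2.1.2.1 A.2.2.2.2) (ml A.2.1.2.2 A.2.2.2.1)))
    (ad (ml A.1.2.1 (ad (ml A.2.1.1 A.2.2.2.2) (ml A.2.1.2.2 A.2.2.1)))
      (ml A.1.2.2 (ad (ml A.2.1.1 A.2.2.2.1) (ml A.2.1.2.1 A.2.2.1))))
def powC (A : M3) : ℕ → M3
  | 0 => oneC
  | n + 1 => mmC (powC A n) A

variable {F : Type*} [Field F]

def vl (s : F) (x : ℕ) : F := ((x % 2 : ℕ) : F) + ((x / 2 % 2 : ℕ) : F) * s + ((x / 4 % 2 : ℕ) : F) * s ^ 2 +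
  ((x / 8 % 2 : ℕ) : F) * s ^ 3

theorem cast_mod (h2 : (2 : F) = 0) (n : ℕ) : ((n % 2 : ℕ) : F) = n := by
  conv_rhs => rw [← Nat.mod_add_div n 2]
  push_cast
  rw [h2, zero_mul, add_zero]

theorem vl_pk (h2 : (2 : F) = 0) (s : F) (a b c d : ℕ) :
    vl s (pk a b c d) = (a : F) + (b : F) * s + (c : F) * s ^ 2 + (d : F) * s ^ 3 := by
  unfold vl pk
  have e1 : (a % 2 + 2 * (b % 2) + 4 * (c % 2) + 8 * (d % 2)) % 2 = a % 2 := by omega
  have e2 : (a % 2 + 2 * (b % 2) + 4 * (c % 2) + 8 * (d % 2)) / 2 % 2 = b % 2 := by omega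
  have e3 : (a % 2 + 2 * (b % 2) + 4 * (c % 2) + 8 * (d % 2)) / 4 % 2 = c % 2 := by omega
  have e4 : (a % 2 + 2 * (b % 2) + 4 * (c % 2) + 8 * (d % 2)) / 8 % 2 = d % 2 := by omega
  rw [e1, e2, e3, e4, cast_mod h2, cast_mod h2, cast_mod h2, cast_mod h2]

theorem vl_ad (h2 : (2 : F) = 0) (s : F) (x y : ℕ) : vl s (ad x y) = vl s x + vl s y := by
  unfold ad
  rw [vl_pk h2]
  unfold vl
  rw [cast_mod h2 x, cast_mod h2 (x / 2), cast_mod h2 (x / 4), cast_mod h2 (x / 8),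
    cast_mod h2 y, cast_mod h2 (y / 2), cast_mod h2 (y / 4), cast_mod h2 (y / 8)]
  push_cast
  ring

theorem vl_ml (h2 : (2 : F) = 0) {s : F} (hs : s ^ 4 = s + 1) (x y : ℕ) :
    vl s (ml x y) = vl s x * vl s y := by
  unfold ml
  rw [vl_pk h2]
  unfold vl
  generalize x % 2 = a0
  generalize x / 2 % 2 = a1
  generalize x / 4 % 2 = a2
  generalize x / 8 % 2 = a3
  generalize y % 2 = b0
  generalize y / 2 % 2 = b1
  generalize y / 4 % 2 = b2
  generalize y / 8 % 2 = b3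
  push_cast
  linear_combination (-(((a1 : F) * b3 + a2 * b2 + a3 * b1) + ((a2 : F) * b3 + a3 * b2) * s +
    (a3 : F) * b3 * s ^ 2)) * hs

theorem vl_cj (h2 : (2 : F) = 0) {s : F} (hs : s ^ 4 = s + 1) {σ : F →+* F} (hσ : ∀ x, σ x = x ^ 4)
    (x : ℕ) : vl s (cj x) = σ (vl s x) := by
  have hσs : σ s = s + 1 := by rw [hσ, hs]
  unfold cj
  rw [vl_pk h2]
  unfold vl
  rw [map_add, map_add, map_add, map_mul, map_mul, map_mul, map_pow, map_pow, map_natCast, map_natCast,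
    map_natCast, map_natCast, hσs]
  rw [cast_mod h2 x, cast_mod h2 (x / 2), cast_mod h2 (x / 4), cast_mod h2 (x / 8)]
  generalize x / 2 = a1
  generalize x / 4 = a2
  generalize x / 8 = a3
  push_cast
  linear_combination (-((a2 : F) * s + (a3 : F) * (s + s ^ 2))) * h2

theorem vl_zero (s : F) : vl s 0 = 0 := by unfold vl; simp
theorem vl_one (s : F) : vl s 1 = 1 := by unfold vl; simp

theorem inv_dec : ∀ x < 16, x ≠ 0 → ∃ y < 16, ml x y = 1 := by decide +kernel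

theorem sub_dec : ∀ x < 16, ∀ y < 16, ad x y = 0 → x = y := by decide +kernel

theorem vl_eq_zero (h2 : (2 : F) = 0) {s : F} (hs : s ^ 4 = s + 1) {x : ℕ} (hx : x < 16)
    (h : vl s x = 0) : x = 0 := by
  by_contra hne
  obtain ⟨y, _, hy⟩ := inv_dec x hx hne
  have h1 := vl_ml h2 hs x y
  rw [hy, h, zero_mul, vl_one] at h1
  exact one_ne_zero h1

theorem vl_inj (h2 : (2 : F) = 0) {s : F} (hs : s ^ 4 = s + 1) {x y : ℕ} (hx : x < 16) (hy : y < 16)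
    (h : vl s x = vl s y) : x = y := by
  apply sub_dec x hx y hy
  apply vl_eq_zero h2 hs (ad_lt _ _)
  rw [vl_ad h2, h]
  linear_combination (vl s y) * h2

theorem vl_surj [Fintype F] (hF : Fintype.card F = 16) (h2 : (2 : F) = 0) {s : F} (hs : s ^ 4 = s + 1) (a : F) :
    ∃ x < 16, a = vl s x := by
  have hinj : Function.Injective (fun x : Fin 16 => vl s x.1) := by
    intro x y h
    exact Fin.ext (vl_inj h2 hs x.2 y.2 h)
  have hsur : Function.Surjective (fun x : Fin 16 => vl s x.1) :=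
    ((Fintype.bijective_iff_injective_and_card _).2 ⟨hinj, by rw [hF]; simp⟩).2
  obtain ⟨x, hx⟩ := hsur a
  exact ⟨x.1, x.2, hx.symm⟩

def vv (s : F) (v : C3) : Fin 3 → F := ![vl s v.1, vl s v.2.1, vl s v.2.2]
def vm (s : F) (A : M3) : Matrix (Fin 3) (Fin 3) F := Matrix.of ![vv s A.1, vv s A.2.1, vv s A.2.2]

theorem vl_dot (h2 : (2 : F) = 0) {s : F} (hs : s ^ 4 = s + 1) (r v : C3) :
    vl s (dot r v) = ∑ i, vv s r i * vv s v i := by
  rw [Fin.sum_univ_three]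
  unfold dot vv
  rw [vl_ad h2, vl_ad h2, vl_ml h2 hs, vl_ml h2 hs, vl_ml h2 hs]
  simp
  ring

theorem vv_smC (h2 : (2 : F) = 0) {s : F} (hs : s ^ 4 = s + 1) (c : ℕ) (v : C3) :
    vv s (smC c v) = vl s c • vv s v := by
  ext i
  unfold smC vv
  fin_cases i <;> simp [vl_ml h2 hs]

theorem vv_adC (h2 : (2 : F) = 0) (s : F) (v w : C3) :
    vv s (adC v w) = vv s v + vv s w := by
  ext i
  unfold adC vv
  fin_cases i <;> simp [vl_ad h2]

theorem vm_mulVec (h2 : (2 : F) = 0) {s : F} (hs : s ^ 4 = s + 1) (A : M3) (v : C3) :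
    (vm s A).mulVec (vv s v) = vv s (mvC A v) := by
  ext i
  rw [Matrix.mulVec, dotProduct]
  fin_cases i
  · exact (vl_dot h2 hs A.1 v).symm
  · exact (vl_dot h2 hs A.2.1 v).symm
  · exact (vl_dot h2 hs A.2.2 v).symm

theorem vm_tr (s : F) (A : M3) : vm s (trC A) = (vm s A).transpose := by
  ext i j
  fin_cases i <;> fin_cases j <;> rfl

theorem vv_rowC (h2 : (2 : F) = 0) {s : F} (hs : s ^ 4 = s + 1) (r : C3) (B : M3) (j : Fin 3) :
    vv s (rowC r (trC B)) j = ∑ k, vv s r k * vm s B k j := by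
  have h : ∀ k, vm s B k j = vm s (trC B) j k := by
    intro k; rw [vm_tr]; rfl
  simp only [h]
  fin_cases j
  · exact vl_dot h2 hs r (trC B).1
  · exact vl_dot h2 hs r (trC B).2.1
  · exact vl_dot h2 hs r (trC B).2.2

theorem vm_mul (h2 : (2 : F) = 0) {s : F} (hs : s ^ 4 = s + 1) (A B : M3) :
    vm s (mmC A B) = vm s A * vm s B := by
  ext i j
  rw [Matrix.mul_apply]
  fin_cases i
  · exact vv_rowC h2 hs A.1 B j
  · exact vv_rowC h2 hs A.2.1 B j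
  · exact vv_rowC h2 hs A.2.2 B j

theorem vm_one (s : F) : vm s oneC = 1 := by
  ext i j
  fin_cases i <;> fin_cases j <;> simp [vm, vv, oneC, vl_zero, vl_one]

theorem vm_pow (h2 : (2 : F) = 0) {s : F} (hs : s ^ 4 = s + 1) (A : M3) (n : ℕ) :
    vm s (powC A n) = vm s A ^ n := by
  induction n with
  | zero => rw [pow_zero]; exact vm_one s
  | succ n ih => rw [pow_succ, ← ih, ← vm_mul h2 hs]; rfl

theorem vm_det (h2 : (2 : F) = 0) {s : F} (hs : s ^ 4 = s + 1) (A : M3) :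
    (vm s A).det = vl s (detC A) := by
  rw [Matrix.det_fin_three]
  unfold detC
  simp only [vl_ad h2, vl_ml h2 hs]
  simp only [vm, vv, Matrix.of_apply, Matrix.cons_val_zero, Matrix.cons_val_one, Matrix.cons_val_two,
    Matrix.head_cons, Matrix.tail_cons, Matrix.cons_val]
  linear_combination (-(vl s A.1.1 * vl s A.2.1.2.2 * vl s A.2.2.2.1 + vl s A.1.2.1 * vl s A.2.1.1 * vl s A.2.2.2.2 +
    vl s A.1.2.2 * vl s A.2.1.2.1 * vl s A.2.2.1)) * h2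

theorem vm_gram (h2 : (2 : F) = 0) {s : F} (hs : s ^ 4 = s + 1) {σ : F →+* F} (hσ : ∀ x, σ x = x ^ 4)
    (A : M3) (i j : Fin 3) : hB (Fin 3) σ (fun k => vm s A k i) (fun k => vm s A k j) =
      vm s (gramC A) i j := by
  have h : vm s (cjv (trC A).1, cjv (trC A).2.1, cjv (trC A).2.2) = (vm s A).transpose.map σ := by
    rw [← vm_tr]
    ext i j
    fin_cases i <;> fin_cases j <;> exact vl_cj h2 hs hσ _
  unfold gramC
  rw [vm_mul h2 hs, h, Matrix.mul_apply, hB_apply]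
  rfl

/-- the form -/
def hc (v w : C3) : ℕ := dot (cjv v) w

theorem vl_hc (h2 : (2 : F) = 0) {s : F} (hs : s ^ 4 = s + 1) {σ : F →+* F} (hσ : ∀ x, σ x = x ^ 4)
    (v w : C3) : hB (Fin 3) σ (vv s v) (vv s w) = vl s (hc v w) := by
  unfold hc
  rw [vl_dot h2 hs, hB_apply]
  apply Finset.sum_congr rfl
  intro i _
  congr 1
  fin_cases i
  · exact (vl_cj h2 hs hσ _).symm
  · exact (vl_cj h2 hs hσ _).symm
  · exact (vl_cj h2 hs hσ _).symm

/-- the check that a coded matrix is in `SU₃(4)` -/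
def chk (A : M3) : Bool := decide (gramC A = oneC) && decide (detC A = 1)

def su (h2 : (2 : F) = 0) {s : F} (hs : s ^ 4 = s + 1) {σ : F →+* F} (hσ : ∀ x, σ x = x ^ 4)
    (A : M3) (h : chk A = true) : SU 3 F 4 :=
  mkSU hσ (vm s A) (by
    intro i j
    rw [vm_gram h2 hs hσ]
    have h1 : gramC A = oneC := by
      have := (Bool.and_eq_true_iff.1 h).1
      exact of_decide_eq_true this
    rw [h1, vm_one, Matrix.one_apply]) (by
    rw [vm_det h2 hs, of_decide_eq_true (Bool.and_eq_true_iff.1 h).2, vl_one])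

theorem mt_su (h2 : (2 : F) = 0) {s : F} (hs : s ^ 4 = s + 1) {σ : F →+* F} (hσ : ∀ x, σ x = x ^ 4)
    (A : M3) (h : chk A = true) : H18.mt (su h2 hs hσ A h) = vm s A := rfl

theorem sv_su (h2 : (2 : F) = 0) {s : F} (hs : s ^ 4 = s + 1) {σ : F →+* F} (hσ : ∀ x, σ x = x ^ 4)
    (A : M3) (h : chk A = true) (v : C3) : sv (su h2 hs hσ A h) (vv s v) = vv s (mvC A v) :=
  vm_mulVec h2 hs A v

/-- entries are reduced codes -/
def red (A : M3) : Bool := decide (A.1.1 < 16 ∧ A.1.2.1 < 16 ∧ A.1.2.2 < 16 ∧ A.2.1.1 < 16 ∧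
  A.2.1.2.1 < 16 ∧ A.2.1.2.2 < 16 ∧ A.2.2.1 < 16 ∧ A.2.2.2.1 < 16 ∧ A.2.2.2.2 < 16)

theorem vm_inj (h2 : (2 : F) = 0) {s : F} (hs : s ^ 4 = s + 1) {A B : M3} (hA : red A = true)
    (hB : red B = true) (h : vm s A = vm s B) : A = B := by
  have hA' := of_decide_eq_true hA
  have hB' := of_decide_eq_true hB
  have e : ∀ i j, vm s A i j = vm s B i j := fun i j => by rw [h]
  obtain ⟨a1, a2, a3, a4, a5, a6, a7, a8, a9⟩ := hA'
  obtain ⟨b1, b2, b3, b4, b5, b6, b7, b8, b9⟩ := hB'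
  have e1 := vl_inj h2 hs a1 b1 (e 0 0)
  have e2 := vl_inj h2 hs a2 b2 (e 0 1)
  have e3 := vl_inj h2 hs a3 b3 (e 0 2)
  have e4 := vl_inj h2 hs a4 b4 (e 1 0)
  have e5 := vl_inj h2 hs a5 b5 (e 1 1)
  have e6 := vl_inj h2 hs a6 b6 (e 1 2)
  have e7 := vl_inj h2 hs a7 b7 (e 2 0)
  have e8 := vl_inj h2 hs a8 b8 (e 2 1)
  have e9 := vl_inj h2 hs a9 b9 (e 2 2)
  obtain ⟨⟨_, _, _⟩, ⟨_, _, _⟩, ⟨_, _, _⟩⟩ := A
  obtain ⟨⟨_, _, _⟩, ⟨_, _, _⟩, ⟨_, _, _⟩⟩ := B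
  simp only at e1 e2 e3 e4 e5 e6 e7 e8 e9
  subst e1 e2 e3 e4 e5 e6 e7 e8 e9
  rfl

theorem su_pow (h2 : (2 : F) = 0) {s : F} (hs : s ^ 4 = s + 1) {σ : F →+* F} (hσ : ∀ x, σ x = x ^ 4)
    (A : M3) (h : chk A = true) (n : ℕ) (hp : powC A n = oneC) : su h2 hs hσ A h ^ n = 1 := by
  apply mt_inj
  rw [mt_pow, mt_su, ← vm_pow h2 hs, hp, vm_one, mt_one]

theorem su_pow_ne (h2 : (2 : F) = 0) {s : F} (hs : s ^ 4 = s + 1) {σ : F →+* F} (hσ : ∀ x, σ x = x ^ 4)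
    (A : M3) (h : chk A = true) (n : ℕ) (hr : red (powC A n) = true) (hne : powC A n ≠ oneC) :
    su h2 hs hσ A h ^ n ≠ 1 := by
  intro he
  apply hne
  apply vm_inj h2 hs hr (by decide)
  rw [vm_one, vm_pow h2 hs, ← mt_su h2 hs hσ A h, ← mt_pow, he, mt_one]

/-- the primitive element -/
theorem exists_s [Fintype F] (hF : Fintype.card F = 16) : (2 : F) = 0 ∧ ∃ s : F, s ^ 4 = s + 1 := by
  have h1 : ((Fintype.card F : ℕ) : F) = 0 := Nat.cast_card_eq_zero F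
  rw [hF] at h1
  have h2 : (2 : F) = 0 := by
    have h2 : (2 : F) ^ 4 = 0 := by rw [← h1]; norm_num
    exact pow_eq_zero_iff (by norm_num) |>.1 h2
  refine ⟨h2, ?_⟩
  classical
  obtain ⟨g, hg⟩ := IsCyclic.exists_generator (α := Fˣ)
  have hord : orderOf g = 15 := by
    rw [orderOf_eq_card_of_forall_mem_zpowers hg, Nat.card_eq_fintype_card, Fintype.card_units, hF]
  have h15 : (g : F) ^ 15 = 1 := by
    have := pow_orderOf_eq_one g
    rw [hord] at this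
    rw [← Units.val_pow_eq_pow_val, this, Units.val_one]
  have h5 : (g : F) ^ 5 - 1 ≠ 0 := by
    intro h
    have h6 : g ^ 5 = 1 := Units.ext (by push_cast; linear_combination h)
    have := orderOf_dvd_of_pow_eq_one h6
    rw [hord] at this
    omega
  have h3 : (g : F) ^ 3 - 1 ≠ 0 := by
    intro h
    have h6 : g ^ 3 = 1 := Units.ext (by push_cast; linear_combination h)
    have := orderOf_dvd_of_pow_eq_one h6
    rw [hord] at this
    omega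
  generalize (g : F) = θ at *
  have hθ0 : θ ≠ 0 := by
    rintro rfl
    norm_num at h15
  have key : (θ ^ 4 + θ + 1) * ((θ ^ 4 + θ ^ 3 + 1) * ((θ ^ 5 - 1) * (θ ^ 3 - 1))) = 0 := by
    linear_combination (θ + 1) * h15 + (1 + θ + θ ^ 4 - θ ^ 6 - θ ^ 7 - θ ^ 9 - θ ^ 10 + θ ^ 12) * h2
  rcases mul_eq_zero.1 key with h | h
  · exact ⟨θ, by linear_combination h - (θ + 1) * h2⟩
  rcases mul_eq_zero.1 h with h | h
  · refine ⟨θ⁻¹, ?_⟩
    field_simp
    linear_combination (-1 : F) * h + h2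
  rcases mul_eq_zero.1 h with h | h
  · exact absurd h h5
  · exact absurd h h3

end Cfsg.Agent.H29.GFq16
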