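import Mathlib

/-!
# prime graph of a split extension by a group of exponent 5 (helper29)
-/

set_option autoImplicit false

namespace Cfsg.Agent.H29.PGraph

theorem aux {G : Type*} [Group G] [Finite G] {N : Type*} [CommGroup N] [Finite N] (h5 : ∀ n : N, n ^ 5 = 1)
    (φ : G →* MulAut N) (hfix : ∀ g : G, orderOf g = 13 → ∀ n : N, φ g n = n → n = 1)
    (h10 : ∃ g : G, orderOf g = 10) (h15 : ∃ g : G, orderOf g = 15)
    (hp : ∀ p : ℕ, p.Prime → p ∣ Nat.card G → p = 2 ∨ p = 3 ∨ p = 5 ∨ p = 13)
    (q : ℕ) (hq : q.Prime) (hq5 : q ≠ 5) (h : N ⋊[φ] G) (ho : orderOf h = 5 * q)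
    (hg : orderOf (SemidirectProduct.rightHom h) = q) : ∃ g : G, orderOf g = 5 * q := by
  have hd : q ∣ Nat.card G := by rw [← hg]; exact orderOf_dvd_natCard _
  rcases hp q hq hd with rfl | rfl | rfl | rfl
  · simpa using h10
  · simpa using h15
  · exact absurd rfl hq5
  · exfalso
    set g := SemidirectProduct.rightHom h with hgd
    have hr : ∀ n : ℕ, (h ^ n).right = g ^ n := fun n => by
      have := map_pow (SemidirectProduct.rightHom (N := N) (G := G) (φ := φ)) h n
      exact this
    have h13 : (h ^ 13).right = 1 := by rw [hr, ← hg, pow_orderOf_eq_one]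
    set w := (h ^ 13).left with hw
    have hcomm : h ^ 5 * h ^ 13 = h ^ 13 * h ^ 5 := by rw [← pow_add, ← pow_add]
    have h1 := congrArg SemidirectProduct.left hcomm
    rw [SemidirectProduct.mul_left, SemidirectProduct.mul_left, h13, map_one, MulAut.one_apply, ← hw, hr,
      mul_comm w] at h1
    have h2 : φ (g ^ 5) w = w := mul_left_cancel h1
    have h3 : orderOf (g ^ 5) = 13 := by
      rw [Nat.Coprime.orderOf_pow (by rw [hg]; norm_num), hg]
    have h4 := hfix _ h3 w h2
    have h6 : h ^ 13 = 1 := SemidirectProduct.ext h4 h13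
    have h7 := orderOf_dvd_of_pow_eq_one h6
    rw [ho] at h7
    omega

theorem pg {G : Type*} [Group G] [Finite G] {N : Type*} [CommGroup N] [Finite N] (h5 : ∀ n : N, n ^ 5 = 1)
    (φ : G →* MulAut N) (hfix : ∀ g : G, orderOf g = 13 → ∀ n : N, φ g n = n → n = 1)
    (h10 : ∃ g : G, orderOf g = 10) (h15 : ∃ g : G, orderOf g = 15)
    (hp : ∀ p : ℕ, p.Prime → p ∣ Nat.card G → p = 2 ∨ p = 3 ∨ p = 5 ∨ p = 13) :
    (∀ p : ℕ, p.Prime → (p ∣ Nat.card G ↔ p ∣ Nat.card (N ⋊[φ] G))) ∧
    (∀ p q : ℕ, p.Prime → q.Prime → p ≠ q →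
      ((∃ g : G, orderOf g = p * q) ↔ (∃ g : N ⋊[φ] G, orderOf g = p * q))) := by
  constructor
  · intro p hpp
    rw [SemidirectProduct.card]
    refine ⟨fun h => h.mul_left _, fun h => ?_⟩
    rcases (Nat.Prime.dvd_mul hpp).1 h with h | h
    · haveI : Fact p.Prime := ⟨hpp⟩
      obtain ⟨n, hn⟩ := exists_prime_orderOf_dvd_card' p h
      have h1 := orderOf_dvd_of_pow_eq_one (h5 n)
      rw [hn] at h1
      have h2 : p = 5 := (Nat.prime_dvd_prime_iff_eq hpp (by norm_num)).1 h1
      obtain ⟨g, hg⟩ := h10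
      have h3 : 10 ∣ Nat.card G := by rw [← hg]; exact orderOf_dvd_natCard g
      rw [h2]
      exact (by norm_num : 5 ∣ 10).trans h3
    · exact h
  · intro p q hpp hqp hpq
    constructor
    · rintro ⟨g, hg⟩
      exact ⟨SemidirectProduct.inr g, by rw [orderOf_injective _ SemidirectProduct.inr_injective, hg]⟩
    · rintro ⟨h, ho⟩
      set g := SemidirectProduct.rightHom h with hgd
      have hn : orderOf g ∣ p * q := by rw [← ho]; exact orderOf_map_dvd _ h
      set n := orderOf g with hnn
      have hr : (h ^ n).right = 1 := by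
        have := map_pow (SemidirectProduct.rightHom (N := N) (G := G) (φ := φ)) h n
        change (h ^ n).right = g ^ n at this
        rw [this, hnn, pow_orderOf_eq_one]
      have hinl : h ^ n = SemidirectProduct.inl (h ^ n).left := SemidirectProduct.ext rfl hr
      have h5n : h ^ (n * 5) = 1 := by
        rw [pow_mul, hinl, ← map_pow, h5, map_one]
      have hd : p * q ∣ n * 5 := by rw [← ho]; exact orderOf_dvd_of_pow_eq_one h5n
      obtain ⟨m, hm⟩ := hn
      have hn0 : 0 < n := orderOf_pos g
      have hm5 : m ∣ 5 := by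
        rw [hm] at hd
        exact Nat.dvd_of_mul_dvd_mul_left hn0 hd
      rcases (Nat.dvd_prime (by norm_num)).1 hm5 with rfl | rfl
      · exact ⟨g, by rw [← hnn, hm, mul_one]⟩
      · have h5d : 5 ∣ p * q := ⟨n, by rw [hm, mul_comm]⟩
        rcases (Nat.Prime.dvd_mul (by norm_num)).1 h5d with h6 | h6
        · have hp5 : 5 = p := (Nat.prime_dvd_prime_iff_eq (by norm_num) hpp).1 h6
          subst hp5
          exact aux h5 φ hfix h10 h15 hp q hqp (Ne.symm hpq) h ho (by
            have : n * 5 = 5 * q := hm.symm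
            change n = q
            omega)
        · have hq5 : 5 = q := (Nat.prime_dvd_prime_iff_eq (by norm_num) hqp).1 h6
          subst hq5
          have := aux h5 φ hfix h10 h15 hp p hpp hpq h (by rw [ho, mul_comm]) (by
            have : n * 5 = p * 5 := hm.symm
            change n = p
            omega)
          rwa [mul_comm] at this

/-- a copy in the lowest universe -/
theorem to_type0 (H : Type*) [Group H] [Finite H] :
    ∃ (K : Type) (_ : Group K) (_ : Finite K), Nonempty (K ≃* H) := by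
  let e := Finite.equivFin H
  letI : Group (Fin (Nat.card H)) := e.symm.group
  exact ⟨Fin (Nat.card H), inferInstance, inferInstance, ⟨e.symm.mulEquiv⟩⟩

end Cfsg.Agent.H29.PGraph
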