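import Cfsg.Agent.H29.GFq16
import Cfsg.Agent.H29.CartanMod

/-!
# elements of order 13 of `SU₃(4)` act without fixed points on the module (helper29)
-/

set_option autoImplicit false
set_option linter.style.haveILetI false
set_option linter.unusedSectionVars false
set_option linter.unusedSimpArgs false

namespace Cfsg.Agent.H29.PsuFour

open Matrix Cfsg Cfsg.Agent.H5 Cfsg.Agent.H5.FormData Cfsg.Agent.H18 Cfsg.Agent.H29.GFq16 Cfsg.Agent.H29.CartanMod

/-- an element of order 13 -/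
def mX : M3 := ((0, 2, 5), (0, 9, 2), (8, 0, 0))
def m10 : M3 := ((0, 0, 12), (0, 10, 0), (1, 0, 0))
def m15 : M3 := ((0, 2, 5), (0, 4, 3), (1, 0, 0))

theorem kX : chk mX = true := by decide +kernel
theorem k10 : chk m10 = true := by decide +kernel
theorem k15 : chk m15 = true := by decide +kernel

/-- the orbits on isotropic points -/
def chains : List (List C3) := [
  [(1, 15, 0), (1, 13, 6), (1, 4, 2), (1, 3, 4), (1, 0, 8), (1, 5, 11), (1, 3, 14), (1, 4, 7), (0, 1, 15), (1, 1, 0), (1, 13, 4), (1, 9, 11), (0, 1, 1)],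
  [(1, 14, 13), (1, 11, 9), (1, 4, 11), (1, 14, 3), (0, 1, 8), (1, 8, 0), (1, 13, 9), (1, 7, 4), (1, 4, 3), (1, 11, 5), (1, 7, 5), (1, 0, 15), (1, 5, 13)],
  [(1, 14, 11), (1, 6, 11), (1, 11, 6), (1, 0, 1), (1, 5, 7), (1, 11, 4), (1, 2, 4), (1, 7, 9), (1, 9, 7), (1, 6, 3), (1, 3, 9), (1, 2, 6), (1, 9, 3)],
  [(1, 14, 7), (1, 3, 5), (1, 9, 2), (1, 11, 14), (1, 9, 13), (1, 3, 6), (1, 7, 14), (1, 7, 6), (1, 2, 9), (1, 0, 12), (1, 5, 3), (1, 6, 7), (1, 14, 2)],
  [(1, 13, 14), (1, 0, 10), (1, 5, 2), (0, 1, 12), (1, 10, 0), (1, 13, 5), (1, 2, 14), (1, 2, 5), (1, 4, 13), (1, 6, 2), (1, 6, 13), (0, 1, 10), (1, 12, 0)]]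

def okc (a b : C3) : Bool := (List.range 16).any fun c => c != 0 && mvC mX a == smC c b

def chainOK : List C3 → Bool
  | a :: b :: l => okc a b && chainOK (b :: l)
  | _ => true

theorem chains_ok : (chains.all chainOK) = true := by decide +kernel

theorem pts_full1 : ((List.range 16).all fun b => (List.range 16).all fun c =>
    (!(hc (1, b, c) (1, b, c) == 0)) || chains.any fun l => l.contains (1, b, c)) = true := by decide +kernel

theorem pts_full2 : ((List.range 16).all fun c =>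
    (!(hc (0, 1, c) (0, 1, c) == 0)) || chains.any fun l => l.contains (0, 1, c)) = true := by decide +kernel

section
variable {F : Type*} [Field F] [Fintype F] {σ : F →+* F} (hF : Fintype.card F = 16) (hσ : ∀ x, σ x = x ^ 4)
  (hσ1 : σ ≠ RingHom.id F) (hσ2 : ∀ a, σ (σ a) = a) (h2 : (2 : F) = 0) {s : F} (hs : s ^ 4 = s + 1)

omit [Fintype F] in
include h2 hs in
theorem vl6 : vl s 6 ^ 2 + vl s 6 + 1 = 0 := by
  have h1 : vl s 6 = s + s ^ 2 := by
    unfold vl; norm_num
  rw [h1]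
  linear_combination hs + (s ^ 3 + s ^ 2 + s + 1) * h2

omit [Fintype F] in
include h2 hs in
theorem vl7 : vl s 6 ^ 2 = vl s 7 := by
  rw [pow_two, ← vl_ml h2 hs]
  congr 1

omit [Fintype F] in
include hσ h2 hs in
theorem is_code {v : C3} (h0 : hc v v = 0) (hne : vv s v ≠ 0) : Is σ (vv s v) :=
  ⟨hne, by rw [vl_hc h2 hs hσ, h0, vl_zero]⟩

omit [Fintype F] in
theorem vv_ne1 (b c : ℕ) : vv s (1, b, c) ≠ 0 := by
  intro h
  have := congrFun h 0
  simp [vv, vl_one] at this

omit [Fintype F] in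
theorem vv_ne2 (a c : ℕ) : vv s (a, 1, c) ≠ 0 := by
  intro h
  have := congrFun h 1
  simp [vv, vl_one] at this

/-- the chain lemma -/
theorem chain_const {A : Type*} [AddCommGroup A] (f : (Fin 3 → F) → A) (P : (Fin 3 → F) → Prop)
    (h1 : ∀ c : F, c ≠ 0 → ∀ v, P v → f (c • v) = f v) (h3 : ∀ v, P v → f ((vm s mX).mulVec v) = f v)
    (h2 : (2 : F) = 0) (hs : s ^ 4 = s + 1) (l : List C3) (hP : ∀ a ∈ l, P (vv s a)) (h : chainOK l = true) (a : C3)
    (l' : List C3) (hl : l = a :: l') (z : A) (hz : f (vv s a) = z) : ∀ p ∈ l, f (vv s p) = z := by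
  induction l generalizing a l' with
  | nil => intro p hp; simp at hp
  | cons b l ih =>
    obtain ⟨rfl, rfl⟩ : b = a ∧ l = l' := by simpa using hl
    intro p hp
    rcases List.mem_cons.1 hp with rfl | hp
    · exact hz
    cases l with
    | nil => simp at hp
    | cons c l =>
      have h4 : okc b c = true ∧ chainOK (c :: l) = true := by
        have : (okc b c && chainOK (c :: l)) = true := h
        exact Bool.and_eq_true_iff.1 this
      have h5 : f (vv s c) = z := by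
        have h6 := h4.1
        unfold okc at h6
        rw [List.any_eq_true] at h6
        obtain ⟨k, hk, hk2⟩ := h6
        rw [Bool.and_eq_true] at hk2
        obtain ⟨hk3, hk4⟩ := hk2
        have hk0 : k ≠ 0 := by simpa using hk3
        have hk5 : mvC mX b = smC k c := by simpa using hk4
        have hk6 : vl s k ≠ 0 := fun h0 => hk0 (vl_eq_zero h2 hs (List.mem_range.1 hk) h0)
        rw [← h1 (vl s k) hk6 _ (hP c (by simp)), ← vv_smC h2 hs, ← hk5, ← vm_mulVec h2 hs, h3 _ (hP b (by simp)), hz]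
      exact ih (fun a ha => hP a (List.mem_cons_of_mem _ ha)) h4.2 c l rfl h5 p hp

end

/-- all listed points are isotropic and normalized -/
theorem pts_iso : (chains.all fun l => l.all fun v => (hc v v == 0) && (v.1 == 1 || v.2.1 == 1)) = true := by
  decide +kernel

def reps : List C3 := [(1, 15, 0), (0, 1, 8), (1, 0, 1), (1, 0, 12), (0, 1, 12)]

theorem reps_ok : (chains.all fun l => reps.any fun r => l.contains r) = true := by decide +kernel

def same (p q : C3) : Bool := chains.any fun l => l.contains p && l.contains q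

/-- the check for a block relation -/
def relOK (fc q1 q2 q3 q4 : C3) (c1 c2 c3 c4 : ℕ) : Bool :=
  (hc fc fc == 0) && (hc (1, 15, 0) fc == 1) && (fc == smC c1 q1) && (adC fc (1, 15, 0) == smC c2 q2) &&
  (adC fc (smC 6 (1, 15, 0)) == smC c3 q3) && (adC fc (smC 7 (1, 15, 0)) == smC c4 q4) &&
  same q1 q1 && same q2 q2 && same q3 q3 && same q4 q4 &&
  (c1 != 0) && (c2 != 0) && (c3 != 0) && (c4 != 0)

section
variable {F : Type*} [Field F] [Fintype F] {σ : F →+* F} (hF : Fintype.card F = 16) (hσ : ∀ x, σ x = x ^ 4)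
  (hσ1 : σ ≠ RingHom.id F) (hσ2 : ∀ a, σ (σ a) = a) (h2 : (2 : F) = 0) {s : F} (hs : s ^ 4 = s + 1)

omit [Fintype F] in
include hσ h2 hs in
theorem is_pt {l : List C3} (hl : l ∈ chains) {v : C3} (hv : v ∈ l) : Is σ (vv s v) := by
  have h := List.all_eq_true.1 (List.all_eq_true.1 pts_iso l hl) v hv
  rw [Bool.and_eq_true] at h
  obtain ⟨h3, h4⟩ := h
  refine is_code hσ h2 hs (by simpa using h3) ?_
  obtain ⟨a, b, c⟩ := v
  rw [Bool.or_eq_true] at h4
  rcases h4 with h4 | h4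
  · have : a = 1 := by simpa using h4
    subst this
    exact vv_ne1 _ _
  · have : b = 1 := by simpa using h4
    subst this
    exact vv_ne2 _ _

omit [Fintype F] in
include hσ h2 hs in
theorem is_same {q : C3} (h : same q q = true) : Is σ (vv s q) := by
  unfold same at h
  rw [List.any_eq_true] at h
  obtain ⟨l, hl, h3⟩ := h
  rw [Bool.and_eq_true] at h3
  exact is_pt hσ h2 hs hl (by simpa using h3.1)

include hF hσ hσ1 hσ2 h2 hs in
theorem fixed_zero {A : Type*} [AddCommGroup A] (hA : ∀ a : A, 5 • a = 0) {ψ : (Fin 3 → F) → (Fin 3 → F) → A}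
    (hψ : ψ ∈ W σ (vl s 6) A)
    (hx : ∀ u v, ψ (sv (su h2 hs hσ mX kX) u) (sv (su h2 hs hσ mX kX) v) = ψ u v) : ψ = 0 := by
  obtain ⟨a0, a1, a2, a3⟩ := mem_W.1 hψ
  set X := su h2 hs hσ mX kX with hX
  have hX13 : X ^ 13 = 1 := su_pow h2 hs hσ mX kX 13 (by decide +kernel)
  have hself : ∀ u, Is σ u → ψ u u = 0 := by
    intro u hu
    have := a1 u u u hu hu hu
    exact left_eq_add.1 this.symm
  have hanti : ∀ u v, Is σ u → Is σ v → ψ v u = - ψ u v := by
    intro u v hu hv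
    have := a1 u v u hu hv hu
    rw [hself u hu] at this
    exact (neg_eq_of_add_eq_zero_right this).symm
  have hpow : ∀ n : ℕ, ∀ u, Is σ u → ψ u (sv (X ^ n) u) = n • ψ u (sv X u) := by
    intro n
    induction n with
    | zero => intro u hu; rw [pow_zero, sv_one, hself u hu, zero_smul]
    | succ n ih =>
      intro u hu
      rw [← a1 u (sv X u) _ hu (hu.sv hσ X) (hu.sv hσ _), pow_succ', sv_mul, hx, ih u hu, succ_nsmul, add_comm]
  have hX0 : ∀ u, Is σ u → ψ u (sv X u) = 0 := by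
    intro u hu
    have h1 := hpow 13 u hu
    rw [hX13, sv_one, hself u hu] at h1
    have h3 := hA (ψ u (sv X u))
    have h4 : ψ u (sv X u) = 2 • (13 • ψ u (sv X u)) - 5 • (5 • ψ u (sv X u)) := by abel
    rw [h4, ← h1, h3]; simp
  have hinv : ∀ u v, Is σ u → Is σ v → ψ (sv X u) v = ψ u v := by
    intro u v hu hv
    rw [← a1 (sv X u) u v (hu.sv hσ X) hu hv, hanti u _ hu (hu.sv hσ X), hX0 u hu, neg_zero, zero_add]
  set p0 := vv s (1, 15, 0) with hp0
  have hp : Is σ p0 := is_same hσ h2 hs (by decide +kernel)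
  set f : (Fin 3 → F) → A := fun u => ψ u p0 with hf
  have f1 : ∀ c : F, c ≠ 0 → ∀ v, Is σ v → f (c • v) = f v := fun c hc v hv => a2 c v p0 hc hv hp
  have f2 : ∀ v, Is σ v → f ((vm s mX).mulVec v) = f v := fun v hv => hinv v p0 hv hp
  have hconst : ∀ l ∈ chains, ∀ p ∈ l, ∀ q ∈ l, f (vv s p) = f (vv s q) := by
    intro l hl
    cases l with
    | nil => intro p hp; simp at hp
    | cons a l =>
      have hok := List.all_eq_true.1 chains_ok _ hl
      have key := chain_const f (Is σ) f1 f2 h2 hs (a :: l) (fun b hb => is_pt hσ h2 hs hl hb) hok a l rfl _ rfl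
      intro p hp q hq
      rw [key p hp, key q hq]
  have hsame : ∀ p q : C3, same p q = true → f (vv s p) = f (vv s q) := by
    intro p q h
    unfold same at h
    rw [List.any_eq_true] at h
    obtain ⟨l, hl, h3⟩ := h
    rw [Bool.and_eq_true] at h3
    exact hconst l hl p (by simpa using h3.1) q (by simpa using h3.2)
  have hrel : ∀ (fc q1 q2 q3 q4 : C3) (c1 c2 c3 c4 : ℕ), relOK fc q1 q2 q3 q4 c1 c2 c3 c4 = true →
      c1 < 16 → c2 < 16 → c3 < 16 → c4 < 16 →
      f (vv s (1, 15, 0)) + (f (vv s q1) + f (vv s q2) + f (vv s q3) + f (vv s q4)) = 0 := by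
    intro fc q1 q2 q3 q4 c1 c2 c3 c4 h l1 l2 l3 l4
    unfold relOK at h
    simp only [Bool.and_eq_true] at h
    obtain ⟨⟨⟨⟨⟨⟨⟨⟨⟨⟨⟨⟨⟨r1, r2⟩, r3⟩, r4⟩, r5⟩, r6⟩, s1⟩, s2⟩, s3⟩, s4⟩, d1⟩, d2⟩, d3⟩, d4⟩ := h
    have i1 := is_same (s := s) hσ h2 hs s1
    have i2 := is_same (s := s) hσ h2 hs s2
    have i3 := is_same (s := s) hσ h2 hs s3
    have i4 := is_same (s := s) hσ h2 hs s4
    have n1 : vl s c1 ≠ 0 := fun h0 => (by simpa using d1 : c1 ≠ 0) (vl_eq_zero h2 hs l1 h0)
    have n2 : vl s c2 ≠ 0 := fun h0 => (by simpa using d2 : c2 ≠ 0) (vl_eq_zero h2 hs l2 h0)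
    have n3 : vl s c3 ≠ 0 := fun h0 => (by simpa using d3 : c3 ≠ 0) (vl_eq_zero h2 hs l3 h0)
    have n4 : vl s c4 ≠ 0 := fun h0 => (by simpa using d4 : c4 ≠ 0) (vl_eq_zero h2 hs l4 h0)
    have e1 : vv s fc = vl s c1 • vv s q1 := by rw [← vv_smC h2 hs, ← (by simpa using r3 : fc = smC c1 q1)]
    have e2 : vv s fc + p0 = vl s c2 • vv s q2 := by
      rw [← vv_smC h2 hs, ← (by simpa using r4 : adC fc (1, 15, 0) = smC c2 q2), vv_adC h2]
    have e3 : vv s fc + vl s 6 • p0 = vl s c3 • vv s q3 := by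
      rw [← vv_smC h2 hs, ← vv_smC h2 hs, ← (by simpa using r5 : adC fc (smC 6 (1, 15, 0)) = smC c3 q3), vv_adC h2]
    have e4 : vv s fc + vl s 6 ^ 2 • p0 = vl s c4 • vv s q4 := by
      rw [vl7 h2 hs, ← vv_smC h2 hs, ← vv_smC h2 hs, ← (by simpa using r6 : adC fc (smC 7 (1, 15, 0)) = smC c4 q4), vv_adC h2]
    have hfI : Is σ (vv s fc) := by rw [e1]; exact i1.smul n1
    have hef : hB (Fin 3) σ p0 (vv s fc) = 1 := by
      rw [hp0, vl_hc h2 hs hσ, (by simpa using r2 : hc (1, 15, 0) fc = 1), vl_one]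
    have h4 := a3 p0 (vv s fc) p0 hp hfI hp hef
    rw [e2, e3, e4, e1, a2 _ _ _ n1 i1 hp, a2 _ _ _ n2 i2 hp, a2 _ _ _ n3 i3 hp, a2 _ _ _ n4 i4 hp] at h4
    exact h4
  have z0 : f (vv s (1, 15, 0)) = 0 := hself _ hp
  have R1 := hrel (0, 15, 1) (0, 1, 8) (1, 0, 1) (1, 4, 7) (1, 11, 6) 15 1 6 7 (by decide +kernel) (by norm_num)
    (by norm_num) (by norm_num) (by norm_num)
  have R2 := hrel (0, 15, 8) (0, 1, 12) (1, 0, 8) (1, 4, 13) (1, 11, 5) 15 1 6 7 (by decide +kernel) (by norm_num)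
    (by norm_num) (by norm_num) (by norm_num)
  have R3 := hrel (0, 15, 10) (0, 1, 15) (1, 0, 10) (1, 4, 3) (1, 11, 9) 15 1 6 7 (by decide +kernel) (by norm_num)
    (by norm_num) (by norm_num) (by norm_num)
  have R4 := hrel (0, 15, 12) (0, 1, 10) (1, 0, 12) (1, 4, 2) (1, 11, 14) 15 1 6 7 (by decide +kernel) (by norm_num)
    (by norm_num) (by norm_num) (by norm_num)
  rw [hsame (1, 4, 7) (1, 15, 0) (by decide +kernel), hsame (1, 11, 6) (1, 0, 1) (by decide +kernel), z0] at R1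
  rw [hsame (1, 0, 8) (1, 15, 0) (by decide +kernel), hsame (1, 4, 13) (0, 1, 12) (by decide +kernel),
    hsame (1, 11, 5) (0, 1, 8) (by decide +kernel), z0] at R2
  rw [hsame (0, 1, 15) (1, 15, 0) (by decide +kernel), hsame (1, 0, 10) (0, 1, 12) (by decide +kernel),
    hsame (1, 4, 3) (0, 1, 8) (by decide +kernel), hsame (1, 11, 9) (0, 1, 8) (by decide +kernel), z0] at R3
  rw [hsame (0, 1, 10) (0, 1, 12) (by decide +kernel), hsame (1, 4, 2) (1, 15, 0) (by decide +kernel),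
    hsame (1, 11, 14) (1, 0, 12) (by decide +kernel), z0] at R4
  have y1 : f (vv s (0, 1, 8)) = 0 := by
    have h5 := hA (f (vv s (0, 1, 8)))
    generalize f (vv s (0, 1, 8)) = u1 at *
    generalize f (vv s (0, 1, 12)) = u4 at *
    have : u1 = 4 • (0 + (0 + u4 + u1 + u1)) - 2 • (0 + (u4 + 0 + u4 + u1)) - 5 • u1 := by abel
    rw [this, R3, R2, h5]; simp
  have y4 : f (vv s (0, 1, 12)) = 0 := by
    rw [y1] at R3
    simpa using R3
  have y2 : f (vv s (1, 0, 1)) = 0 := by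
    have h5 := hA (f (vv s (1, 0, 1)))
    rw [y1] at R1
    generalize f (vv s (1, 0, 1)) = u2 at *
    have : u2 = 3 • (0 + (0 + u2 + 0 + u2)) - 5 • u2 := by abel
    rw [this, R1, h5]; simp
  have y3 : f (vv s (1, 0, 12)) = 0 := by
    have h5 := hA (f (vv s (1, 0, 12)))
    rw [y4] at R4
    generalize f (vv s (1, 0, 12)) = u3 at *
    have : u3 = 3 • (0 + (0 + u3 + 0 + u3)) - 5 • u3 := by abel
    rw [this, R4, h5]; simp
  have hl0 : ∀ l ∈ chains, ∀ p ∈ l, f (vv s p) = 0 := by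
    intro l hl p hp
    have h3 := List.all_eq_true.1 reps_ok l hl
    rw [List.any_eq_true] at h3
    obtain ⟨r, hr, hr2⟩ := h3
    rw [hconst l hl p hp r (by simpa using hr2)]
    unfold reps at hr
    simp only [List.mem_cons, List.not_mem_nil, or_false] at hr
    rcases hr with rfl | rfl | rfl | rfl | rfl
    · exact z0
    · exact y1
    · exact y2
    · exact y3
    · exact y4
  have hall : ∀ u, Is σ u → f u = 0 := by
    intro u hu
    by_cases h0 : u 0 = 0
    · have h1 : u 1 ≠ 0 := by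
        intro h1
        have h3 := hu.2
        rw [hB_apply, Fin.sum_univ_three, h0, h1] at h3
        simp at h3
        apply hu.1
        funext i
        fin_cases i
        · exact h0
        · exact h1
        · exact h3
      obtain ⟨c, hc16, ec⟩ := vl_surj hF h2 hs (u 2 / u 1)
      have e : (u 1)⁻¹ • u = vv s (0, 1, c) := by
        funext i
        fin_cases i
        · simp [vv, h0, vl_zero]
        · simp [vv, vl_one, h1]
        · simp [vv, ← ec]; field_simp
      have hI := hu.smul (inv_ne_zero h1)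
      rw [← f1 _ (inv_ne_zero h1) u hu, e]
      rw [e] at hI
      have h3 := hI.2
      rw [vl_hc h2 hs hσ] at h3
      have h4 : hc (0, 1, c) (0, 1, c) = 0 := vl_eq_zero h2 hs (ad_lt _ _) h3
      have h5 := List.all_eq_true.1 pts_full2 c (List.mem_range.2 hc16)
      rw [h4] at h5
      simp only [beq_self_eq_true, Bool.not_true, Bool.false_or] at h5
      rw [List.any_eq_true] at h5
      obtain ⟨l, hl, hl2⟩ := h5
      exact hl0 l hl _ (by simpa using hl2)
    · obtain ⟨b, hb, eb⟩ := vl_surj hF h2 hs (u 1 / u 0)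
      obtain ⟨c, hc16, ec⟩ := vl_surj hF h2 hs (u 2 / u 0)
      have e : (u 0)⁻¹ • u = vv s (1, b, c) := by
        funext i
        fin_cases i
        · simp [vv, vl_one, h0]
        · simp [vv, ← eb]; field_simp
        · simp [vv, ← ec]; field_simp
      have hI := hu.smul (inv_ne_zero h0)
      rw [← f1 _ (inv_ne_zero h0) u hu, e]
      rw [e] at hI
      have h3 := hI.2
      rw [vl_hc h2 hs hσ] at h3
      have h4 : hc (1, b, c) (1, b, c) = 0 := vl_eq_zero h2 hs (ad_lt _ _) h3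
      have h5 := List.all_eq_true.1 (List.all_eq_true.1 pts_full1 b (List.mem_range.2 hb)) c (List.mem_range.2 hc16)
      rw [h4] at h5
      simp only [beq_self_eq_true, Bool.not_true, Bool.false_or] at h5
      rw [List.any_eq_true] at h5
      obtain ⟨l, hl, hl2⟩ := h5
      exact hl0 l hl _ (by simpa using hl2)
  funext u v
  by_cases h : Is σ u ∧ Is σ v
  · rw [← a1 u p0 v h.1 hp h.2, hanti v p0 h.2 hp]
    have h3 := hall u h.1
    have h4 := hall v h.2
    change ψ u p0 = 0 at h3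
    change ψ v p0 = 0 at h4
    rw [h3, h4]; simp
  · exact a0 u v h

end

section
variable {F : Type*} [Field F] [Fintype F] (hF : Fintype.card F = 16)
include hF

theorem card_SU4 : Nat.card (SU 3 F 4) = 62400 := by
  have h1 := card_SU_mul (F := F) (q := 4) (n := 3) (by rw [hF]; norm_num) (by norm_num)
  have h2 : ordU 4 3 = 312000 := by
    unfold ordU
    decide
  rw [h2] at h1
  omega

theorem primes_SU4 (p : ℕ) (hp : p.Prime) (h : p ∣ Nat.card (SU 3 F 4)) : p = 2 ∨ p = 3 ∨ p = 5 ∨ p = 13 := by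
  rw [card_SU4 hF, show (62400 : ℕ) = 2 ^ 6 * (3 * (5 ^ 2 * 13)) by norm_num] at h
  rcases (Nat.Prime.dvd_mul hp).1 h with h | h
  · exact Or.inl ((Nat.prime_dvd_prime_iff_eq hp Nat.prime_two).1 (hp.dvd_of_dvd_pow h))
  rcases (Nat.Prime.dvd_mul hp).1 h with h | h
  · exact Or.inr (Or.inl ((Nat.prime_dvd_prime_iff_eq hp Nat.prime_three).1 h))
  rcases (Nat.Prime.dvd_mul hp).1 h with h | h
  · exact Or.inr (Or.inr (Or.inl ((Nat.prime_dvd_prime_iff_eq hp (by norm_num)).1 (hp.dvd_of_dvd_pow h))))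
  · exact Or.inr (Or.inr (Or.inr ((Nat.prime_dvd_prime_iff_eq hp (by norm_num)).1 h)))

/-- elements of order 13 are conjugate up to powers -/
theorem conj13 (x g : SU 3 F 4) (hx : orderOf x = 13) (hg : orderOf g = 13) :
    ∃ (c : SU 3 F 4) (n : ℕ), x = c * g ^ n * c⁻¹ := by
  haveI : Fact (Nat.Prime 13) := ⟨by norm_num⟩
  haveI : Finite (SU 3 F 4) := Nat.finite_of_card_ne_zero (by rw [card_SU4 hF]; norm_num)
  have hfac : (Nat.card (SU 3 F 4)).factorization 13 = 1 := by
    rw [card_SU4 hF, show (62400 : ℕ) = 13 * 4800 by norm_num, Nat.factorization_mul (by norm_num) (by norm_num)]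
    rw [Finsupp.add_apply, Nat.Prime.factorization_self (by norm_num),
      Nat.factorization_eq_zero_of_not_dvd (by norm_num)]
  let P := Sylow.ofCard (p := 13) (Subgroup.zpowers x) (by rw [Nat.card_zpowers, hx, hfac, pow_one])
  let Q := Sylow.ofCard (p := 13) (Subgroup.zpowers g) (by rw [Nat.card_zpowers, hg, hfac, pow_one])
  obtain ⟨c, hc⟩ := MulAction.exists_smul_eq (SU 3 F 4) Q P
  have h1 : x ∈ (c • Q : Sylow 13 (SU 3 F 4)) := by
    rw [hc]
    exact Subgroup.mem_zpowers x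
  rw [Sylow.smul_def] at h1
  obtain ⟨y, hy, hyx⟩ := h1
  obtain ⟨k, hk⟩ := (isOfFinOrder_of_finite g).mem_powers_iff_mem_zpowers.2 hy
  refine ⟨c, k, ?_⟩
  rw [← hyx]
  change c * y * c⁻¹ = _
  rw [← hk]

end

section
variable {F : Type*} [Field F] [Fintype F] {σ : F →+* F} (hF : Fintype.card F = 16) (hσ : ∀ x, σ x = x ^ 4)
  (hσ1 : σ ≠ RingHom.id F) (hσ2 : ∀ a, σ (σ a) = a) (h2 : (2 : F) = 0) {s : F} (hs : s ^ 4 = s + 1)

omit [Fintype F] in
include hσ h2 hs in
theorem ord_X : orderOf (su h2 hs hσ mX kX) = 13 := by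
  haveI : Fact (Nat.Prime 13) := ⟨by norm_num⟩
  apply orderOf_eq_prime (su_pow h2 hs hσ mX kX 13 (by decide +kernel))
  intro h
  apply su_pow_ne h2 hs hσ mX kX 1 (by decide +kernel) (by decide +kernel)
  rw [pow_one, h]

omit [Fintype F] in
include hσ h2 hs in
theorem ord_10 : orderOf (su h2 hs hσ m10 k10) = 10 := by
  apply orderOf_eq_of_pow_and_pow_div_prime (by norm_num) (su_pow h2 hs hσ m10 k10 10 (by decide +kernel))
  intro p hp hd
  have h3 : p = 2 ∨ p = 5 := by
    rw [show (10 : ℕ) = 2 * 5 by norm_num] at hd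
    rcases (Nat.Prime.dvd_mul hp).1 hd with h | h
    · exact Or.inl ((Nat.prime_dvd_prime_iff_eq hp Nat.prime_two).1 h)
    · exact Or.inr ((Nat.prime_dvd_prime_iff_eq hp (by norm_num)).1 h)
  rcases h3 with rfl | rfl
  · exact su_pow_ne h2 hs hσ m10 k10 5 (by decide +kernel) (by decide +kernel)
  · exact su_pow_ne h2 hs hσ m10 k10 2 (by decide +kernel) (by decide +kernel)

omit [Fintype F] in
include hσ h2 hs in
theorem ord_15 : orderOf (su h2 hs hσ m15 k15) = 15 := by
  apply orderOf_eq_of_pow_and_pow_div_prime (by norm_num) (su_pow h2 hs hσ m15 k15 15 (by decide +kernel))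
  intro p hp hd
  have h3 : p = 3 ∨ p = 5 := by
    rw [show (15 : ℕ) = 3 * 5 by norm_num] at hd
    rcases (Nat.Prime.dvd_mul hp).1 hd with h | h
    · exact Or.inl ((Nat.prime_dvd_prime_iff_eq hp Nat.prime_three).1 h)
    · exact Or.inr ((Nat.prime_dvd_prime_iff_eq hp (by norm_num)).1 h)
  rcases h3 with rfl | rfl
  · exact su_pow_ne h2 hs hσ m15 k15 5 (by decide +kernel) (by decide +kernel)
  · exact su_pow_ne h2 hs hσ m15 k15 3 (by decide +kernel) (by decide +kernel)

include hF hσ1 hσ2 h2 hs in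
theorem hfix {A : Type*} [AddCommGroup A] (hA : ∀ a : A, 5 • a = 0) (g : SU 3 F 4) (hg : orderOf g = 13)
    (n : Multiplicative (W σ (vl s 6) A)) (h : phi hσ (vl s 6) A g n = n) : n = 1 := by
  set X := su h2 hs hσ mX kX with hX
  obtain ⟨c, k, hc⟩ := conj13 hF X g (ord_X hσ h2 hs) hg
  have h3 : ∀ k : ℕ, phi hσ (vl s 6) A (g ^ k) n = n := by
    intro k
    induction k with
    | zero => rw [pow_zero, map_one, MulAut.one_apply]
    | succ k ih => rw [pow_succ, map_mul, MulAut.mul_apply, h, ih]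
  set n' := phi hσ (vl s 6) A c n with hn'
  have h4 : phi hσ (vl s 6) A X n' = n' := by
    rw [hn', ← MulAut.mul_apply, ← map_mul, hc, inv_mul_cancel_right, map_mul, MulAut.mul_apply, h3]
  have h5 : (Multiplicative.toAdd n').1 = 0 := by
    apply fixed_zero hF hσ hσ1 hσ2 h2 hs hA (Multiplicative.toAdd n').2
    intro u v
    have h6 := phi_apply hσ (vl s 6) A X n' (sv X u) (sv X v)
    rw [h4, sv_inv, sv_inv] at h6
    exact h6
  have h7 : n' = 1 := Subtype.ext h5
  rw [hn'] at h7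
  exact (MulEquiv.map_eq_one_iff _).1 h7

include hF hσ hσ1 hσ2 h2 hs in
theorem large (k : ℕ) : 5 ^ k ≤ Nat.card (W σ (vl s 6) (Fin k → ZMod 5)) := by
  obtain ⟨lg, hm, hl3⟩ := exists_lg hF
  have hx : Is σ (vv s (1, 15, 0)) := is_same hσ h2 hs (by decide +kernel)
  have hy : Is σ (vv s (1, 1, 0)) := is_same hσ h2 hs (by decide +kernel)
  have hz : Is σ (vv s (1, 0, 1)) := is_same hσ h2 hs (by decide +kernel)
  have hx0 : vv s (1, 15, 0) 0 ≠ 0 := by simp [vv, vl_one]
  have hy0 : vv s (1, 1, 0) 0 ≠ 0 := by simp [vv, vl_one]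
  apply card_W hσ hσ1 hσ2 h2 (vl6 h2 hs) hm k hx hx0 hy hy0 hz hy
  have e1 : m σ lg (vv s (1, 1, 0)) (vv s (1, 0, 1)) = 0 := by
    rw [m_ne (by rw [vl_hc h2 hs hσ, show hc (1, 1, 0) (1, 0, 1) = 1 by decide +kernel, vl_one]; exact one_ne_zero),
      vl_hc h2 hs hσ, show hc (1, 1, 0) (1, 0, 1) = 1 by decide +kernel, vl_one, lg_one hm]
  have e2 : m σ lg (vv s (1, 15, 0)) (vv s (1, 0, 1)) = 0 := by
    rw [m_ne (by rw [vl_hc h2 hs hσ, show hc (1, 15, 0) (1, 0, 1) = 1 by decide +kernel, vl_one]; exact one_ne_zero),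
      vl_hc h2 hs hσ, show hc (1, 15, 0) (1, 0, 1) = 1 by decide +kernel, vl_one, lg_one hm]
  have e3 : m σ lg (vv s (1, 1, 0)) (vv s (1, 1, 0)) = 0 := by
    have := m_eq (lg := lg) hy hy0 1
    rw [one_smul, lg_one hm] at this
    exact this
  set K := hc (1, 15, 0) (1, 1, 0) with hK
  have hK0 : vl s K ≠ 0 := fun h0 => (by decide +kernel : hc (1, 15, 0) (1, 1, 0) ≠ 0) (vl_eq_zero h2 hs (ad_lt _ _) h0)
  have e4 : m σ lg (vv s (1, 15, 0)) (vv s (1, 1, 0)) = lg (vl s K) := by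
    rw [m_ne (by rw [vl_hc h2 hs hσ]; exact hK0), vl_hc h2 hs hσ]
  rw [e1, e2, e3, e4]
  intro h
  have h1 : lg (vl s K) = 0 := by linear_combination h
  have h3 := hl3 _ hK0 h1
  rw [pow_succ, pow_two, ← vl_ml h2 hs, ← vl_ml h2 hs, ← vl_one s] at h3
  have h4 := vl_inj h2 hs (pk_lt _ _ _ _) (by norm_num) h3
  exact absurd h4 (by rw [hK]; decide +kernel)

end

end Cfsg.Agent.H29.PsuFour
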