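import Cfsg.Agent.H29.GFq9
import Cfsg.Agent.H29.ClassEig2

/-! # `SU₃(3)`: coded checks for the eigenfunctions of the class sum of transvections -/

set_option autoImplicit false
set_option linter.all false

namespace Cfsg.Agent.H29.PsuThree

open Cfsg.Agent.H29.GFq9

def L : List C3 := (List.range 9) ×ˢ ((List.range 9) ×ˢ (List.range 9))

theorem mem_L (v : C3) : v ∈ L ↔ v.1 < 9 ∧ v.2.1 < 9 ∧ v.2.2 < 9 := by
  unfold L
  rw [List.mem_product, List.mem_product]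
  simp

theorem nodup_L : L.Nodup := List.nodup_range.product (List.nodup_range.product List.nodup_range)

def isoL : List C3 := L.filter (fun v => decide (v ≠ (0, 0, 0)) && decide (hc v v = 0))

def tC (v y : C3) : C3 := adC y (smC (ml 3 (hc v y)) v)

def lam (c : ℕ) : ℤ := if c = 0 then 0 else if c = 1 ∨ c = 2 ∨ c = 3 ∨ c = 6 then 1 else -1

def f2 (y : C3) : ℤ := if y = (1, 1, 1) then 1 else if y = (2, 2, 2) then -1 else 0

def f3 (y : C3) : ℤ := if y.1 = y.2.1 ∧ y.2.1 = y.2.2 then 9 * lam y.1 else lam (ad y.1 (ad y.2.1 y.2.2))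

def chkf (f : C3 → ℤ) (m : ℤ) (y : C3) : Bool := decide ((isoL.map fun v => f (tC v y)).sum = m * f y)

def N1 : List C3 := L.filter (fun v => decide (hc v v = 1))

def crC (a b : C3) : C3 := (ad (ml a.2.1 b.2.2) (ng (ml a.2.2 b.2.1)),
  ad (ml a.2.2 b.1) (ng (ml a.1 b.2.2)), ad (ml a.1 b.2.1) (ng (ml a.2.1 b.1)))

def colsC (a b c : C3) : M3 := ((a.1, b.1, c.1), (a.2.1, b.2.1, c.2.1), (a.2.2, b.2.2, c.2.2))

def trcC (A : M3) : ℕ := ad A.1.1 (ad A.2.1.2.1 A.2.2.2.2)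

def madC (A B : M3) : M3 := (adC A.1 B.1, adC A.2.1 B.2.1, adC A.2.2 B.2.2)

def msC (c : ℕ) (A : M3) : M3 := (smC c A.1, smC c A.2.1, smC c A.2.2)

def zeroC : M3 := ((0, 0, 0), (0, 0, 0), (0, 0, 0))

def zC : M3 := ((4, 3, 3), (3, 4, 3), (3, 3, 4))
def z2C : M3 := mmC zC zC
def rC : M3 := ((0, 8, 8), (4, 3, 6), (4, 6, 3))
def xC : M3 := ((0, 1, 0), (0, 0, 1), (1, 0, 0))
def yC : M3 := ((0, 8, 5), (8, 3, 2), (5, 2, 6))

def psiC (A : M3) : ℤ :=
  if A = oneC then 6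
  else if trcC A = 0 then (if mmC A A = madC (msC 2 A) (msC 2 oneC) then -3 else 0)
  else if trcC A = 1 then 2
  else if trcC A = 2 then (if mmC A A = oneC then -2 else 1)
  else if trcC A = 5 ∨ trcC A = 8 then
    (if madC (madC (mmC (mmC A A) A) (mmC A A)) (madC A oneC) = zeroC then -2 else 1)
  else if trcC A = 3 ∨ trcC A = 6 then 0 else -1

def chk1 (a b : C3) : Bool := !(decide (hc a b = 0)) ||
  decide (psiC (colsC a b (cjv (crC a b))) + psiC (mmC zC (colsC a b (cjv (crC a b)))) +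
    psiC (mmC z2C (colsC a b (cjv (crC a b)))) = 0)

end Cfsg.Agent.H29.PsuThree
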