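import Cfsg.Agent.H29.PsuThree

/-! # `SU₃(3)`: a kernel check -/

set_option autoImplicit false
set_option linter.all false
set_option maxRecDepth 100000

namespace Cfsg.Agent.H29.PsuThree

open Cfsg.Agent.H29.GFq9

theorem chkC : (N1.all fun a => N1.all fun b => chk1 a b) = true := by decide +kernel

end Cfsg.Agent.H29.PsuThree
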