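import Cfsg.Agent.H29.PsuThree

/-! # `SU₃(3)`: from coded checks to eigenfunctions -/

set_option autoImplicit false
set_option linter.all false

namespace Cfsg.Agent.H29.PsuThree

open Matrix Cfsg Cfsg.Agent.H5 Cfsg.Agent.H5.FormData Cfsg.Agent.H18 Cfsg.Agent.H29.GFq9 Cfsg.Agent.H29.ClassEig

variable {F : Type*} [Field F] {σ : F →+* F}

theorem dot_lt (r v : C3) : dot r v < 9 := ad_lt _ _

theorem vv_inj (h3 : (3 : F) = 0) {s : F} (hs : s ^ 2 = 2) {c d : C3} (hc : c.1 < 9 ∧ c.2.1 < 9 ∧ c.2.2 < 9)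
    (hd : d.1 < 9 ∧ d.2.1 < 9 ∧ d.2.2 < 9) (h : vv s c = vv s d) : c = d := by
  have e1 := vl_inj h3 hs hc.1 hd.1 (congrFun h 0)
  have e2 := vl_inj h3 hs hc.2.1 hd.2.1 (congrFun h 1)
  have e3 := vl_inj h3 hs hc.2.2 hd.2.2 (congrFun h 2)
  exact Prod.ext e1 (Prod.ext e2 e3)

theorem ex_vv [Fintype F] (hF : Fintype.card F = 9) (h3 : (3 : F) = 0) {s : F} (hs : s ^ 2 = 2)
    (v : Fin 3 → F) : ∃ c : C3, (c.1 < 9 ∧ c.2.1 < 9 ∧ c.2.2 < 9) ∧ vv s c = v := by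
  obtain ⟨a, ha, ha'⟩ := vl_surj hF h3 hs (v 0)
  obtain ⟨b, hb, hb'⟩ := vl_surj hF h3 hs (v 1)
  obtain ⟨c, hc, hc'⟩ := vl_surj hF h3 hs (v 2)
  refine ⟨(a, b, c), ⟨ha, hb, hc⟩, ?_⟩
  ext i
  fin_cases i
  · exact ha'.symm
  · exact hb'.symm
  · exact hc'.symm

open Classical in
noncomputable def cd (s : F) (v : Fin 3 → F) : C3 :=
  if h : ∃ c : C3, (c.1 < 9 ∧ c.2.1 < 9 ∧ c.2.2 < 9) ∧ vv s c = v then Classical.choose h else (0, 0, 0)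

theorem cd_vv (h3 : (3 : F) = 0) {s : F} (hs : s ^ 2 = 2) {c : C3}
    (hc : c.1 < 9 ∧ c.2.1 < 9 ∧ c.2.2 < 9) : cd s (vv s c) = c := by
  have h : ∃ d : C3, (d.1 < 9 ∧ d.2.1 < 9 ∧ d.2.2 < 9) ∧ vv s d = vv s c := ⟨c, hc, rfl⟩
  unfold cd
  rw [dif_pos h]
  have h1 := Classical.choose_spec h
  exact vv_inj h3 hs h1.1 hc h1.2

noncomputable def T (σ : F →+* F) (s : F) (w y : Fin 3 → F) : Fin 3 → F := y + (s * hB (Fin 3) σ w y) • w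

theorem T_vv (h3 : (3 : F) = 0) {s : F} (hs : s ^ 2 = 2) (hσ : ∀ x, σ x = x ^ 3) (v y : C3) :
    T σ s (vv s v) (vv s y) = vv s (tC v y) := by
  unfold T tC
  rw [vv_adC h3, vv_smC h3 hs, vl_ml h3 hs, vl_three, vl_hc h3 hs hσ]

theorem tC_lt (v y : C3) : (tC v y).1 < 9 ∧ (tC v y).2.1 < 9 ∧ (tC v y).2.2 < 9 :=
  ⟨ad_lt _ _, ad_lt _ _, ad_lt _ _⟩

theorem zdec : (L.all fun c => decide (mvC zC c = tC (1, 1, 1) c)) = true := by decide +kernel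

noncomputable def z (h3 : (3 : F) = 0) {s : F} (hs : s ^ 2 = 2) (hσ : ∀ x, σ x = x ^ 3) : SU 3 F 3 :=
  su h3 hs hσ zC (by decide +kernel)

theorem z_act [Fintype F] (hF : Fintype.card F = 9) (h3 : (3 : F) = 0) {s : F} (hs : s ^ 2 = 2)
    (hσ : ∀ x, σ x = x ^ 3) (y : Fin 3 → F) : sv (z h3 hs hσ) y = T σ s (vv s (1, 1, 1)) y := by
  obtain ⟨c, hc, rfl⟩ := ex_vv hF h3 hs y
  rw [T_vv h3 hs hσ]
  unfold z
  rw [sv_su]
  have h1 := List.all_eq_true.1 zdec c ((mem_L c).2 hc)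
  rw [of_decide_eq_true h1]

theorem conj_act [Fintype F] (hF : Fintype.card F = 9) (h3 : (3 : F) = 0) {s : F} (hs : s ^ 2 = 2)
    (hσ : ∀ x, σ x = x ^ 3) (A : SU 3 F 3) (y : Fin 3 → F) :
    sv (A * z h3 hs hσ * A⁻¹) y = T σ s (sv A (vv s (1, 1, 1))) y := by
  rw [sv_mul, sv_mul, z_act hF h3 hs hσ]
  unfold T
  rw [sv_add, sv_smul, sv_inv', ← sv_isom hσ A (vv s (1, 1, 1)) (sv A⁻¹ y), sv_inv']

/-- nonzero isotropic vectors -/
abbrev Iso (σ : F →+* F) := {v : Fin 3 → F // v ≠ 0 ∧ hB (Fin 3) σ v v = 0}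

theorem mem_isoL (c : C3) : c ∈ isoL ↔ (c.1 < 9 ∧ c.2.1 < 9 ∧ c.2.2 < 9) ∧ c ≠ (0, 0, 0) ∧ hc c c = 0 := by
  unfold isoL
  rw [List.mem_filter, mem_L]
  simp

theorem iso_iff (h3 : (3 : F) = 0) {s : F} (hs : s ^ 2 = 2) (hσ : ∀ x, σ x = x ^ 3) {c : C3}
    (hcl : c.1 < 9 ∧ c.2.1 < 9 ∧ c.2.2 < 9) :
    (vv s c ≠ 0 ∧ hB (Fin 3) σ (vv s c) (vv s c) = 0) ↔ (c ≠ (0, 0, 0) ∧ hc c c = 0) := by
  have h0 : vv s (0, 0, 0) = 0 := by
    ext i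
    fin_cases i <;> simp [vv, vl_zero]
  rw [vl_hc h3 hs hσ]
  constructor
  · rintro ⟨h1, h2⟩
    exact ⟨fun h => h1 (by rw [h, h0]), vl_eq_zero h3 hs (dot_lt _ _) h2⟩
  · rintro ⟨h1, h2⟩
    refine ⟨fun h => h1 (vv_inj h3 hs hcl (by norm_num) (by rw [h, h0])), by rw [h2, vl_zero]⟩

theorem nodup_isoL : isoL.Nodup := nodup_L.filter _

open Classical in
theorem sum_iso [Fintype F] (hF : Fintype.card F = 9) (h3 : (3 : F) = 0) {s : F} (hs : s ^ 2 = 2)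
    (hσ : ∀ x, σ x = x ^ 3) (φ : (Fin 3 → F) → ℤ) :
    ∑ v : Iso σ, φ v.1 = (isoL.map (fun c => φ (vv s c))).sum := by
  rw [← List.sum_toFinset (fun c => φ (vv s c)) nodup_isoL]
  symm
  refine Finset.sum_bij (fun c hc => (⟨vv s c, ?_⟩ : Iso σ)) ?_ ?_ ?_ ?_
  · have h1 := (mem_isoL c).1 (List.mem_toFinset.1 hc)
    exact (iso_iff h3 hs hσ h1.1).2 h1.2
  · intro c hc
    exact Finset.mem_univ _
  · intro c hc d hd h
    have h1 := (mem_isoL c).1 (List.mem_toFinset.1 hc)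
    have h2 := (mem_isoL d).1 (List.mem_toFinset.1 hd)
    exact vv_inj h3 hs h1.1 h2.1 (congrArg Subtype.val h)
  · intro v _
    obtain ⟨c, hc, hcv⟩ := ex_vv hF h3 hs v.1
    refine ⟨c, List.mem_toFinset.2 ((mem_isoL c).2 ⟨hc, (iso_iff h3 hs hσ hc).1 (by rw [hcv]; exact v.2)⟩), ?_⟩
    exact Subtype.ext hcv
  · intro c hc
    rfl

/-- `SU` acts on the isotropic vectors -/
noncomputable def actIso (hσ : ∀ x, σ x = x ^ 3) (A : SU 3 F 3) : Iso σ ≃ Iso σ where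
  toFun v := ⟨sv A v.1, fun h => v.2.1 (by
    have := sv_inv A v.1
    rw [h] at this
    rw [← this]
    exact Matrix.mulVec_zero _), by rw [sv_isom hσ]; exact v.2.2⟩
  invFun v := ⟨sv A⁻¹ v.1, fun h => v.2.1 (by
    have := sv_inv' A v.1
    rw [h] at this
    rw [← this]
    exact Matrix.mulVec_zero _), by rw [sv_isom hσ]; exact v.2.2⟩
  left_inv v := Subtype.ext (sv_inv A v.1)
  right_inv v := Subtype.ext (sv_inv' A v.1)

theorem len_iso : isoL.length = 224 := by decide +kernel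

open Classical in
theorem card_Iso [Fintype F] (hF : Fintype.card F = 9) (h3 : (3 : F) = 0) {s : F} (hs : s ^ 2 = 2)
    (hσ : ∀ x, σ x = x ^ 3) : Fintype.card (Iso σ) = 224 := by
  have h := sum_iso hF h3 hs hσ (fun _ => 1)
  simp only [Finset.sum_const, Finset.card_univ, List.map_const', List.sum_replicate, len_iso] at h
  have h2 : ((Fintype.card (Iso σ) : ℕ) : ℤ) = 224 := by simpa using h
  exact_mod_cast h2

/-- the function on the group -/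
noncomputable def Ff (s : F) (fC : C3 → ℤ) (g : SU 3 F 3) : ℂ := ((fC (cd s (sv g (vv s (1, 1, 1)))) : ℤ) : ℂ)

theorem eig_f [Fintype F] [Fintype (SU 3 F 3)] (hF : Fintype.card F = 9) (h3 : (3 : F) = 0) {s : F} (hs : s ^ 2 = 2)
    (hσ : ∀ x, σ x = x ^ 3) (hσ1 : σ ≠ RingHom.id F) (hσ2 : ∀ a, σ (σ a) = a) (fC : C3 → ℤ) (m : ℤ)
    (hchk : isoL.all (chkf fC m) = true) : Eig (Ff s fC) (z h3 hs hσ) ((m : ℂ) / 224) := by
  classical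
  have h0 : (((1, 1, 1) : C3)) ∈ isoL := (mem_isoL _).2 (by decide)
  have h01 := (mem_isoL _).1 h0
  have hv0 := (iso_iff (σ := σ) h3 hs hσ h01.1).2 h01.2
  have hr : ∀ v : Iso σ, ∃ A : SU 3 F 3, sv A (vv s (1, 1, 1)) = v.1 := fun v =>
    su3_trans hσ hσ1 hσ2 hv0.1 hv0.2 v.2.1 v.2.2
  choose r hr using hr
  have key := eig_fam r (Ff s fC) (z h3 hs hσ) (m : ℂ) (by rw [card_Iso hF h3 hs hσ]; norm_num) ?_
  · rw [card_Iso hF h3 hs hσ] at key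
    exact_mod_cast key
  intro x g
  have hy : sv g (vv s (1, 1, 1)) ≠ 0 ∧ hB (Fin 3) σ (sv g (vv s (1, 1, 1))) (sv g (vv s (1, 1, 1))) = 0 :=
    (actIso hσ g ⟨_, hv0⟩).2
  unfold Ff
  obtain ⟨d, hd, hdy⟩ := ex_vv hF h3 hs (sv g (vv s (1, 1, 1)))
  have hdm : d ∈ isoL := (mem_isoL d).2 ⟨hd, (iso_iff (σ := σ) h3 hs hσ hd).1 (by rw [hdy]; exact hy)⟩
  have h1 : ∀ v : Iso σ, sv (x * (r v * z h3 hs hσ * (r v)⁻¹) * x⁻¹ * g) (vv s (1, 1, 1)) =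
      T σ s (actIso hσ x v).1 (vv s d) := by
    intro v
    have e : x * (r v * z h3 hs hσ * (r v)⁻¹) * x⁻¹ * g = (x * r v) * z h3 hs hσ * (x * r v)⁻¹ * g := by group
    rw [e, sv_mul, conj_act hF h3 hs hσ, hdy, sv_mul, hr]
    rfl
  simp only [h1]
  rw [Equiv.sum_comp (actIso hσ x) (fun v => ((fC (cd s (T σ s v.1 (vv s d))) : ℤ) : ℂ)), ← Int.cast_sum,
    sum_iso hF h3 hs hσ (fun v => fC (cd s (T σ s v (vv s d))))]
  have h2 : ∀ c : C3, fC (cd s (T σ s (vv s c) (vv s d))) = fC (tC c d) := by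
    intro c
    rw [T_vv h3 hs hσ, cd_vv h3 hs (tC_lt c d)]
  simp only [h2]
  have h4 := of_decide_eq_true (List.all_eq_true.1 hchk d hdm)
  rw [h4, ← hdy, cd_vv h3 hs hd]
  push_cast
  ring

end Cfsg.Agent.H29.PsuThree
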