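import Cfsg.Agent.H29.PsuThreeD

/-! # `SU₃(3)`: the class function of degree 6 -/

set_option autoImplicit false
set_option linter.all false

namespace Cfsg.Agent.H29.PsuThree

open Matrix Cfsg Cfsg.Agent.H5 Cfsg.Agent.H5.FormData Cfsg.Agent.H18 Cfsg.Agent.H29.GFq9 Cfsg.Agent.H29.ClassEig

variable {F : Type*} [Field F] {σ : F →+* F}

open Classical in
noncomputable def psi (s : F) (M : Matrix (Fin 3) (Fin 3) F) : ℤ :=
  if M = 1 then 6
  else if M.trace = vl s 0 then (if M * M = vl s 2 • M + vl s 2 • (1 : Matrix (Fin 3) (Fin 3) F) then -3 else 0)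
  else if M.trace = vl s 1 then 2
  else if M.trace = vl s 2 then (if M * M = 1 then -2 else 1)
  else if M.trace = vl s 5 ∨ M.trace = vl s 8 then (if M * M * M + M * M + (M + 1) = 0 then -2 else 1)
  else if M.trace = vl s 3 ∨ M.trace = vl s 6 then 0 else -1

open Classical in
theorem psi_conj (s : F) (X Y M : Matrix (Fin 3) (Fin 3) F) (h1 : X * Y = 1) (h2 : Y * X = 1) :
    psi s (X * M * Y) = psi s M := by
  have hinj : ∀ N N' : Matrix (Fin 3) (Fin 3) F, X * N * Y = X * N' * Y ↔ N = N' := by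
    intro N N'
    constructor
    · intro h
      have h3 := congrArg (fun K => Y * K * X) h
      have e : ∀ N : Matrix (Fin 3) (Fin 3) F, Y * (X * N * Y) * X = N := by
        intro N
        calc Y * (X * N * Y) * X = (Y * X) * N * (Y * X) := by noncomm_ring
          _ = N := by rw [h2, one_mul, mul_one]
      simpa only [e] using h3
    · rintro rfl; rfl
  have ht : (X * M * Y).trace = M.trace := by
    rw [Matrix.trace_mul_comm, ← Matrix.mul_assoc, h2, Matrix.one_mul]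
  have e1 : (1 : Matrix (Fin 3) (Fin 3) F) = X * 1 * Y := by rw [mul_one, h1]
  have e2 : X * M * Y * (X * M * Y) = X * (M * M) * Y := by
    calc X * M * Y * (X * M * Y) = X * M * (Y * X) * M * Y := by noncomm_ring
      _ = _ := by rw [h2]; noncomm_ring
  have e3 : X * (M * M) * Y * (X * M * Y) = X * (M * M * M) * Y := by
    calc X * (M * M) * Y * (X * M * Y) = X * (M * M) * (Y * X) * M * Y := by noncomm_ring
      _ = _ := by rw [h2]; noncomm_ring
  have c1 : X * M * Y = 1 ↔ M = 1 := by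
    conv_lhs => rw [e1]
    exact hinj M 1
  have c2 : X * M * Y * (X * M * Y) = vl s 2 • (X * M * Y) + vl s 2 • (1 : Matrix (Fin 3) (Fin 3) F) ↔
      M * M = vl s 2 • M + vl s 2 • (1 : Matrix (Fin 3) (Fin 3) F) := by
    rw [e2, ← hinj (M * M)]
    have : X * (vl s 2 • M + vl s 2 • (1 : Matrix (Fin 3) (Fin 3) F)) * Y =
        vl s 2 • (X * M * Y) + vl s 2 • (1 : Matrix (Fin 3) (Fin 3) F) := by
      rw [mul_add, add_mul, mul_smul_comm, smul_mul_assoc, mul_smul_comm, smul_mul_assoc, mul_one, h1]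
    rw [this]
  have c3 : X * M * Y * (X * M * Y) = 1 ↔ M * M = 1 := by
    rw [e2]
    conv_lhs => rw [e1]
    exact hinj _ _
  have c4 : X * M * Y * (X * M * Y) * (X * M * Y) + X * M * Y * (X * M * Y) + (X * M * Y + 1) = 0 ↔
      M * M * M + M * M + (M + 1) = 0 := by
    rw [e2, e3, ← hinj (M * M * M + M * M + (M + 1))]
    have : X * (M * M * M + M * M + (M + 1)) * Y =
        X * (M * M * M) * Y + X * (M * M) * Y + (X * M * Y + 1) := by
      simp only [mul_add, add_mul, mul_one, h1]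
    rw [this, mul_zero, zero_mul]
  unfold psi
  rw [ht]
  exact if_congr c1 rfl (if_congr Iff.rfl (if_congr c2 rfl rfl) (if_congr Iff.rfl rfl
    (if_congr Iff.rfl (if_congr c3 rfl rfl) (if_congr Iff.rfl (if_congr c4 rfl rfl) rfl))))

theorem vm_madC (h3 : (3 : F) = 0) (s : F) (A B : M3) : vm s (madC A B) = vm s A + vm s B := by
  ext i j
  fin_cases i
  · exact congrFun (vv_adC h3 s A.1 B.1) j
  · exact congrFun (vv_adC h3 s A.2.1 B.2.1) j
  · exact congrFun (vv_adC h3 s A.2.2 B.2.2) j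

theorem vm_msC (h3 : (3 : F) = 0) {s : F} (hs : s ^ 2 = 2) (c : ℕ) (A : M3) : vm s (msC c A) = vl s c • vm s A := by
  ext i j
  fin_cases i
  · exact congrFun (vv_smC h3 hs c A.1) j
  · exact congrFun (vv_smC h3 hs c A.2.1) j
  · exact congrFun (vv_smC h3 hs c A.2.2) j

theorem vm_zeroC (s : F) : vm s zeroC = 0 := by
  ext i j
  fin_cases i <;> fin_cases j <;> simp [vm, vv, zeroC, vl_zero]

theorem red_mm (A B : M3) : red (mmC A B) = true :=
  decide_eq_true ⟨dot_lt _ _, dot_lt _ _, dot_lt _ _, dot_lt _ _, dot_lt _ _, dot_lt _ _, dot_lt _ _, dot_lt _ _, dot_lt _ _⟩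

theorem red_mad (A B : M3) : red (madC A B) = true :=
  decide_eq_true ⟨ad_lt _ _, ad_lt _ _, ad_lt _ _, ad_lt _ _, ad_lt _ _, ad_lt _ _, ad_lt _ _, ad_lt _ _, ad_lt _ _⟩

theorem vm_iff (h3 : (3 : F) = 0) {s : F} (hs : s ^ 2 = 2) {A B : M3} (hA : red A = true) (hB : red B = true) :
    vm s A = vm s B ↔ A = B := ⟨vm_inj h3 hs hA hB, fun h => by rw [h]⟩

theorem vm_trace (h3 : (3 : F) = 0) (s : F) (A : M3) : (vm s A).trace = vl s (trcC A) := by
  rw [Matrix.trace_fin_three]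
  unfold trcC
  rw [vl_ad h3, vl_ad h3, ← add_assoc]
  rfl

theorem psi_vm (h3 : (3 : F) = 0) {s : F} (hs : s ^ 2 = 2) (A : M3) (hA : red A = true) :
    psi s (vm s A) = psiC A := by
  have hk : ∀ k, k < 9 → (vl s (trcC A) = vl s k ↔ trcC A = k) := fun k hk =>
    ⟨vl_inj h3 hs (ad_lt _ _) hk, fun h => by rw [h]⟩
  have c1 : vm s A = 1 ↔ A = oneC := by rw [← vm_one s, vm_iff h3 hs hA (by decide)]
  have c2 : vm s A * vm s A = vl s 2 • vm s A + vl s 2 • (1 : Matrix (Fin 3) (Fin 3) F) ↔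
      mmC A A = madC (msC 2 A) (msC 2 oneC) := by
    rw [← vm_one s, ← vm_msC h3 hs, ← vm_msC h3 hs, ← vm_madC h3, ← vm_mul h3 hs,
      vm_iff h3 hs (red_mm _ _) (red_mad _ _)]
  have c3 : vm s A * vm s A = 1 ↔ mmC A A = oneC := by
    rw [← vm_one s, ← vm_mul h3 hs, vm_iff h3 hs (red_mm _ _) (by decide)]
  have c4 : vm s A * vm s A * vm s A + vm s A * vm s A + (vm s A + 1) = 0 ↔
      madC (madC (mmC (mmC A A) A) (mmC A A)) (madC A oneC) = zeroC := by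
    rw [← vm_one s, ← vm_zeroC s, ← vm_mul h3 hs, ← vm_mul h3 hs, ← vm_madC h3, ← vm_madC h3, ← vm_madC h3,
      vm_iff h3 hs (red_mad _ _) (by decide)]
  unfold psi psiC
  simp only [vm_trace h3, c1, c2, c3, c4, hk 0 (by norm_num), hk 1 (by norm_num), hk 2 (by norm_num),
    hk 3 (by norm_num), hk 5 (by norm_num), hk 6 (by norm_num), hk 8 (by norm_num)]

theorem colsC_red (a b : C3) (ha : a.1 < 9 ∧ a.2.1 < 9 ∧ a.2.2 < 9) (hb : b.1 < 9 ∧ b.2.1 < 9 ∧ b.2.2 < 9) :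
    red (colsC a b (cjv (crC a b))) = true :=
  decide_eq_true ⟨ha.1, hb.1, cj_lt _, ha.2.1, hb.2.1, cj_lt _, ha.2.2, hb.2.2, cj_lt _⟩

theorem exists_code [Fintype F] (hF : Fintype.card F = 9) (h3 : (3 : F) = 0) {s : F} (hs : s ^ 2 = 2)
    (hσ : ∀ x, σ x = x ^ 3) (hσ2 : ∀ a, σ (σ a) = a) (g : SU 3 F 3) :
    ∃ a b : C3, (a.1 < 9 ∧ a.2.1 < 9 ∧ a.2.2 < 9) ∧ (b.1 < 9 ∧ b.2.1 < 9 ∧ b.2.2 < 9) ∧ a ∈ N1 ∧ b ∈ N1 ∧
      hc a b = 0 ∧ H18.mt g = vm s (colsC a b (cjv (crC a b))) := by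
  obtain ⟨a, ha, hav⟩ := ex_vv hF h3 hs (fun i => H18.mt g i 0)
  obtain ⟨b, hb, hbv⟩ := ex_vv hF h3 hs (fun i => H18.mt g i 1)
  have hu := mt_unitary hσ g
  have hform : ∀ i j : Fin 3, hB (Fin 3) σ (fun k => H18.mt g k i) (fun k => H18.mt g k j) =
      (1 : Matrix (Fin 3) (Fin 3) F) i j := by
    intro i j
    rw [← hu, Matrix.mul_apply, hB_apply]
    rfl
  have haa : hc a a = 1 := by
    apply vl_inj h3 hs (dot_lt _ _) (by norm_num)
    have h := vl_hc h3 hs hσ a a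
    rw [hav, hform] at h
    rw [vl_one]; exact h.symm
  have hbb : hc b b = 1 := by
    apply vl_inj h3 hs (dot_lt _ _) (by norm_num)
    have h := vl_hc h3 hs hσ b b
    rw [hbv, hform] at h
    rw [vl_one]; exact h.symm
  have hab : hc a b = 0 := by
    apply vl_inj h3 hs (dot_lt _ _) (by norm_num)
    have h := vl_hc h3 hs hσ a b
    rw [hav, hbv, hform] at h
    rw [vl_zero]; exact h.symm
  have hdet : (H18.mt g).det = 1 := g.1.2
  have hadj : (H18.mt g).adjugate = (H18.mt g).transpose.map σ := by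
    have h4 : H18.mt g * (H18.mt g).transpose.map σ = 1 := mul_eq_one_comm.mp hu
    calc (H18.mt g).adjugate = (H18.mt g).adjugate * (H18.mt g * (H18.mt g).transpose.map σ) := by rw [h4, mul_one]
      _ = _ := by rw [← Matrix.mul_assoc, Matrix.adjugate_mul, hdet, one_smul, Matrix.one_mul]
  have ea : ∀ i, H18.mt g i 0 = vv s a i := fun i => (congrFun hav i).symm
  have eb : ∀ i, H18.mt g i 1 = vv s b i := fun i => (congrFun hbv i).symm
  have hc2 : ∀ j, H18.mt g j 2 = σ ((H18.mt g).adjugate 2 j) := by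
    intro j
    rw [hadj]
    exact (hσ2 _).symm
  refine ⟨a, b, ha, hb, List.mem_filter.2 ⟨(mem_L a).2 ha, decide_eq_true haa⟩,
    List.mem_filter.2 ⟨(mem_L b).2 hb, decide_eq_true hbb⟩, hab, ?_⟩
  have ec : ∀ j, H18.mt g j 2 = vv s (cjv (crC a b)) j := by
    intro j
    rw [hc2, Matrix.adjugate_fin_three]
    fin_cases j
    · change σ (H18.mt g 1 0 * H18.mt g 2 1 - H18.mt g 1 1 * H18.mt g 2 0) = vl s (cj (crC a b).1)
      rw [vl_cj h3 hs hσ, ea, eb, ea, eb]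
      congr 1
      unfold crC
      simp only [vl_ad h3, vl_ng h3 hs, vl_ml h3 hs, vv]
      simp only [Matrix.cons_val_zero, Matrix.cons_val_one, Matrix.cons_val_two, Matrix.head_cons, Matrix.tail_cons, Matrix.cons_val]
      ring
    · change σ (-(H18.mt g 0 0 * H18.mt g 2 1) + H18.mt g 0 1 * H18.mt g 2 0) = vl s (cj (crC a b).2.1)
      rw [vl_cj h3 hs hσ, ea, eb, ea, eb]
      congr 1
      unfold crC
      simp only [vl_ad h3, vl_ng h3 hs, vl_ml h3 hs, vv]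
      simp only [Matrix.cons_val_zero, Matrix.cons_val_one, Matrix.cons_val_two, Matrix.head_cons, Matrix.tail_cons, Matrix.cons_val]
      ring
    · change σ (H18.mt g 0 0 * H18.mt g 1 1 - H18.mt g 0 1 * H18.mt g 1 0) = vl s (cj (crC a b).2.2)
      rw [vl_cj h3 hs hσ, ea, eb, ea, eb]
      congr 1
      unfold crC
      simp only [vl_ad h3, vl_ng h3 hs, vl_ml h3 hs, vv]
      simp only [Matrix.cons_val_zero, Matrix.cons_val_one, Matrix.cons_val_two, Matrix.head_cons, Matrix.tail_cons, Matrix.cons_val]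
      ring
  ext i j
  fin_cases i <;> fin_cases j <;> first | exact ea _ | exact eb _ | exact ec _

/-- `z⁻¹ = z * z` -/
theorem z_cube (h3 : (3 : F) = 0) {s : F} (hs : s ^ 2 = 2) (hσ : ∀ x, σ x = x ^ 3) : z h3 hs hσ ^ 3 = 1 :=
  su_pow h3 hs hσ zC _ 3 (by decide +kernel)

theorem z_inv (h3 : (3 : F) = 0) {s : F} (hs : s ^ 2 = 2) (hσ : ∀ x, σ x = x ^ 3) :
    (z h3 hs hσ)⁻¹ = z h3 hs hσ * z h3 hs hσ := by
  rw [inv_eq_iff_mul_eq_one, ← pow_three, z_cube]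

noncomputable def r0 (h3 : (3 : F) = 0) {s : F} (hs : s ^ 2 = 2) (hσ : ∀ x, σ x = x ^ 3) : SU 3 F 3 :=
  su h3 hs hσ rC (by decide +kernel)
noncomputable def x0 (h3 : (3 : F) = 0) {s : F} (hs : s ^ 2 = 2) (hσ : ∀ x, σ x = x ^ 3) : SU 3 F 3 :=
  su h3 hs hσ xC (by decide +kernel)
noncomputable def y0 (h3 : (3 : F) = 0) {s : F} (hs : s ^ 2 = 2) (hσ : ∀ x, σ x = x ^ 3) : SU 3 F 3 :=
  su h3 hs hσ yC (by decide +kernel)

theorem r_conj (h3 : (3 : F) = 0) {s : F} (hs : s ^ 2 = 2) (hσ : ∀ x, σ x = x ^ 3) :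
    r0 h3 hs hσ * z h3 hs hσ * (r0 h3 hs hσ)⁻¹ = (z h3 hs hσ)⁻¹ := by
  rw [z_inv, mul_inv_eq_iff_eq_mul]
  apply mt_inj
  rw [mt_mul, mt_mul, mt_mul]
  change vm s rC * vm s zC = vm s zC * vm s zC * vm s rC
  rw [← vm_mul h3 hs, ← vm_mul h3 hs, ← vm_mul h3 hs]
  exact congrArg _ (by decide +kernel)

theorem xz (h3 : (3 : F) = 0) {s : F} (hs : s ^ 2 = 2) (hσ : ∀ x, σ x = x ^ 3) :
    x0 h3 hs hσ * z h3 hs hσ = z h3 hs hσ * x0 h3 hs hσ := by
  apply mt_inj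
  rw [mt_mul, mt_mul]
  change vm s xC * vm s zC = vm s zC * vm s xC
  rw [← vm_mul h3 hs, ← vm_mul h3 hs]
  exact congrArg _ (by decide +kernel)

theorem yz (h3 : (3 : F) = 0) {s : F} (hs : s ^ 2 = 2) (hσ : ∀ x, σ x = x ^ 3) :
    y0 h3 hs hσ * z h3 hs hσ = z h3 hs hσ * y0 h3 hs hσ := by
  apply mt_inj
  rw [mt_mul, mt_mul]
  change vm s yC * vm s zC = vm s zC * vm s yC
  rw [← vm_mul h3 hs, ← vm_mul h3 hs]
  exact congrArg _ (by decide +kernel)

theorem xy (h3 : (3 : F) = 0) {s : F} (hs : s ^ 2 = 2) (hσ : ∀ x, σ x = x ^ 3) :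
    x0 h3 hs hσ * y0 h3 hs hσ = z h3 hs hσ * (y0 h3 hs hσ * x0 h3 hs hσ) := by
  apply mt_inj
  rw [mt_mul, mt_mul, mt_mul]
  change vm s xC * vm s yC = vm s zC * (vm s yC * vm s xC)
  rw [← vm_mul h3 hs, ← vm_mul h3 hs, ← vm_mul h3 hs]
  exact congrArg _ (by decide +kernel)

noncomputable def Fp (s : F) (g : SU 3 F 3) : ℂ := ((psi s (H18.mt g) : ℤ) : ℂ)

theorem Fp_conj (s : F) (x g : SU 3 F 3) : Fp s (x * g * x⁻¹) = Fp s g := by
  unfold Fp
  rw [mt_mul, mt_mul, psi_conj s (H18.mt x) (H18.mt x⁻¹) (H18.mt g)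
    (by rw [← mt_mul, mul_inv_cancel, mt_one]) (by rw [← mt_mul, inv_mul_cancel, mt_one])]

theorem Fp_sum [Fintype F] (hchk : (N1.all fun a => N1.all fun b => chk1 a b) = true)
    (hF : Fintype.card F = 9) (h3 : (3 : F) = 0) {s : F} (hs : s ^ 2 = 2)
    (hσ : ∀ x, σ x = x ^ 3) (hσ2 : ∀ a, σ (σ a) = a) (g : SU 3 F 3) :
    Fp s g + Fp s (z h3 hs hσ * g) + Fp s ((z h3 hs hσ)⁻¹ * g) = 0 := by
  obtain ⟨a, b, ha, hb, haN, hbN, hab, hg⟩ := exists_code hF h3 hs hσ hσ2 g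
  have h1 := List.all_eq_true.1 (List.all_eq_true.1 hchk a haN) b hbN
  unfold chk1 at h1
  rw [Bool.or_eq_true] at h1
  have h2 := of_decide_eq_true (h1.resolve_left (by simp [hab]))
  have hr := colsC_red a b ha hb
  unfold Fp
  rw [z_inv, mt_mul, mt_mul, mt_mul, hg]
  change ((psi s (vm s (colsC a b (cjv (crC a b)))) : ℤ) : ℂ) +
    ((psi s (vm s zC * vm s (colsC a b (cjv (crC a b)))) : ℤ) : ℂ) +
    ((psi s (vm s zC * vm s zC * vm s (colsC a b (cjv (crC a b)))) : ℤ) : ℂ) = 0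
  rw [← vm_mul h3 hs, ← vm_mul h3 hs, ← vm_mul h3 hs, psi_vm h3 hs _ hr, psi_vm h3 hs _ (red_mm _ _),
    psi_vm h3 hs _ (red_mm _ _)]
  have h5 : ((psiC (colsC a b (cjv (crC a b))) + psiC (mmC zC (colsC a b (cjv (crC a b)))) +
    psiC (mmC z2C (colsC a b (cjv (crC a b)))) : ℤ) : ℂ) = 0 := by rw [h2]; norm_num
  push_cast at h5
  exact h5

theorem eig_p [Fintype F] [Fintype (SU 3 F 3)] (hchk : (N1.all fun a => N1.all fun b => chk1 a b) = true)
    (hF : Fintype.card F = 9) (h3 : (3 : F) = 0) {s : F} (hs : s ^ 2 = 2)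
    (hσ : ∀ x, σ x = x ^ 3) (hσ2 : ∀ a, σ (σ a) = a) : Eig (Fp s) (z h3 hs hσ) (-1 / 2) := by
  have h := eig_fam (G := SU 3 F 3) (ι := Bool) (fun i => if i then 1 else r0 h3 hs hσ) (Fp s) (z h3 hs hσ) (-1)
    (by norm_num) ?_
  · simpa using h
  intro x g
  rw [Fintype.sum_bool]
  simp only [if_true, Bool.false_eq_true, if_false, one_mul, inv_one, mul_one]
  rw [r_conj]
  have e : ∀ w : SU 3 F 3, Fp s (x * w * x⁻¹ * g) = Fp s (w * (x⁻¹ * g * x)) := by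
    intro w
    rw [← Fp_conj s x⁻¹ (x * w * x⁻¹ * g)]
    have e2 : x⁻¹ * (x * w * x⁻¹ * g) * x⁻¹⁻¹ = w * (x⁻¹ * g * x) := by group
    rw [e2]
  rw [e, e]
  have h6 := Fp_sum hchk hF h3 hs hσ hσ2 (x⁻¹ * g * x)
  have h7 : Fp s (x⁻¹ * g * x) = Fp s g := by
    have := Fp_conj s x⁻¹ g
    rwa [inv_inv] at this
  rw [← h7]
  linear_combination h6

end Cfsg.Agent.H29.PsuThree
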