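import Cfsg.Agent.H29.ClassEig2
import Cfsg.Agent.H29.PrimeDeg

/-! # A solvable group of order 6048 with an irreducible degree divisible by 42 -/

set_option autoImplicit false
set_option linter.all false

namespace Cfsg.Agent.H29.Sol6048

open Cfsg Cfsg.Agent.H29.ClassEig

/-- upper triangular 3 × 3 matrices over F₃ with middle entry 1 -/
@[ext] structure B where
  a : (ZMod 3)ˣ
  b : (ZMod 3)ˣ
  x : ZMod 3
  y : ZMod 3
  w : ZMod 3
deriving DecidableEq

namespace B

def eqv : B ≃ (ZMod 3)ˣ × (ZMod 3)ˣ × ZMod 3 × ZMod 3 × ZMod 3 where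
  toFun g := (g.a, g.b, g.x, g.y, g.w)
  invFun g := ⟨g.1, g.2.1, g.2.2.1, g.2.2.2.1, g.2.2.2.2⟩
  left_inv g := rfl
  right_inv g := rfl

instance : Fintype B := Fintype.ofEquiv _ eqv.symm

instance : Mul B := ⟨fun g h => ⟨g.a * h.a, g.b * h.b, g.a * h.x + g.x, h.y + g.y * h.b,
  g.a * h.w + g.x * h.y + g.w * h.b⟩⟩
instance : One B := ⟨⟨1, 1, 0, 0, 0⟩⟩
instance : Inv B := ⟨fun g => ⟨g.a⁻¹, g.b⁻¹, -(g.a⁻¹ : (ZMod 3)ˣ) * g.x, -(g.y * (g.b⁻¹ : (ZMod 3)ˣ)),
  (g.a⁻¹ : (ZMod 3)ˣ) * (g.b⁻¹ : (ZMod 3)ˣ) * (g.x * g.y - g.w)⟩⟩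

theorem mul_def (g h : B) : g * h = ⟨g.a * h.a, g.b * h.b, g.a * h.x + g.x, h.y + g.y * h.b,
  g.a * h.w + g.x * h.y + g.w * h.b⟩ := rfl
theorem one_def : (1 : B) = ⟨1, 1, 0, 0, 0⟩ := rfl
theorem inv_def (g : B) : g⁻¹ = ⟨g.a⁻¹, g.b⁻¹, -(g.a⁻¹ : (ZMod 3)ˣ) * g.x, -(g.y * (g.b⁻¹ : (ZMod 3)ˣ)),
  (g.a⁻¹ : (ZMod 3)ˣ) * (g.b⁻¹ : (ZMod 3)ˣ) * (g.x * g.y - g.w)⟩ := rfl

instance : Group B := Group.ofLeftAxioms
  (by
    intro g h k
    simp only [mul_def]
    ext
    · simp [mul_assoc]
    · simp [mul_assoc]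
    · push_cast; ring
    · push_cast; ring
    · push_cast; ring)
  (by
    intro g
    simp only [mul_def, one_def]
    ext <;> simp)
  (by
    intro g
    have h1 : ((g.b⁻¹ : (ZMod 3)ˣ) : ZMod 3) * g.b = 1 := Units.inv_mul _
    simp only [mul_def, one_def, inv_def]
    ext
    · simp
    · simp
    · simp only
      ring
    · simp only
      linear_combination (-g.y) * h1
    · simp only
      linear_combination ((g.a⁻¹ : (ZMod 3)ˣ) : ZMod 3) * (g.x * g.y - g.w) * h1)

theorem card : Nat.card B = 108 := by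
  rw [Nat.card_congr eqv]
  simp only [Nat.card_prod, Nat.card_zmod]
  rw [Nat.card_eq_fintype_card, ZMod.card_units_eq_totient]
  rfl

/-- the central element of the Heisenberg part -/
def z : B := ⟨1, 1, 0, 0, 1⟩
def r : B := ⟨-1, 1, 0, 0, 0⟩
def ex : B := ⟨1, 1, 1, 0, 0⟩
def ey : B := ⟨1, 1, 0, 1, 0⟩

def f (g : B) : ℤ := if g = 1 then 2 else if g = z ∨ g = z⁻¹ then -1 else 0

theorem conj : ∀ g : B, (g * z * g⁻¹ = z ∧ g * z⁻¹ * g⁻¹ = z⁻¹) ∨ (g * z * g⁻¹ = z⁻¹ ∧ g * z⁻¹ * g⁻¹ = z) := by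
  decide +kernel

theorem fz : ∀ g : B, f (z * g) + f (z⁻¹ * g) = -f g := by
  decide +kernel

theorem rz : r * z * r⁻¹ = z⁻¹ := by decide +kernel
theorem z3 : z ^ 3 = 1 := by decide +kernel
theorem exy : ex * ey = z * (ey * ex) := by decide +kernel
theorem exz : ex * z = z * ex := by decide +kernel
theorem eyz : ey * z = z * ey := by decide +kernel

end B

abbrev K : Type := GaloisField 2 3

noncomputable instance : Fintype K := Fintype.ofFinite K

theorem card_K : Nat.card K = 8 := by
  rw [GaloisField.card 2 3 (by norm_num)]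
  norm_num

/-- scalar multiplication as automorphisms -/
noncomputable def φ : Kˣ →* MulAut (Multiplicative K) where
  toFun u := AddEquiv.toMultiplicative (DistribMulAction.toAddEquiv K u)
  map_one' := by
    ext x
    change Multiplicative.ofAdd ((1 : Kˣ) • Multiplicative.toAdd x) = x
    rw [one_smul]; rfl
  map_mul' u v := by
    ext x
    change Multiplicative.ofAdd ((u * v) • Multiplicative.toAdd x) = Multiplicative.ofAdd (u • (v • Multiplicative.toAdd x))
    rw [mul_smul]

abbrev A : Type := Multiplicative K ⋊[φ] Kˣ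

theorem card_A : Nat.card A = 56 := by
  rw [SemidirectProduct.card]
  rw [Nat.card_congr (Multiplicative.toAdd : Multiplicative K ≃ K), card_K, Nat.card_units, card_K]

instance : Finite A := Nat.finite_of_card_ne_zero (by rw [card_A]; norm_num)

noncomputable instance : Fintype A := Fintype.ofFinite A

theorem φ_apply (u : Kˣ) (x : Multiplicative K) : φ u x = Multiplicative.ofAdd ((u : K) * Multiplicative.toAdd x) := rfl

theorem conjA (x : A) (u : Kˣ) :
    x * (SemidirectProduct.inr u * SemidirectProduct.inl (Multiplicative.ofAdd (1 : K)) * (SemidirectProduct.inr u)⁻¹) * x⁻¹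
      = SemidirectProduct.inl (Multiplicative.ofAdd ((x.right * u : Kˣ) : K)) := by
  have h1 : SemidirectProduct.inr u * SemidirectProduct.inl (Multiplicative.ofAdd (1 : K)) * (SemidirectProduct.inr u)⁻¹
      = (SemidirectProduct.inl (φ u (Multiplicative.ofAdd (1 : K))) : A) := by
    rw [SemidirectProduct.inl_aut, map_inv]
  rw [h1]
  have h2 : x = SemidirectProduct.inl x.left * SemidirectProduct.inr x.right :=
    (SemidirectProduct.inl_left_mul_inr_right x).symm
  have h3 : SemidirectProduct.inr x.right * SemidirectProduct.inl (φ u (Multiplicative.ofAdd (1 : K))) * (SemidirectProduct.inr x.right)⁻¹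
      = (SemidirectProduct.inl (φ x.right (φ u (Multiplicative.ofAdd (1 : K)))) : A) := by
    rw [SemidirectProduct.inl_aut x.right (φ u (Multiplicative.ofAdd (1 : K))), map_inv]
  calc x * SemidirectProduct.inl (φ u (Multiplicative.ofAdd (1 : K))) * x⁻¹
      = SemidirectProduct.inl x.left * (SemidirectProduct.inr x.right * SemidirectProduct.inl (φ u (Multiplicative.ofAdd (1 : K))) * (SemidirectProduct.inr x.right)⁻¹)
        * (SemidirectProduct.inl x.left)⁻¹ := by
        conv_lhs => rw [h2]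
        group
    _ = _ := by
        rw [h3, ← map_mul, ← map_inv, ← map_mul, mul_comm x.left, mul_inv_cancel_right]
        congr 1
        rw [φ_apply, φ_apply]
        change Multiplicative.ofAdd ((x.right : K) * ((u : K) * 1)) = _
        rw [mul_one, Units.val_mul]

open Classical in
noncomputable def fA (g : A) : ℤ := if g.right = 1 then (if Multiplicative.toAdd g.left = 0 then 7 else -1) else 0

open Classical in
theorem sumA (x g : A) : ∑ u : Kˣ, fA (x * (SemidirectProduct.inr u *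
    SemidirectProduct.inl (Multiplicative.ofAdd (1 : K)) * (SemidirectProduct.inr u)⁻¹) * x⁻¹ * g) = -fA g := by
  have e1 : ∑ u : Kˣ, fA (x * (SemidirectProduct.inr u *
    SemidirectProduct.inl (Multiplicative.ofAdd (1 : K)) * (SemidirectProduct.inr u)⁻¹) * x⁻¹ * g) =
      ∑ v : Kˣ, fA (SemidirectProduct.inl (Multiplicative.ofAdd (v : K)) * g) := by
    rw [← Equiv.sum_comp (Equiv.mulLeft x.right) (fun v : Kˣ => fA (SemidirectProduct.inl (Multiplicative.ofAdd (v : K)) * g))]
    exact Finset.sum_congr rfl fun u _ => by rw [conjA]; rfl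
  rw [e1]
  by_cases hg : g.right = 1
  · have h1 : ∀ w : K, fA (SemidirectProduct.inl (Multiplicative.ofAdd w) * g) =
        if w + Multiplicative.toAdd g.left = 0 then 7 else -1 := by
      intro w
      have hr : (SemidirectProduct.inl (Multiplicative.ofAdd w) * g : A).right = 1 := by simp [hg]
      have hl : Multiplicative.toAdd (SemidirectProduct.inl (Multiplicative.ofAdd w) * g : A).left = w + Multiplicative.toAdd g.left := by
        simp
      unfold fA
      rw [if_pos hr, hl]
    have h2 : ∑ w : K, fA (SemidirectProduct.inl (Multiplicative.ofAdd w) * g) = 0 := by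
      simp only [h1]
      rw [← Equiv.sum_comp (Equiv.subRight (Multiplicative.toAdd g.left))]
      simp only [Equiv.subRight_apply, sub_add_cancel]
      have h3 : ∀ w : K, (if w = 0 then (7 : ℤ) else -1) = (if w = 0 then 8 else 0) - 1 := by
        intro w; split_ifs <;> norm_num
      simp only [h3]
      rw [Finset.sum_sub_distrib]
      simp only [Finset.sum_ite_eq', Finset.mem_univ, if_true, Finset.sum_const, Finset.card_univ]
      rw [← Nat.card_eq_fintype_card, card_K]
      norm_num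
    have h4 : ∑ w : K, fA (SemidirectProduct.inl (Multiplicative.ofAdd w) * g) =
        fA g + ∑ v : Kˣ, fA (SemidirectProduct.inl (Multiplicative.ofAdd (v : K)) * g) := by
      rw [← Finset.add_sum_erase Finset.univ _ (Finset.mem_univ (0 : K))]
      congr 1
      · congr 1
        change SemidirectProduct.inl (1 : Multiplicative K) * g = g
        rw [map_one, one_mul]
      · symm
        refine Finset.sum_bij (fun v _ => (v : K)) (fun v _ => by simp) (fun v _ w _ h => Units.ext h)
          (fun w hw => ⟨Units.mk0 w (by simpa using hw), Finset.mem_univ _, rfl⟩) (fun v _ => rfl)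
    rw [h4] at h2
    linarith
  · have h1 : ∀ w : K, fA (SemidirectProduct.inl (Multiplicative.ofAdd w) * g) = 0 := by
      intro w
      unfold fA
      rw [if_neg]
      simpa using hg
    simp only [h1, Finset.sum_const_zero]
    unfold fA
    rw [if_neg hg]
    rfl

/-- the group -/
abbrev H : Type := A × B

theorem card_H : Nat.card H = 6048 := by
  rw [Nat.card_prod, card_A, B.card]

theorem solv : Group.IsSolvable H := by
  haveI : Group.IsSolvable A := PrimeDeg.solvable_of_dvd (p := 2) (q := 7) (a := 3) (b := 1) (by norm_num) (by norm_num)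
    (by rw [card_A]; norm_num)
  haveI : Group.IsSolvable B := PrimeDeg.solvable_of_dvd (p := 2) (q := 3) (a := 2) (b := 3) (by norm_num) (by norm_num)
    (by rw [B.card]; norm_num)
  infer_instance

noncomputable def eA : A := SemidirectProduct.inl (Multiplicative.ofAdd (1 : K))

noncomputable def F (g : H) : ℂ := ((fA g.1 * B.f g.2 : ℤ) : ℂ)

theorem eig1 : Eig F ((1 : A), B.z) (-1 / 2) := by
  have h := eig_fam (G := H) (ι := Bool) (fun i => if i then (1, 1) else (1, B.r)) F ((1 : A), B.z) (-1)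
    (by norm_num) ?_
  · simpa using h
  intro x g
  have hA : ∀ w : B, x * ((1 : A), w) * x⁻¹ * g = (g.1, x.2 * w * x.2⁻¹ * g.2) := fun w =>
    Prod.ext (by simp) rfl
  have h3 : (((1 : A), (1 : B)) : H) * ((1 : A), B.z) * ((1 : A), (1 : B))⁻¹ = ((1 : A), B.z) := by
    ext : 1 <;> simp
  have h4 : (((1 : A), B.r) : H) * ((1 : A), B.z) * ((1 : A), B.r)⁻¹ = ((1 : A), B.z⁻¹) :=
    Prod.ext (by simp) B.rz
  have h1 := B.conj x.2
  have h2 := B.fz g.2
  rw [Fintype.sum_bool]
  simp only [if_true, Bool.false_eq_true, if_false]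
  rw [h3, h4, hA, hA]
  have h5 : B.f (x.2 * B.z * x.2⁻¹ * g.2) + B.f (x.2 * B.z⁻¹ * x.2⁻¹ * g.2) = - B.f g.2 := by
    rcases h1 with ⟨e1, e2⟩ | ⟨e1, e2⟩
    · rw [e1, e2]; exact h2
    · rw [e1, e2, add_comm]; exact h2
  simp only [F]
  rw [← Int.cast_add, ← mul_add, h5]
  push_cast
  ring

theorem eig2 : Eig F (eA, (1 : B)) (-1 / 7) := by
  classical
  have h := eig_fam (G := H) (ι := Kˣ) (fun i => (SemidirectProduct.inr i, 1)) F (eA, (1 : B)) (-1)
    (by rw [← Nat.card_eq_fintype_card, Nat.card_units, card_K]; norm_num) ?_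
  · rw [← Nat.card_eq_fintype_card, Nat.card_units, card_K] at h
    simpa using h
  intro x g
  have h1 := sumA x.1 g.1
  have h2 : ∀ i : Kˣ, x * (((SemidirectProduct.inr i, 1) : H) * (eA, (1 : B)) * ((SemidirectProduct.inr i, 1) : H)⁻¹) * x⁻¹ * g =
      (x.1 * (SemidirectProduct.inr i * SemidirectProduct.inl (Multiplicative.ofAdd (1 : K)) * (SemidirectProduct.inr i)⁻¹) * x.1⁻¹ * g.1, g.2) :=
    fun i => Prod.ext rfl (by simp)
  simp only [h2, F]
  rw [← Int.cast_sum, ← Finset.sum_mul, h1]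
  push_cast
  ring

theorem exists_42 : ∃ d ∈ charDegrees H, 42 ∣ d := by
  have hF : F (1 : H) ≠ 0 := by
    have h1 : fA 1 = 7 := by simp [fA]
    have h2 : B.f 1 = 2 := by simp [B.f]
    simp only [F, Prod.fst_one, Prod.snd_one, h1, h2]
    norm_num
  obtain ⟨χ, hχ⟩ := exists_chi F 1 hF
  have e1 := hχ _ _ eig1
  have e2 := hχ _ _ eig2
  obtain ⟨b, hb⟩ := nine (χ : H → ℂ) χ.2 (z := ((1 : A), B.z)) (x := ((1 : A), B.ex)) (y := ((1 : A), B.ey))
    (Prod.ext (by simp) B.z3)
    (isConj_iff.mpr ⟨((1 : A), B.r), Prod.ext (by simp) B.rz⟩)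
    (Prod.ext (by simp) B.exy) (Prod.ext (by simp) B.exz) (Prod.ext (by simp) B.eyz)
  obtain ⟨m, hm⟩ := int_val (χ : H → ℂ) χ.2 (eA, (1 : B)) (-1 / 7) (by rw [e2]; push_cast; ring)
  have hd := H27.charDegree_cast (H27.isIrr_isCharacter χ.2)
  refine ⟨charDegree (χ : H → ℂ), ⟨χ, rfl⟩, ?_⟩
  rw [e1, ← hd] at hb
  have h6 : (charDegree (χ : H → ℂ) : ℂ) = ((6 * b : ℕ) : ℂ) := by
    push_cast
    linear_combination (-2 / 3) * hb
  have h6' : charDegree (χ : H → ℂ) = 6 * b := by exact_mod_cast h6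
  have h7 : (charDegree (χ : H → ℂ) : ℚ) = ((-7 * m : ℤ) : ℚ) := by
    push_cast
    linear_combination 7 * hm
  have h7' : (charDegree (χ : H → ℂ) : ℤ) = -7 * m := by exact_mod_cast h7
  omega

end Cfsg.Agent.H29.Sol6048
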