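import Mathlib

/-!
General counting lemmas for actions of `p`-groups and for the action on Sylow subgroups.
-/
set_option autoImplicit false

namespace Cfsg.Agent.H29
open scoped Pointwise

section act
variable {G α : Type*} [Group G] [MulAction G α]

/-- the action of a subgroup on a stable set -/
@[reducible] def stabAct (H : Subgroup G) (B : Set α) (hB : ∀ h ∈ H, ∀ x ∈ B, h • x ∈ B) : MulAction H B where
  smul h x := ⟨(h : G) • (x : α), hB h h.2 x x.2⟩
  one_smul x := Subtype.ext (one_smul G (x : α))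
  mul_smul g h x := Subtype.ext (mul_smul (g : G) (h : G) (x : α))

theorem ncard_mod_fixed {p : ℕ} [Fact p.Prime] {H : Subgroup G} (hH : IsPGroup p H) [Finite H] [Finite α] (B : Set α)
    (hB : ∀ h ∈ H, ∀ x ∈ B, h • x ∈ B) :
    B.ncard ≡ {x | x ∈ B ∧ ∀ h ∈ H, h • x = x}.ncard [MOD p] := by
  let _ := stabAct H B hB
  have h := hH.card_modEq_card_fixedPoints B
  rw [← Nat.card_coe_set_eq, ← Nat.card_coe_set_eq]
  refine h.trans ?_
  have e : Nat.card (MulAction.fixedPoints H B) = Nat.card {x | x ∈ B ∧ ∀ h ∈ H, h • x = x} := by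
    refine Nat.card_congr
      { toFun := fun x => ⟨(x : B), (x : B).2, fun h hh => congrArg Subtype.val (x.2 ⟨h, hh⟩)⟩
        invFun := fun x => ⟨⟨x, x.2.1⟩, fun h => Subtype.ext (x.2.2 h h.2)⟩
        left_inv := fun x => rfl
        right_inv := fun x => rfl }
  rw [e]

theorem dvd_of_orbits' {X : Type*} [MulAction G X] [Finite X] {m : ℕ}
    (h : ∀ x : X, m ∣ Nat.card (MulAction.orbit G x)) : m ∣ Nat.card X := by
  classical
  have e := Nat.card_congr (MulAction.selfEquivSigmaOrbits G X)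
  have := Fintype.ofFinite (Quotient (MulAction.orbitRel G X))
  have : ∀ ω : Quotient (MulAction.orbitRel G X), Finite (MulAction.orbit G (Quotient.out ω)) := fun ω => inferInstance
  rw [e, Nat.card_sigma]
  exact Finset.dvd_sum fun ω _ => h _

theorem dvd_of_orbits {H : Subgroup G} [Finite α] (B : Set α) {m : ℕ}
    (hB : ∀ h ∈ H, ∀ x ∈ B, h • x ∈ B) (h : ∀ x ∈ B, m ∣ Nat.card (MulAction.orbit H x)) : m ∣ B.ncard := by
  let _ := stabAct H B hB
  rw [← Nat.card_coe_set_eq]
  apply dvd_of_orbits' (G := H)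
  intro x
  have e : Nat.card (MulAction.orbit H x) = Nat.card (MulAction.orbit H (x : α)) := by
    refine Nat.card_congr (Equiv.ofBijective (fun y => ⟨(y : B), ?_⟩) ⟨?_, ?_⟩)
    · obtain ⟨g, hg⟩ := y.2
      exact ⟨g, congrArg Subtype.val hg⟩
    · intro y z hyz
      exact Subtype.ext (Subtype.ext (congrArg (fun z : MulAction.orbit H (x : α) => (z : α)) hyz))
    · rintro ⟨y, g, hg⟩
      refine ⟨⟨g • x, ⟨g, rfl⟩⟩, Subtype.ext hg⟩
  rw [e]
  exact h x x.2

end act

section syl
variable {G : Type*} [Group G] [Finite G] {p : ℕ} [hp : Fact p.Prime]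

theorem mem_smul_syl {x y : G} {R : Sylow p G} : y ∈ (x • R : Sylow p G) ↔ x⁻¹ * y * x ∈ R := by
  show y ∈ ((x • R : Sylow p G) : Subgroup G) ↔ _
  rw [Sylow.coe_subgroup_smul, Subgroup.mem_pointwise_smul_iff_inv_smul_mem]
  simp only [MulAut.smul_def, MulAut.conj_inv_apply]
  exact Iff.rfl

theorem pfix {H : Subgroup G} (hH : IsPGroup p H) {Q : Sylow p G} :
    (∀ h ∈ H, h • Q = Q) ↔ H ≤ (Q : Subgroup G) := by
  rw [← hH.sylow_mem_fixedPoints_iff]
  constructor
  · intro h x
    exact h x x.2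
  · intro h x hx
    exact h ⟨x, hx⟩

theorem syl_le_iff {P Q : Sylow p G} : (P : Subgroup G) ≤ Q ↔ P = Q := by
  constructor
  · intro h
    apply Sylow.ext
    refine SetLike.coe_injective (Set.eq_of_subset_of_ncard_le h ?_)
    rw [← Nat.card_coe_set_eq, ← Nat.card_coe_set_eq]
    have h1 := P.card_eq_multiplicity
    have h2 := Q.card_eq_multiplicity
    exact le_of_eq (h2.trans h1.symm)
  · rintro rfl; exact le_rfl

theorem syl_card_eq (P Q : Sylow p G) : Nat.card P = Nat.card Q := by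
  rw [P.card_eq_multiplicity, Q.card_eq_multiplicity]

/-- a set of Sylow subgroups stable under a Sylow subgroup -/
theorem syl_mod {P : Sylow p G} (B : Set (Sylow p G)) (hB : ∀ h ∈ P, ∀ x ∈ B, h • x ∈ B) :
    (P ∈ B → B.ncard ≡ 1 [MOD p]) ∧ (P ∉ B → B.ncard ≡ 0 [MOD p]) := by
  have h := ncard_mod_fixed (H := (P : Subgroup G)) P.2 B hB
  constructor
  · intro hP
    have e : {x : Sylow p G | x ∈ B ∧ ∀ h ∈ (P : Subgroup G), h • x = x} = {P} := by
      ext x
      rw [Set.mem_ofPred_eq, pfix P.2, syl_le_iff, Set.mem_singleton_iff]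
      constructor
      · exact fun h => h.2.symm
      · rintro rfl; exact ⟨hP, rfl⟩
    rwa [e, Set.ncard_singleton] at h
  · intro hP
    have e : {x : Sylow p G | x ∈ B ∧ ∀ h ∈ (P : Subgroup G), h • x = x} = ∅ := by
      ext x
      rw [Set.mem_ofPred_eq, pfix P.2, syl_le_iff, Set.mem_empty_iff_false, iff_false]
      rintro ⟨h1, rfl⟩
      exact hP h1
    rwa [e, Set.ncard_empty] at h

end syl

end Cfsg.Agent.H29
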