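import Cfsg.Agent.H29.SylA

/-!
Two Sylow subgroups whose intersection has index `p`.
-/
set_option autoImplicit false

namespace Cfsg.Agent.H29
open scoped Pointwise

variable {G : Type*} [Group G] [Finite G] {p : ℕ} [hp : Fact p.Prime]

/-- the intersection has index `p` -/
def adj (P Q : Sylow p G) : Prop := P ≠ Q ∧ Nat.card ((P : Subgroup G) ⊓ Q : Subgroup G) * p = Nat.card P

theorem adj_symm {P Q : Sylow p G} (h : adj P Q) : adj Q P :=
  ⟨h.1.symm, by rw [inf_comm, h.2, syl_card_eq]⟩

theorem index_inf (P : Sylow p G) (D : Subgroup G) (hD : D ≤ P) : Nat.card D * (D.subgroupOf P).index = Nat.card P := by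
  have h1 := (D.subgroupOf (P : Subgroup G)).card_mul_index
  rw [Nat.card_congr (Subgroup.subgroupOfEquivOfLe hD).toEquiv] at h1
  exact h1

theorem adj_norm {P Q : Sylow p G} (h : adj P Q) {x d : G} (hx : x ∈ P)
    (hd : d ∈ ((P : Subgroup G) ⊓ Q : Subgroup G)) : x * d * x⁻¹ ∈ ((P : Subgroup G) ⊓ Q : Subgroup G) := by
  have h1 := index_inf P _ (inf_le_left : (P : Subgroup G) ⊓ Q ≤ P)
  rw [← h.2] at h1
  have h2 : (((P : Subgroup G) ⊓ Q).subgroupOf P).index = p := Nat.eq_of_mul_eq_mul_left Nat.card_pos h1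
  obtain ⟨n, hn⟩ := IsPGroup.iff_card.1 P.2
  have hn0 : n ≠ 0 := by
    rintro rfl
    rw [pow_zero] at hn
    have h3 := h.2
    rw [hn] at h3
    have := Nat.dvd_one.1 (Dvd.intro_left _ h3)
    exact hp.out.one_lt.ne' this
  have h4 : (((P : Subgroup G) ⊓ Q).subgroupOf P).Normal := by
    apply Subgroup.normal_of_index_eq_minFac_card
    rw [h2, hn, hp.out.pow_minFac hn0]
  have h5 := h4.conj_mem ⟨d, hd.1⟩ (by rw [Subgroup.mem_subgroupOf]; exact hd) ⟨x, hx⟩
  rw [Subgroup.mem_subgroupOf] at h5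
  exact h5

theorem inf_card_le {R S : Sylow p G} (h : R ≠ S) :
    Nat.card ((R : Subgroup G) ⊓ S : Subgroup G) * p ≤ Nat.card R := by
  obtain ⟨n, hn⟩ := IsPGroup.iff_card.1 R.2
  obtain ⟨m, hm⟩ := IsPGroup.iff_card.1 (R.2.to_le (inf_le_left : (R : Subgroup G) ⊓ S ≤ R))
  have h1 := index_inf R _ (inf_le_left : (R : Subgroup G) ⊓ S ≤ R)
  rw [hn, hm] at h1
  have h2 : m ≤ n := (Nat.pow_dvd_pow_iff_le_right hp.out.one_lt).1 ⟨_, h1.symm⟩
  have h3 : m ≠ n := by
    rintro rfl
    apply h
    rw [← syl_le_iff]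
    have : (R : Subgroup G) ⊓ S = R := Subgroup.eq_of_le_of_card_ge inf_le_left (by rw [hm]; exact hn.le)
    rw [← this]
    exact inf_le_right
  rw [hm, show Nat.card R = p ^ n from hn, ← pow_succ]
  exact Nat.pow_le_pow_right hp.out.pos (by omega)

theorem adj_of_le {P Q R S : Sylow p G} (h : adj P Q) (hRS : R ≠ S) (h1 : (P : Subgroup G) ⊓ Q ≤ R)
    (h2 : (P : Subgroup G) ⊓ Q ≤ S) : (R : Subgroup G) ⊓ S = (P : Subgroup G) ⊓ Q ∧ adj R S := by
  have h3 : (P : Subgroup G) ⊓ Q ≤ (R : Subgroup G) ⊓ S := le_inf h1 h2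
  have h4 := inf_card_le hRS
  rw [syl_card_eq R P, ← h.2] at h4
  have h5 := Nat.le_of_mul_le_mul_right h4 hp.out.pos
  have h6 : (P : Subgroup G) ⊓ Q = (R : Subgroup G) ⊓ S := Subgroup.eq_of_le_of_card_ge h3 h5
  refine ⟨h6.symm, hRS, ?_⟩
  rw [← h6, h.2, syl_card_eq]

theorem le_smul_of_adj {P T : Sylow p G} (h : adj P T) {d : G} (hd : d ∈ P) :
    (P : Subgroup G) ⊓ T ≤ (d • T : Sylow p G) := by
  intro y hy
  refine mem_smul_syl.2 ?_
  have := adj_norm h (x := d⁻¹) (inv_mem hd) hy
  rw [inv_inv] at this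
  exact this.2

/-- a triangle lies on a line -/
theorem adj_tri {P Q T : Sylow p G} (h1 : adj P Q) (h2 : adj P T) (h3 : adj Q T) : (P : Subgroup G) ⊓ Q ≤ T := by
  by_contra hT
  apply hT
  rw [← pfix (P.2.to_le inf_le_left)]
  intro d hd
  by_contra hne
  have e1 := le_smul_of_adj h2 hd.1
  have e2 := le_smul_of_adj h3 hd.2
  have a1 := (adj_of_le h2 (Ne.symm hne) inf_le_right e1).1
  have a2 := (adj_of_le h3 (Ne.symm hne) inf_le_right e2).1
  apply hT
  have e : (P : Subgroup G) ⊓ T = (Q : Subgroup G) ⊓ T := a1.symm.trans a2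
  have a3 := (adj_of_le h2 h1.1 inf_le_left (by rw [e]; exact inf_le_left)).1
  rw [a3]
  exact inf_le_right

theorem smul_inf_le {P Q R : Sylow p G} (g : G) :
    ((g • P : Sylow p G) : Subgroup G) ⊓ (g • Q : Sylow p G) ≤ (g • R : Sylow p G) ↔ (P : Subgroup G) ⊓ Q ≤ R := by
  rw [Sylow.coe_subgroup_smul, Sylow.coe_subgroup_smul, Sylow.coe_subgroup_smul, ← Subgroup.smul_inf,
    Subgroup.pointwise_smul_le_pointwise_smul_iff]

theorem adj_smul {P Q : Sylow p G} (g : G) (h : adj P Q) : adj (g • P) (g • Q) := by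
  refine ⟨fun e => h.1 (smul_left_cancel g e), ?_⟩
  rw [syl_card_eq (g • P) P, ← h.2, Sylow.coe_subgroup_smul, Sylow.coe_subgroup_smul, ← Subgroup.smul_inf]
  congr 1
  exact (Nat.card_congr (Subgroup.equivSMul _ _).toEquiv).symm

theorem nb_card (P R : Sylow p G) : {S : Sylow p G | adj R S}.ncard = {S : Sylow p G | adj P S}.ncard := by
  obtain ⟨g, rfl⟩ := MulAction.exists_smul_eq G P R
  rw [← Set.ncard_image_of_injective {S : Sylow p G | adj P S} (MulAction.injective g)]
  congr 1
  ext S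
  constructor
  · intro h
    refine ⟨g⁻¹ • S, ?_, smul_inv_smul g S⟩
    have := adj_smul g⁻¹ h
    rwa [inv_smul_smul] at this
  · rintro ⟨T, hT, rfl⟩
    exact adj_smul g hT

/-- lines through different points of a line do not meet outside it -/
theorem line_count {P Q : Sylow p G} (h : adj P Q) :
    {R : Sylow p G | (P : Subgroup G) ⊓ Q ≤ R}.ncard *
      ({S : Sylow p G | adj P S}.ncard + 1 - {R : Sylow p G | (P : Subgroup G) ⊓ Q ≤ R}.ncard) +
      {R : Sylow p G | (P : Subgroup G) ⊓ Q ≤ R}.ncard ≤ Nat.card (Sylow p G) ∧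
    {R : Sylow p G | (P : Subgroup G) ⊓ Q ≤ R}.ncard ≤ {S : Sylow p G | adj P S}.ncard + 1 := by
  classical
  have := Fintype.ofFinite (Sylow p G)
  set F : Finset (Sylow p G) := Finset.univ.filter fun R => (P : Subgroup G) ⊓ Q ≤ R with hF
  let nb : Sylow p G → Finset (Sylow p G) := fun R => Finset.univ.filter fun S => adj R S
  have e1 : {R : Sylow p G | (P : Subgroup G) ⊓ Q ≤ R}.ncard = F.card := by
    rw [← Set.ncard_coe_finset, hF]
    congr 1
    ext S
    simp
  have e2 : ∀ R, (nb R).card = {S : Sylow p G | adj P S}.ncard := by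
    intro R
    rw [← nb_card P R, ← Set.ncard_coe_finset]
    congr 1
    ext S
    simp [nb]
  have hsub : ∀ R ∈ F, F.erase R ⊆ nb R := by
    intro R hR S hS
    rw [Finset.mem_erase] at hS
    rw [Finset.mem_filter]
    exact ⟨Finset.mem_univ _, (adj_of_le h hS.1.symm (Finset.mem_filter.1 hR).2 (Finset.mem_filter.1 hS.2).2).2⟩
  have hPF : P ∈ F := Finset.mem_filter.2 ⟨Finset.mem_univ _, inf_le_left⟩
  have hle : F.card ≤ {S : Sylow p G | adj P S}.ncard + 1 := by
    have := Finset.card_le_card (hsub P hPF)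
    rw [Finset.card_erase_of_mem hPF, e2] at this
    omega
  have hc : ∀ R ∈ F, (nb R \ F).card = {S : Sylow p G | adj P S}.ncard + 1 - F.card := by
    intro R hR
    have e3 : nb R \ F = nb R \ F.erase R := by
      ext S
      rw [Finset.mem_sdiff, Finset.mem_sdiff, Finset.mem_erase, not_and_or, not_not]
      constructor
      · rintro ⟨h1, h2⟩; exact ⟨h1, Or.inr h2⟩
      · rintro ⟨h1, h2⟩
        refine ⟨h1, ?_⟩
        rcases h2 with rfl | h2
        · exact absurd rfl (Finset.mem_filter.1 h1).2.1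
        · exact h2
    rw [e3, Finset.card_sdiff_of_subset (hsub R hR), Finset.card_erase_of_mem hR, e2]
    have : 0 < F.card := Finset.card_pos.2 ⟨R, hR⟩
    omega
  have hd : (F : Set (Sylow p G)).PairwiseDisjoint fun R => nb R \ F := by
    intro R hR S hS hRS
    rw [Function.onFun, Finset.disjoint_left]
    intro T hT1 hT2
    rw [Finset.mem_sdiff] at hT1 hT2
    apply hT1.2
    have hRS' := adj_of_le h hRS (Finset.mem_filter.1 hR).2 (Finset.mem_filter.1 hS).2
    refine Finset.mem_filter.2 ⟨Finset.mem_univ _, ?_⟩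
    rw [← hRS'.1]
    exact adj_tri hRS'.2 (Finset.mem_filter.1 hT1.1).2 (Finset.mem_filter.1 hT2.1).2
  have hU := Finset.card_biUnion hd
  rw [Finset.sum_congr rfl hc, Finset.sum_const, smul_eq_mul] at hU
  have hV : F.biUnion (fun R => nb R \ F) ⊆ Fᶜ := by
    intro T hT
    rw [Finset.mem_biUnion] at hT
    obtain ⟨R, -, hT⟩ := hT
    rw [Finset.mem_compl]
    exact (Finset.mem_sdiff.1 hT).2
  have hW := Finset.card_le_card hV
  rw [hU, Finset.card_compl, ← Nat.card_eq_fintype_card] at hW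
  have hX := Finset.card_le_univ F
  rw [← Nat.card_eq_fintype_card] at hX
  rw [e1]
  exact ⟨by omega, hle⟩

/-- the number of Sylow subgroups meeting `P` in index different from `p` is `0` modulo `p ^ 2` -/
theorem nonadj_count (P : Sylow p G) : p ^ 2 ∣ {S : Sylow p G | S ≠ P ∧ ¬ adj P S}.ncard := by
  have hconj : ∀ h ∈ P, h • P = P := fun h hh => (pfix P.2).2 le_rfl h hh
  apply dvd_of_orbits (H := (P : Subgroup G))
  · intro h hh S hS
    constructor
    · intro e
      apply hS.1
      have := congrArg (fun x => h⁻¹ • x) e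
      simp only [inv_smul_smul] at this
      rw [this]
      exact hconj _ (inv_mem hh)
    · intro ha
      apply hS.2
      have := adj_smul h⁻¹ ha
      rwa [inv_smul_smul, hconj _ (inv_mem hh)] at this
  · intro S hS
    have h1 := (MulAction.stabilizer (P : Subgroup G) S).card_mul_index
    rw [MulAction.index_stabilizer, ← Nat.card_coe_set_eq, mul_comm] at h1
    have h2 : Nat.card (MulAction.stabilizer (P : Subgroup G) S) = Nat.card ((P : Subgroup G) ⊓ S : Subgroup G) := by
      have e : MulAction.stabilizer (P : Subgroup G) S = ((P : Subgroup G) ⊓ S).subgroupOf P := by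
        ext x
        rw [MulAction.mem_stabilizer_iff, Subgroup.mem_subgroupOf, Subgroup.mem_inf]
        have h3 : x • S = (x : G) • S := rfl
        have h4 := (S.stabilizer_eq_normalizer)
        rw [h3, ← MulAction.mem_stabilizer_iff, h4]
        have h5 := (IsPGroup.inf_normalizer_sylow P.2 S)
        constructor
        · intro hx
          have : (x : G) ∈ (P : Subgroup G) ⊓ Subgroup.normalizer (S : Set G) := ⟨x.2, hx⟩
          rw [h5] at this
          exact this
        · intro hx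
          exact Subgroup.le_normalizer hx.2
      rw [e]
      exact Nat.card_congr (Subgroup.subgroupOfEquivOfLe inf_le_left).toEquiv
    obtain ⟨n, hn⟩ := P.2.card_orbit S
    rw [h2, hn] at h1
    rw [hn]
    apply pow_dvd_pow
    by_contra hlt
    push Not at hlt
    have h3 : n = 0 ∨ n = 1 := by omega
    rcases h3 with rfl | rfl
    · rw [pow_zero, one_mul] at h1
      have : (P : Subgroup G) ⊓ S = P := Subgroup.eq_of_le_of_card_ge inf_le_left (by rw [h1])
      apply hS.1
      rw [eq_comm, ← syl_le_iff, ← this]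
      exact inf_le_right
    · exact hS.2 ⟨hS.1.symm, by rw [← h1]; ring⟩

end Cfsg.Agent.H29
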