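import Cfsg.Agent.H29.SylB

/-!
A group with 22 Sylow 3-subgroups on which it acts faithfully has Sylow 3-subgroups of order 3.
-/
set_option autoImplicit false

namespace Cfsg.Agent.H29
open scoped Pointwise

variable {G : Type*} [Group G] [Finite G]

theorem line_stable {p : ℕ} [Fact p.Prime] {P Q : Sylow p G} (h : adj P Q) :
    ∀ x ∈ P, ∀ R ∈ {R : Sylow p G | (P : Subgroup G) ⊓ Q ≤ R}, x • R ∈ {R : Sylow p G | (P : Subgroup G) ⊓ Q ≤ R} := by
  intro x hx R hR y hy
  refine mem_smul_syl.2 ?_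
  have := adj_norm h (x := x⁻¹) (inv_mem hx) hy
  rw [inv_inv] at this
  exact hR this

theorem v_cases (hn : Nat.card (Sylow 3 G) = 22) (P : Sylow 3 G) :
    {S : Sylow 3 G | adj P S}.ncard = 21 ∨ {S : Sylow 3 G | adj P S}.ncard = 12 ∨
      {S : Sylow 3 G | adj P S}.ncard = 3 := by
  have h1 := nonadj_count P
  have h2 : (Set.univ : Set (Sylow 3 G)) = insert P ({S | adj P S} ∪ {S | S ≠ P ∧ ¬ adj P S}) := by
    ext S
    by_cases e : S = P
    · simp [e]
    · by_cases e' : adj P S <;> simp [e, e']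
  have h3 := congrArg Set.ncard h2
  rw [Set.ncard_univ, hn, Set.ncard_insert_of_notMem, Set.ncard_union_eq] at h3
  · obtain ⟨k, hk⟩ := h1
    rw [hk] at h3
    omega
  · rw [Set.disjoint_left]
    intro S h4 h5
    exact h5.2 h4
  · rintro (h4 | h4)
    · exact h4.1 rfl
    · exact h4.1 rfl

theorem line_full (hn : Nat.card (Sylow 3 G) = 22) {P Q : Sylow 3 G} (h : adj P Q) :
    {R : Sylow 3 G | (P : Subgroup G) ⊓ Q ≤ R} = {R | R = P ∨ adj P R} ∧
      {R : Sylow 3 G | R = P ∨ adj P R}.ncard = {S : Sylow 3 G | adj P S}.ncard + 1 := by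
  have h1 := line_count h
  have h2 := (syl_mod _ (line_stable h)).1 (show (P : Subgroup G) ⊓ Q ≤ P from inf_le_left)
  have h3 := v_cases hn P
  have h4 : {R : Sylow 3 G | R = P ∨ adj P R}.ncard = {S : Sylow 3 G | adj P S}.ncard + 1 := by
    rw [show {R : Sylow 3 G | R = P ∨ adj P R} = insert P {R | adj P R} from rfl, Set.ncard_insert_of_notMem]
    exact fun h => h.1 rfl
  have h5 : {R : Sylow 3 G | (P : Subgroup G) ⊓ Q ≤ R} ⊆ {R | R = P ∨ adj P R} := by
    intro R hR
    by_cases e : R = P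
    · exact Or.inl e
    · exact Or.inr (adj_of_le h (Ne.symm e) inf_le_left hR).2
  have h6 : 2 ≤ {R : Sylow 3 G | (P : Subgroup G) ⊓ Q ≤ R}.ncard := by
    rw [← Set.ncard_pair h.1]
    refine Set.ncard_le_ncard ?_ (Set.toFinite _)
    rintro R (rfl | rfl)
    · exact (show (R : Subgroup G) ⊓ Q ≤ R from inf_le_left)
    · exact (show (P : Subgroup G) ⊓ R ≤ R from inf_le_right)
  refine ⟨Set.eq_of_subset_of_ncard_le h5 ?_, h4⟩
  rw [h4]
  rw [hn] at h1
  generalize {R : Sylow 3 G | (P : Subgroup G) ⊓ Q ≤ R}.ncard = c at *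
  generalize {S : Sylow 3 G | adj P S}.ncard = v at *
  obtain ⟨h1, h7⟩ := h1
  rw [Nat.ModEq] at h2
  rcases h3 with rfl | rfl | rfl
  · by_contra hc
    have : c ≤ 21 := by omega
    interval_cases c <;> omega
  · by_contra hc
    have : c ≤ 12 := by omega
    interval_cases c <;> omega
  · omega

theorem line_block (hn : Nat.card (Sylow 3 G) = 22) (P : Sylow 3 G) :
    MulAction.IsBlock G {R : Sylow 3 G | R = P ∨ adj P R} := by
  have key : ∀ P T : Sylow 3 G, T ∈ {R : Sylow 3 G | R = P ∨ adj P R} →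
      {R : Sylow 3 G | R = P ∨ adj P R} = {R : Sylow 3 G | R = T ∨ adj T R} := by
    intro P T hT
    rcases hT with rfl | hT
    · rfl
    · rw [← (line_full hn hT).1, ← (line_full hn (adj_symm hT)).1, inf_comm]
  rw [MulAction.isBlock_iff_smul_eq_of_nonempty]
  rintro g ⟨T, hT1, hT2⟩
  have e : g • {R : Sylow 3 G | R = P ∨ adj P R} = {R : Sylow 3 G | R = g • P ∨ adj (g • P) R} := by
    ext R
    rw [Set.mem_smul_set_iff_inv_smul_mem]
    constructor
    · rintro (h | h)
      · left; rw [← h, smul_inv_smul]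
      · right
        have := adj_smul g h
        rwa [smul_inv_smul] at this
    · rintro (h | h)
      · left; rw [h, inv_smul_smul]
      · right
        have := adj_smul g⁻¹ h
        rwa [inv_smul_smul] at this
  rw [e] at hT1 ⊢
  rw [key P T hT2, key _ T hT1]

theorem card_P (hn : Nat.card (Sylow 3 G) = 22) (hf : ∀ g : G, (∀ P : Sylow 3 G, g • P = P) → g = 1)
    (P : Sylow 3 G) : Nat.card P = 3 := by
  have hv := v_cases hn P
  have hne : {S : Sylow 3 G | adj P S}.Nonempty := by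
    rw [← Set.ncard_pos]
    omega
  obtain ⟨Q, hQ⟩ := hne
  have h1 := line_full hn hQ
  have h2 := (line_block hn P).ncard_dvd_card ⟨P, Or.inl rfl⟩
  rw [h1.2, hn] at h2
  have h3 : {S : Sylow 3 G | adj P S}.ncard = 21 := by
    rcases hv with h | h | h
    · exact h
    · rw [h] at h2; norm_num at h2
    · rw [h] at h2; norm_num at h2
  have h4 : {R : Sylow 3 G | (P : Subgroup G) ⊓ Q ≤ R} = Set.univ := by
    apply Set.eq_of_subset_of_ncard_le (Set.subset_univ _)
    rw [Set.ncard_univ, hn, h1.1, h1.2, h3]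
  have h5 : (P : Subgroup G) ⊓ Q = ⊥ := by
    rw [eq_bot_iff]
    intro d hd
    rw [Subgroup.mem_bot]
    apply hf
    intro R
    have hR : R ∈ {R : Sylow 3 G | (P : Subgroup G) ⊓ Q ≤ R} := by rw [h4]; trivial
    exact (pfix (P.2.to_le inf_le_left)).2 hR d hd
  have h6 := hQ.2
  rw [h5, Subgroup.card_bot, one_mul] at h6
  exact h6.symm

/-- a nontrivial normal subgroup has order divisible by 22 -/
theorem normal_22 (hn : Nat.card (Sylow 3 G) = 22) (hf : ∀ g : G, (∀ P : Sylow 3 G, g • P = P) → g = 1)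
    (N : Subgroup G) [hN : N.Normal] (hN1 : N ≠ ⊥) : 22 ∣ Nat.card N := by
  obtain ⟨P⟩ : Nonempty (Sylow 3 G) := inferInstance
  have h1 := (MulAction.IsBlock.orbit_of_normal (N := N) P).ncard_dvd_card ⟨P, MulAction.mem_orbit_self P⟩
  have hP : ∀ x ∈ P, x • P = P := (pfix P.2).2 le_rfl
  have h2 := (syl_mod (P := P) (MulAction.orbit N P) (by
    rintro x hx _ ⟨n, rfl⟩
    refine ⟨⟨x * n * x⁻¹, hN.conj_mem _ n.2 x⟩, ?_⟩
    show (x * n * x⁻¹) • P = x • (n : G) • P
    rw [smul_smul]
    conv_rhs => rw [← inv_mul_cancel_right (x * (n : G)) x]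
    rw [mul_smul _ x, hP x hx])).1 (MulAction.mem_orbit_self P)
  rw [hn] at h1
  have h3 : (MulAction.orbit N P).ncard = 1 ∨ (MulAction.orbit N P).ncard = 22 := by
    have h4 : (MulAction.orbit N P).ncard ≤ 22 := Nat.le_of_dvd (by norm_num) h1
    generalize (MulAction.orbit N P).ncard = m at *
    rw [Nat.ModEq] at h2
    interval_cases m <;> omega
  rcases h3 with h3 | h3
  · exfalso
    apply hN1
    rw [eq_bot_iff]
    intro x hx
    rw [Subgroup.mem_bot]
    apply hf
    intro Q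
    obtain ⟨g, rfl⟩ := MulAction.exists_smul_eq G P Q
    obtain ⟨a, ha⟩ := Set.ncard_eq_one.1 h3
    have e : ∀ y ∈ N, y • P = P := by
      intro y hy
      have h4 : y • P ∈ MulAction.orbit N P := ⟨⟨y, hy⟩, rfl⟩
      have h5 : P ∈ MulAction.orbit N P := MulAction.mem_orbit_self P
      rw [ha, Set.mem_singleton_iff] at h4 h5
      rw [h4, h5]
    have h6 := e (g⁻¹ * x * g) (by
      have := hN.conj_mem x hx g⁻¹
      rwa [inv_inv] at this)
    have h7 := congrArg (fun y => g • y) h6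
    simp only [smul_smul] at h7
    rw [show g * (g⁻¹ * x * g) = x * g by group] at h7
    rw [smul_smul]
    exact h7
  · have h4 := (MulAction.stabilizer N P).card_mul_index
    rw [MulAction.index_stabilizer, h3] at h4
    exact ⟨_, by rw [← h4, mul_comm]⟩

end Cfsg.Agent.H29
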