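import Cfsg.Agent.H29.SylC

/-!
Centralizers in a group with 22 Sylow 3-subgroups.
-/
set_option autoImplicit false
set_option linter.style.haveILetI false
set_option linter.unusedSectionVars false

namespace Cfsg.Agent.H29
open scoped Pointwise

theorem NC_prime {G : Type*} [Group G] [Finite G] {H : Subgroup G} {p : ℕ} (hp : p.Prime) (hH : Nat.card H = p) :
    ∃ e : ℕ, e ∣ p - 1 ∧ Nat.card (Subgroup.centralizer (H : Set G)) * e = Nat.card (Subgroup.normalizer (H : Set G)) ∧
      ∀ g ∈ Subgroup.normalizer (H : Set G), g ^ e ∈ Subgroup.centralizer (H : Set G) := by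
  have hle : Subgroup.centralizer (H : Set G) ≤ Subgroup.normalizer (H : Set G) := Subgroup.centralizer_le_normalizer _
  haveI : Fact p.Prime := ⟨hp⟩
  haveI : IsCyclic H := isCyclic_of_prime_card hH
  have h1 := H.normalizerMonoidHom.ker.card_mul_index
  rw [Subgroup.normalizerMonoidHom_ker] at h1
  rw [Nat.card_congr (Subgroup.subgroupOfEquivOfLe hle).toEquiv] at h1
  refine ⟨_, ?_, h1, ?_⟩
  · rw [← Subgroup.normalizerMonoidHom_ker, Subgroup.index_ker]
    have h2 := Subgroup.card_subgroup_dvd_card H.normalizerMonoidHom.range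
    rw [IsCyclic.card_mulAut, hH, Nat.totient_prime hp] at h2
    exact h2
  · intro g hg
    haveI : ((Subgroup.centralizer (H : Set G)).subgroupOf (Subgroup.normalizer (H : Set G))).Normal := by
      rw [← Subgroup.normalizerMonoidHom_ker]; infer_instance
    have := Subgroup.pow_index_mem ((Subgroup.centralizer (H : Set G)).subgroupOf (Subgroup.normalizer (H : Set G))) ⟨g, hg⟩
    rw [Subgroup.mem_subgroupOf] at this
    exact this

variable {G : Type*} [Group G] [Finite G]

theorem stab_mem {p : ℕ} [Fact p.Prime] {R : Sylow p G} {g : G} : g • R = R ↔ g ∈ Subgroup.normalizer (R : Set G) := by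
  rw [← R.stabilizer_eq_normalizer, MulAction.mem_stabilizer_iff]

theorem odd_cent {R : Sylow 3 G} (hR : Nat.card R = 3) {g : G} (hg : g • R = R) (ho : orderOf g % 2 = 1) :
    g ∈ Subgroup.centralizer (R : Set G) := by
  obtain ⟨e, h1, -, h2⟩ := NC_prime (H := (R : Subgroup G)) Nat.prime_three hR
  have h3 := h2 g (stab_mem.1 hg)
  have h4 : e ∣ 2 := h1
  have h5 : g ^ 2 ∈ Subgroup.centralizer (R : Set G) := by
    obtain ⟨k, hk⟩ := h4
    rw [hk, pow_mul]
    exact Subgroup.pow_mem _ h3 k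
  obtain ⟨k, hk⟩ : ∃ k, orderOf g + 1 = 2 * k := ⟨(orderOf g + 1) / 2, by omega⟩
  have h6 : g = (g ^ 2) ^ k := by
    rw [← pow_mul, ← hk, pow_succ, pow_orderOf_eq_one, one_mul]
  rw [h6]
  exact Subgroup.pow_mem _ h5 k

theorem card_G (hn : Nat.card (Sylow 3 G) = 22) (P : Sylow 3 G) :
    Nat.card G = 22 * Nat.card (Subgroup.normalizer (P : Set G)) := by
  have h1 := P.card_eq_index_normalizer
  rw [hn] at h1
  rw [← (Subgroup.normalizer (P : Set G)).card_mul_index, ← h1, mul_comm]

theorem nine_ndvd {P : Sylow 3 G} (hP : Nat.card P = 3) : ¬ 9 ∣ Nat.card G := by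
  intro h
  have h1 := P.card_eq_multiplicity
  rw [hP] at h1
  have h2 : 2 ≤ (Nat.card G).factorization 3 := (Nat.prime_three.pow_dvd_iff_le_factorization Nat.card_pos.ne').1 (by simpa using h)
  have h3 : 3 ^ 2 ≤ 3 ^ (Nat.card G).factorization 3 := Nat.pow_le_pow_right (by norm_num) h2
  omega

theorem self_le_cent {R : Sylow 3 G} (hR : Nat.card R = 3) : (R : Subgroup G) ≤ Subgroup.centralizer (R : Set G) := by
  haveI : Fact (Nat.Prime 3) := ⟨Nat.prime_three⟩
  haveI : IsCyclic R := isCyclic_of_prime_card hR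
  intro x hx
  rw [Subgroup.mem_centralizer_iff]
  intro y hy
  have h : (⟨y, hy⟩ : R) * ⟨x, hx⟩ = ⟨x, hx⟩ * ⟨y, hy⟩ := by
    letI := IsCyclic.commGroup (α := R)
    exact mul_comm _ _
  exact congrArg Subtype.val h

/-- the fixed points of an element -/
theorem fix_mod {q p : ℕ} [Fact p.Prime] (hq : q.Prime) {g : G} (hg : orderOf g = q) (B : Set (Sylow p G))
    (hB : ∀ x ∈ B, g • x ∈ B) : B.ncard ≡ {x | x ∈ B ∧ g • x = x}.ncard [MOD q] := by
  haveI : Fact q.Prime := ⟨hq⟩
  have h0 : IsPGroup q (Subgroup.zpowers g) := IsPGroup.of_card (n := 1) (by rw [Nat.card_zpowers, hg, pow_one])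
  have h1 : ∀ h ∈ Subgroup.zpowers g, ∀ x ∈ B, h • x ∈ B := by
    intro h hh
    rw [← mem_powers_iff_mem_zpowers] at hh
    obtain ⟨k, rfl⟩ := hh
    intro x hx
    show g ^ k • x ∈ B
    induction k with
    | zero => rw [pow_zero, one_smul]; exact hx
    | succ k ih => rw [pow_succ', mul_smul]; exact hB _ ih
  have h2 := ncard_mod_fixed h0 B h1
  have e : {x : Sylow p G | x ∈ B ∧ ∀ h ∈ Subgroup.zpowers g, h • x = x} = {x | x ∈ B ∧ g • x = x} := by
    ext x
    constructor
    · rintro ⟨h3, h4⟩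
      exact ⟨h3, h4 g (Subgroup.mem_zpowers g)⟩
    · rintro ⟨h3, h4⟩
      refine ⟨h3, fun h hh => ?_⟩
      have : g ∈ MulAction.stabilizer G x := h4
      exact (Subgroup.zpowers_le.2 this) hh
  rwa [e] at h2

end Cfsg.Agent.H29
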