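import Cfsg.Agent.H29.SylD

/-!
The centralizer of a Sylow 3-subgroup acts on the seven nontrivial orbits of that subgroup.
-/
set_option autoImplicit false
set_option linter.style.haveILetI false
set_option linter.unusedSectionVars false

namespace Cfsg.Agent.H29
open scoped Pointwise

variable {G : Type*} [Group G] [Finite G]

/-- no element of order 5 centralizes a Sylow subgroup -/
theorem no_five (hn : Nat.card (Sylow 3 G) = 22) (hf : ∀ g : G, (∀ P : Sylow 3 G, g • P = P) → g = 1)
    (P : Sylow 3 G) : ¬ 5 ∣ Nat.card (Subgroup.centralizer (P : Set G)) := by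
  intro h5
  have h3 : ∀ R : Sylow 3 G, Nat.card R = 3 := card_P hn hf
  haveI : Fact (Nat.Prime 5) := ⟨by norm_num⟩
  obtain ⟨⟨d, hdC⟩, hd⟩ := exists_prime_orderOf_dvd_card' 5 h5
  rw [Subgroup.orderOf_mk] at hd
  have hd1 : d ≠ 1 := by rintro rfl; rw [orderOf_one] at hd; norm_num at hd
  have hcomm : ∀ R : Sylow 3 G, R ∈ {R : Sylow 3 G | d • R = R} → ∀ x ∈ R, x * d = d * x := by
    intro R hR x hx
    exact Subgroup.mem_centralizer_iff.1 (odd_cent (h3 R) hR (by rw [hd])) x hx
  have hPd : P ∈ {R : Sylow 3 G | d • R = R} := stab_mem.2 (Subgroup.centralizer_le_normalizer _ hdC)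
  -- the fixed points of an element of order 5 or 7
  have hfixP : ∀ (R : Sylow 3 G) (y : G), y ≠ 1 → (∀ x ∈ R, x * y = y * x) →
      {S : Sylow 3 G | y • S = S}.ncard % 3 = 1 ∧ {S : Sylow 3 G | y • S = S}.ncard < 22 := by
    intro R y hy hc
    constructor
    · refine (syl_mod {S : Sylow 3 G | y • S = S} (P := R) ?_).1 ?_
      · intro x hx S hS
        show y • x • S = x • S
        rw [smul_smul, ← hc x hx, mul_smul, show y • S = S from hS]
      · refine stab_mem.2 (Subgroup.centralizer_le_normalizer _ (Subgroup.mem_centralizer_iff.2 hc))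
    · have h1 := Set.ncard_le_card {S : Sylow 3 G | y • S = S}
      rw [hn] at h1
      refine lt_of_le_of_ne h1 fun h2 => hy (hf y fun S => ?_)
      have h4 : {S : Sylow 3 G | y • S = S} = Set.univ := by
        apply Set.eq_of_subset_of_ncard_le (Set.subset_univ _)
        rw [Set.ncard_univ, hn, h2]
      have h5 : S ∈ {S : Sylow 3 G | y • S = S} := by rw [h4]; trivial
      exact h5
  have huniv : ∀ (q : ℕ) (y : G), q.Prime → orderOf y = q → 22 ≡ {S : Sylow 3 G | y • S = S}.ncard [MOD q] := by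
    intro q y hq hy
    have := fix_mod hq hy (Set.univ : Set (Sylow 3 G)) (fun _ _ => trivial)
    rw [Set.ncard_univ, hn] at this
    have e : {x : Sylow 3 G | x ∈ Set.univ ∧ y • x = x} = {S : Sylow 3 G | y • S = S} := by
      ext x
      exact ⟨fun h => h.2, fun h => ⟨trivial, h⟩⟩
    rwa [e] at this
  have hF7 : {R : Sylow 3 G | d • R = R}.ncard = 7 := by
    have h1 := hfixP P d hd1 (hcomm P hPd)
    have h2 := huniv 5 d (by norm_num) hd
    rw [Nat.ModEq] at h2
    omega
  -- the centralizer of d is transitive on the fixed points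
  set H := Subgroup.centralizer ({d} : Set G) with hH
  have hHmem : ∀ h : G, h ∈ H ↔ h * d = d * h := by
    intro h
    rw [hH, Subgroup.mem_centralizer_singleton_iff]
  have hstab : ∀ R : Sylow 3 G, d • R = R → ∀ h ∈ H, d • (h • R) = h • R := by
    intro R hR h hh
    rw [smul_smul, ← (hHmem h).1 hh, mul_smul, hR]
  have horb : MulAction.orbit H P = {R : Sylow 3 G | d • R = R} := by
    ext R
    constructor
    · rintro ⟨h, rfl⟩
      exact hstab P hPd h h.2
    · intro hR
      by_contra hRO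
      have hst : ∀ S : Sylow 3 G, d • S = S → ∀ x ∈ S, ∀ y ∈ MulAction.orbit H R, x • y ∈ MulAction.orbit H R := by
        rintro S hS x hx _ ⟨h, rfl⟩
        have hxH : x ∈ H := (hHmem x).2 (hcomm S hS x hx)
        exact ⟨⟨x, hxH⟩ * h, (mul_smul (⟨x, hxH⟩ : H) h R)⟩
      have h1 := (syl_mod (P := R) (MulAction.orbit H R) (hst R hR)).1 (MulAction.mem_orbit_self R)
      have h2 := (syl_mod (P := P) (MulAction.orbit H R) (hst P hPd)).2 (by
        rintro ⟨h, hh⟩
        apply hRO
        refine ⟨h⁻¹, ?_⟩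
        have : h • R = P := hh
        show h⁻¹ • P = R
        rw [← this, inv_smul_smul])
      have h3 := h1.symm.trans h2
      rw [Nat.ModEq] at h3
      norm_num at h3
  have hH7 : 7 ∣ Nat.card H := by
    have h4 := (MulAction.stabilizer H P).card_mul_index
    rw [MulAction.index_stabilizer, horb, hF7] at h4
    exact ⟨_, by rw [← h4, mul_comm]⟩
  haveI : Fact (Nat.Prime 7) := ⟨by norm_num⟩
  obtain ⟨⟨y, hyH⟩, hy⟩ := exists_prime_orderOf_dvd_card' 7 hH7
  rw [Subgroup.orderOf_mk] at hy
  have hy1 : y ≠ 1 := by rintro rfl; rw [orderOf_one] at hy; norm_num at hy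
  have h7 := huniv 7 y (by norm_num) hy
  have hne : {S : Sylow 3 G | y • S = S}.Nonempty := by
    rw [← Set.ncard_pos]
    rw [Nat.ModEq] at h7
    omega
  obtain ⟨R, hR⟩ := hne
  have hyc : ∀ x ∈ R, x * y = y * x := fun x hx =>
    Subgroup.mem_centralizer_iff.1 (odd_cent (h3 R) hR (by rw [hy])) x hx
  have h8 := hfixP R y hy1 hyc
  have h9 : {S : Sylow 3 G | y • S = S}.ncard = 1 := by
    rw [Nat.ModEq] at h7
    omega
  obtain ⟨T, hT⟩ := Set.ncard_eq_one.1 h9
  have hdT : d • T = T := by
    have h1 : T ∈ {S : Sylow 3 G | y • S = S} := by rw [hT]; rfl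
    have h2 : d • T ∈ {S : Sylow 3 G | y • S = S} := by
      show y • d • T = d • T
      rw [smul_smul, (hHmem y).1 hyH, mul_smul, show y • T = T from h1]
    rw [hT] at h2
    exact h2
  have h10 := fix_mod (by norm_num) hy {R : Sylow 3 G | d • R = R} (fun x hx => hstab x hx y hyH)
  have e : {x : Sylow 3 G | x ∈ {R : Sylow 3 G | d • R = R} ∧ y • x = x} = {T} := by
    ext S
    constructor
    · rintro ⟨-, h⟩
      rw [← hT]
      exact h
    · rintro rfl
      refine ⟨hdT, ?_⟩
      have h1 : S ∈ {S : Sylow 3 G | y • S = S} := by rw [hT]; rfl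
      exact h1
  rw [e, hF7, Set.ncard_singleton, Nat.ModEq] at h10
  norm_num at h10

/-- the orbits of a Sylow subgroup on the other ones -/
def OrbT (P : Sylow 3 G) : Type _ := {s : Set (Sylow 3 G) // ∃ R, R ≠ P ∧ s = MulAction.orbit (P : Subgroup G) R}

theorem orb_smul {P : Sylow 3 G} {c : G} (hc : c ∈ Subgroup.centralizer (P : Set G)) (R : Sylow 3 G) :
    c • MulAction.orbit (P : Subgroup G) R = MulAction.orbit (P : Subgroup G) (c • R) := by
  have hcc : ∀ x ∈ P, x * c = c * x := fun x hx => Subgroup.mem_centralizer_iff.1 hc x hx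
  ext S
  constructor
  · rintro ⟨_, ⟨x, rfl⟩, rfl⟩
    refine ⟨x, ?_⟩
    show (x : G) • c • R = c • (x : G) • R
    rw [smul_smul, hcc x x.2, mul_smul]
  · rintro ⟨x, rfl⟩
    refine ⟨x • R, ⟨x, rfl⟩, ?_⟩
    show c • (x : G) • R = (x : G) • c • R
    rw [smul_smul, smul_smul, hcc x x.2]

noncomputable instance orbAct (P : Sylow 3 G) : MulAction (Subgroup.centralizer (P : Set G)) (OrbT P) where
  smul c s := ⟨(c : G) • s.1, by
    obtain ⟨R, hR, h⟩ := s.2
    refine ⟨(c : G) • R, ?_, ?_⟩
    · intro e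
      apply hR
      have h1 : (c : G) • P = P := stab_mem.2 (Subgroup.centralizer_le_normalizer _ c.2)
      exact smul_left_cancel _ (e.trans h1.symm)
    · rw [h, orb_smul c.2]⟩
  one_smul s := Subtype.ext (one_smul G s.1)
  mul_smul a b s := Subtype.ext (mul_smul (a : G) (b : G) s.1)

instance (P : Sylow 3 G) : Finite (OrbT P) := by unfold OrbT; infer_instance

theorem orb_card {P R : Sylow 3 G} (hP : Nat.card P = 3) (hR : R ≠ P) : (MulAction.orbit (P : Subgroup G) R).ncard = 3 := by
  have h1 := (MulAction.stabilizer (P : Subgroup G) R).card_mul_index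
  rw [MulAction.index_stabilizer] at h1
  have h2 : (MulAction.orbit (P : Subgroup G) R).ncard ∣ 3 := by
    have := Dvd.intro_left _ h1
    rwa [hP] at this
  rcases (Nat.dvd_prime Nat.prime_three).1 h2 with h3 | h3
  · exfalso
    apply hR
    obtain ⟨a, ha⟩ := Set.ncard_eq_one.1 h3
    have h4 : R ∈ MulAction.orbit (P : Subgroup G) R := MulAction.mem_orbit_self R
    have : (P : Subgroup G) ≤ R := by
      rw [← pfix P.2]
      intro h hh
      have h5 : h • R ∈ MulAction.orbit (P : Subgroup G) R := ⟨⟨h, hh⟩, rfl⟩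
      rw [ha, Set.mem_singleton_iff] at h4 h5
      exact h5.trans h4.symm
    exact (syl_le_iff.1 this).symm
  · exact h3

theorem orbT_card (hn : Nat.card (Sylow 3 G) = 22) {P : Sylow 3 G} (hP : Nat.card P = 3) : Nat.card (OrbT P) = 7 := by
  classical
  have hPf : ∀ x ∈ P, x • P = P := (pfix P.2).2 le_rfl
  have e : {R : Sylow 3 G // R ≠ P} ≃ Σ s : OrbT P, (s.1 : Set (Sylow 3 G)) :=
    { toFun := fun R => ⟨⟨MulAction.orbit (P : Subgroup G) R.1, R.1, R.2, rfl⟩, R.1, MulAction.mem_orbit_self _⟩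
      invFun := fun x => ⟨x.2.1, by
        obtain ⟨⟨s, R, hR, rfl⟩, S, h, hS⟩ := x
        intro e0
        apply hR
        have e0' : S = P := e0
        have h1 : (h : G) • R = S := hS
        have h2 : (h : G) • P = P := hPf _ h.2
        exact smul_left_cancel _ ((h1.trans e0').trans h2.symm)⟩
      left_inv := fun R => rfl
      right_inv := by
        rintro ⟨⟨s, R, hR, rfl⟩, S, hS⟩
        have h1 : MulAction.orbit (P : Subgroup G) S = MulAction.orbit (P : Subgroup G) R := MulAction.orbit_eq_iff.2 hS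
        refine Sigma.ext (Subtype.ext h1) ?_
        simp only
        congr! 1
        }
  have h1 := Nat.card_congr e
  have := Fintype.ofFinite (OrbT P)
  rw [Nat.card_sigma] at h1
  have h2 : ∀ s : OrbT P, Nat.card (s.1 : Set (Sylow 3 G)) = 3 := by
    rintro ⟨s, R, hR, rfl⟩
    rw [Nat.card_coe_set_eq]
    exact orb_card hP hR
  simp only [h2, Finset.sum_const, Finset.card_univ, smul_eq_mul] at h1
  rw [← Nat.card_eq_fintype_card] at h1
  have h3 : Nat.card {R : Sylow 3 G // R ≠ P} = 21 := by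
    have h4 : Nat.card {R : Sylow 3 G // R ≠ P} = ({P}ᶜ : Set (Sylow 3 G)).ncard := rfl
    rw [h4, Set.ncard_compl, Set.ncard_singleton, hn]
  omega

end Cfsg.Agent.H29
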