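import Cfsg.Agent.H29.SylE

/-!
The order of the centralizer of a Sylow 3-subgroup.
-/
set_option autoImplicit false
set_option linter.style.haveILetI false
set_option linter.unusedSectionVars false

namespace Cfsg.Agent.H29
open scoped Pointwise

/-- a subgroup of the symmetric group of degree 7 with order divisible by 7 and 16 is everything -/
theorem perm7_top {X : Type*} [Finite X] (hX : Nat.card X = 7) (K : Subgroup (Equiv.Perm X))
    (h7 : 7 ∣ Nat.card K) (h16 : 16 ∣ Nat.card K) : K = ⊤ := by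
  classical
  have := Fintype.ofFinite X
  have hX' : Fintype.card X = 7 := by rw [← Nat.card_eq_fintype_card, hX]
  haveI : Fact (Nat.Prime 2) := ⟨Nat.prime_two⟩
  obtain ⟨S, hS⟩ := Sylow.exists_subgroup_card_pow_prime (G := K) 2 (n := 4) (by rw [show (2 : ℕ) ^ 4 = 16 from rfl]; exact h16)
  have hcard : Nat.card (Equiv.Perm X) = 5040 := by
    rw [Nat.card_perm, hX]; rfl
  have hS' : Nat.card (S.map K.subtype) = 16 := by
    rw [Nat.card_congr (S.equivMapOfInjective K.subtype K.subtype_injective).toEquiv.symm, hS]; norm_num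
  have hS2 : IsPGroup 2 (S.map K.subtype) := IsPGroup.of_card (n := 4) (by rw [hS']; norm_num)
  obtain ⟨T', hT'⟩ := hS2.exists_le_sylow
  have hT16 : Nat.card T' ≤ 16 := by
    obtain ⟨k, hk⟩ := IsPGroup.iff_card.1 T'.2
    have h1 : Nat.card T' ∣ 5040 := by rw [← hcard]; exact Subgroup.card_subgroup_dvd_card _
    rw [hk] at h1
    rw [show Nat.card T' = 2 ^ k from hk]
    have h2 : k < 5 := by
      by_contra h
      push Not at h
      have := (pow_dvd_pow 2 h).trans h1
      norm_num at this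
    calc 2 ^ k ≤ 2 ^ 4 := Nat.pow_le_pow_right (by norm_num) (by omega)
      _ = 16 := by norm_num
  have hTK : (T' : Subgroup (Equiv.Perm X)) ≤ K := by
    have : S.map K.subtype = T' := Subgroup.eq_of_le_of_card_ge hT' (by rw [hS']; exact hT16)
    rw [← this]
    exact Subgroup.map_subtype_le S
  obtain ⟨a, b, hab⟩ : ∃ a b : X, a ≠ b := by
    have : Nontrivial X := by
      rw [← Finite.one_lt_card_iff_nontrivial, hX]; norm_num
    exact exists_pair_ne X
  have hτ : IsPGroup 2 (Subgroup.zpowers (Equiv.swap a b)) := by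
    apply IsPGroup.of_card (n := 1)
    rw [Nat.card_zpowers, pow_one]
    exact orderOf_eq_prime (by rw [pow_two, Equiv.swap_mul_self]) (fun h => hab (Equiv.swap_eq_one_iff.1 h))
  obtain ⟨T, hT⟩ := hτ.exists_le_sylow
  obtain ⟨g, hg⟩ := MulAction.exists_smul_eq (Equiv.Perm X) T T'
  have hmem : g * Equiv.swap a b * g⁻¹ ∈ K := by
    apply hTK
    rw [← hg]
    refine mem_smul_syl.2 ?_
    have : g⁻¹ * (g * Equiv.swap a b * g⁻¹) * g = Equiv.swap a b := by group
    rw [this]
    exact hT (Subgroup.mem_zpowers _)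
  have hsw : Equiv.Perm.IsSwap (g * Equiv.swap a b * g⁻¹) := by
    refine ⟨g a, g b, fun e => hab (g.injective e), ?_⟩
    rw [Equiv.swap_apply_apply]
  refine Equiv.Perm.subgroup_eq_top_of_swap_mem (by rw [hX']; norm_num) ?_ hmem hsw
  rw [hX', ← Nat.card_eq_fintype_card]
  exact h7

variable {G : Type*} [Group G] [Finite G]

theorem ker_orb (hf : ∀ g : G, (∀ P : Sylow 3 G, g • P = P) → g = 1) {P : Sylow 3 G} (hP : Nat.card P = 3)
    {c : Subgroup.centralizer (P : Set G)} (hc : c ∈ (MulAction.toPermHom (Subgroup.centralizer (P : Set G)) (OrbT P)).ker) :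
    (c : G) ^ 3 = 1 := by
  have hcP : (c : G) • P = P := stab_mem.2 (Subgroup.centralizer_le_normalizer _ c.2)
  have hcc : ∀ x ∈ P, x * c = c * x := fun x hx => Subgroup.mem_centralizer_iff.1 c.2 x hx
  have hx3 : ∀ x ∈ P, x ^ 3 = 1 := by
    intro x hx
    have h1 : orderOf (⟨x, hx⟩ : P) ∣ Nat.card P := orderOf_dvd_natCard _
    rw [hP, Subgroup.orderOf_mk] at h1
    exact orderOf_dvd_iff_pow_eq_one.1 h1
  apply hf
  intro R
  by_cases hR : R = P
  · rw [hR, pow_succ, pow_succ, pow_one, mul_smul, mul_smul, hcP, hcP, hcP]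
  · let s : OrbT P := ⟨MulAction.orbit (P : Subgroup G) R, R, hR, rfl⟩
    have h1 : c • s = s := DFunLike.congr_fun (MonoidHom.mem_ker.1 hc) s
    have h2 : (c : G) • MulAction.orbit (P : Subgroup G) R = MulAction.orbit (P : Subgroup G) R := congrArg Subtype.val h1
    have h3 : (c : G) • R ∈ MulAction.orbit (P : Subgroup G) R := by
      rw [← h2]
      exact Set.smul_mem_smul_set (MulAction.mem_orbit_self R)
    obtain ⟨⟨x, hx⟩, h4⟩ := h3
    have h5 : x • R = (c : G) • R := h4
    have h6 : ((c : G) ^ 3) • R = (x ^ 3) • R := by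
      rw [pow_succ, pow_succ, pow_one, mul_smul, mul_smul, ← h5, ← mul_smul (c : G) x, ← hcc x hx, mul_smul, ← h5,
        ← mul_smul x x, ← mul_smul (c : G), show (c : G) * (x * x) = (x * x) * c by rw [← mul_assoc, ← hcc x hx, mul_assoc, ← hcc x hx, mul_assoc],
        mul_smul, ← h5, ← mul_smul]
      congr 1
      rw [pow_succ, pow_succ, pow_one]
    rw [h6, hx3 x hx, one_smul]

theorem cent_card (hn : Nat.card (Sylow 3 G) = 22) (hf : ∀ g : G, (∀ P : Sylow 3 G, g • P = P) → g = 1)
    (P : Sylow 3 G) : ∃ κ : ℕ, Nat.card (Subgroup.centralizer (P : Set G)) = 3 * κ ∧ κ ∣ 112 ∧ κ ≠ 112 := by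
  have hP := card_P hn hf P
  set C := Subgroup.centralizer (P : Set G) with hC
  set φ := MulAction.toPermHom C (OrbT P) with hφ
  have h1 := φ.ker.card_mul_index
  rw [Subgroup.index_ker] at h1
  have hker : Nat.card φ.ker ∣ 3 := by
    have h2 : φ.ker.map C.subtype ≤ P := by
      rw [← pfix (p := 3)]
      · rintro _ ⟨c, -, rfl⟩
        exact stab_mem.2 (Subgroup.centralizer_le_normalizer _ c.2)
      · rintro ⟨_, c, hc, rfl⟩
        refine ⟨1, Subtype.ext ?_⟩
        show ((c : G)) ^ 3 ^ 1 = 1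
        rw [pow_one]
        exact ker_orb hf hP hc
    have h3 := Subgroup.card_dvd_of_le h2
    rw [Nat.card_congr (φ.ker.equivMapOfInjective C.subtype C.subtype_injective).toEquiv.symm] at h3
    rwa [show Nat.card (P : Subgroup G) = 3 from hP] at h3
  have hran : Nat.card φ.range ∣ 5040 := by
    have h2 := Subgroup.card_subgroup_dvd_card φ.range
    rwa [Nat.card_perm, orbT_card hn hP, show Nat.factorial 7 = 5040 from rfl] at h2
  have h3C : 3 ∣ Nat.card C := by
    have := Subgroup.card_dvd_of_le (self_le_cent hP)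
    rwa [show Nat.card (P : Subgroup G) = 3 from hP] at this
  have h9C : ¬ 9 ∣ Nat.card C := fun h => nine_ndvd hP (h.trans (Subgroup.card_subgroup_dvd_card C))
  have h5C : ¬ 5 ∣ Nat.card C := no_five hn hf P
  have hdv : Nat.card C ∣ 3 * 5040 := by
    rw [← h1]; exact mul_dvd_mul hker hran
  obtain ⟨κ, hκ⟩ := h3C
  rw [hκ] at hdv h9C h5C
  have hκ1 : κ ∣ 5040 := Nat.dvd_of_mul_dvd_mul_left (by norm_num) hdv
  have hκ3 : Nat.Coprime κ 3 := by
    rw [Nat.coprime_comm, Nat.prime_three.coprime_iff_not_dvd]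
    rintro ⟨k, rfl⟩
    exact h9C ⟨k, by ring⟩
  have hκ5 : Nat.Coprime κ 5 := by
    rw [Nat.coprime_comm, Nat.Prime.coprime_iff_not_dvd (by norm_num)]
    rintro ⟨k, rfl⟩
    exact h5C ⟨3 * k, by ring⟩
  have hκ2 : κ ∣ 112 := by
    have h6 : κ.Coprime 45 := by
      have : (45 : ℕ) = 3 * (3 * 5) := by norm_num
      rw [this]
      exact hκ3.mul_right (hκ3.mul_right hκ5)
    have h7 : κ ∣ 112 * 45 := by norm_num; exact hκ1
    exact h6.dvd_of_dvd_mul_right h7
  refine ⟨κ, hκ, hκ2, ?_⟩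
  rintro rfl
  rw [hκ] at h1
  have hk : Nat.card φ.ker = 1 ∨ Nat.card φ.ker = 3 := (Nat.dvd_prime Nat.prime_three).1 hker
  have h112 : 112 ∣ Nat.card φ.range := by
    rcases hk with hk | hk
    · rw [hk] at h1; exact ⟨3, by omega⟩
    · rw [hk] at h1; exact ⟨1, by omega⟩
  have htop := perm7_top (orbT_card hn hP) φ.range ((by norm_num : 7 ∣ 112).trans h112) ((by norm_num : 16 ∣ 112).trans h112)
  have h8 : Nat.card φ.range = 5040 := by
    rw [htop, Subgroup.card_top, Nat.card_perm, orbT_card hn hP]; rfl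
  rw [h8] at h1
  rcases hk with hk | hk
  · rw [hk] at h1; omega
  · rw [hk] at h1; omega

end Cfsg.Agent.H29
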