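import Cfsg.Agent.H29.SylF

/-!
Sylow 11-subgroups in a group with 22 Sylow 3-subgroups.
-/
set_option autoImplicit false
set_option linter.style.haveILetI false
set_option linter.unusedSectionVars false

namespace Cfsg.Agent.H29
open scoped Pointwise

variable {G : Type*} [Group G] [Finite G]

theorem fact11 : Fact (Nat.Prime 11) := ⟨by norm_num⟩

theorem norm_card (hn : Nat.card (Sylow 3 G) = 22) (hf : ∀ g : G, (∀ P : Sylow 3 G, g • P = P) → g = 1)
    (P : Sylow 3 G) : ∃ κ e : ℕ, Nat.card (Subgroup.centralizer (P : Set G)) = 3 * κ ∧ κ ∣ 112 ∧ κ ≠ 112 ∧ e ∣ 2 ∧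
      Nat.card (Subgroup.normalizer (P : Set G)) = 3 * κ * e := by
  obtain ⟨κ, h1, h2, h3⟩ := cent_card hn hf P
  obtain ⟨e, h4, h5, -⟩ := NC_prime (H := (P : Subgroup G)) Nat.prime_three (card_P hn hf P)
  refine ⟨κ, e, h1, h2, h3, h4, ?_⟩
  rw [← h1]
  exact h5.symm

theorem norm_ndvd (hn : Nat.card (Sylow 3 G) = 22) (hf : ∀ g : G, (∀ P : Sylow 3 G, g • P = P) → g = 1)
    (P : Sylow 3 G) : ¬ 11 ∣ Nat.card (Subgroup.normalizer (P : Set G)) ∧ ¬ 5 ∣ Nat.card (Subgroup.normalizer (P : Set G)) := by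
  obtain ⟨κ, e, -, h2, -, h4, h5⟩ := norm_card hn hf P
  rw [h5]
  have h6 : 3 * κ * e ∣ 672 := by
    have := mul_dvd_mul (mul_dvd_mul (dvd_refl 3) h2) h4
    norm_num at this
    exact this
  constructor
  · intro h; have := h.trans h6; norm_num at this
  · intro h; have := h.trans h6; norm_num at this

theorem card_Q (hn : Nat.card (Sylow 3 G) = 22) (hf : ∀ g : G, (∀ P : Sylow 3 G, g • P = P) → g = 1)
    [Fact (Nat.Prime 11)] (Q : Sylow 11 G) : Nat.card Q = 11 := by
  obtain ⟨P⟩ : Nonempty (Sylow 3 G) := inferInstance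
  have h1 := card_G hn P
  have h2 := (norm_ndvd hn hf P).1
  obtain ⟨k, hk⟩ := IsPGroup.iff_card.1 Q.2
  have h3 : Nat.card Q ∣ Nat.card G := Subgroup.card_subgroup_dvd_card _
  rw [show Nat.card Q = 11 ^ k from hk, h1] at h3
  have h4 : 11 ^ k ∣ 22 := by
    apply Nat.Coprime.dvd_of_dvd_mul_right _ h3
    apply Nat.Coprime.pow_left
    rw [Nat.Prime.coprime_iff_not_dvd (by norm_num)]
    exact h2
  have h5 : k < 2 := by
    by_contra h
    push Not at h
    have := (pow_dvd_pow 11 h).trans h4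
    norm_num at this
  have h6 : 11 ∣ Nat.card Q := Q.dvd_card_of_dvd_card (by rw [h1]; exact Dvd.intro _ (by ring : 11 * (2 * _) = _))
  rw [show Nat.card Q = 11 ^ k from hk] at h6 ⊢
  interval_cases k
  · norm_num at h6
  · norm_num

theorem qorb (hn : Nat.card (Sylow 3 G) = 22) (hf : ∀ g : G, (∀ P : Sylow 3 G, g • P = P) → g = 1)
    [Fact (Nat.Prime 11)] (Q : Sylow 11 G) (S : Sylow 3 G) : (MulAction.orbit (Q : Subgroup G) S).ncard = 11 := by
  have h1 := (MulAction.stabilizer (Q : Subgroup G) S).card_mul_index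
  rw [MulAction.index_stabilizer, show Nat.card (Q : Subgroup G) = 11 from card_Q hn hf Q] at h1
  rcases (Nat.dvd_prime (by norm_num : Nat.Prime 11)).1 (Dvd.intro_left _ h1) with h3 | h3
  · exfalso
    apply (norm_ndvd hn hf S).1
    obtain ⟨a, ha⟩ := Set.ncard_eq_one.1 h3
    have h4 : S ∈ MulAction.orbit (Q : Subgroup G) S := MulAction.mem_orbit_self S
    have : (Q : Subgroup G) ≤ Subgroup.normalizer (S : Set G) := by
      intro h hh
      have h5 : h • S ∈ MulAction.orbit (Q : Subgroup G) S := ⟨⟨h, hh⟩, rfl⟩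
      rw [ha, Set.mem_singleton_iff] at h4 h5
      exact stab_mem.1 (h5.trans h4.symm)
    have h6 := Subgroup.card_dvd_of_le this
    rwa [show Nat.card (Q : Subgroup G) = 11 from card_Q hn hf Q] at h6
  · exact h3

theorem centQ_free (hn : Nat.card (Sylow 3 G) = 22) (hf : ∀ g : G, (∀ P : Sylow 3 G, g • P = P) → g = 1)
    [Fact (Nat.Prime 11)] (Q : Sylow 11 G) {g : G} (hg : g ∈ Subgroup.centralizer (Q : Set G)) {R : Sylow 3 G}
    (hR : g • R = R) : g = 1 := by
  have hcc : ∀ x ∈ Q, x * g = g * x := fun x hx => Subgroup.mem_centralizer_iff.1 hg x hx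
  have hfixR : ∀ S ∈ MulAction.orbit (Q : Subgroup G) R, g • S = S := by
    rintro _ ⟨x, rfl⟩
    show g • (x : G) • R = (x : G) • R
    rw [smul_smul, ← hcc x x.2, mul_smul, hR]
  have hx11 : ∀ x ∈ Q, x ^ 11 = 1 := by
    intro x hx
    have h1 : orderOf (⟨x, hx⟩ : Q) ∣ Nat.card Q := orderOf_dvd_natCard _
    rw [card_Q hn hf Q, Subgroup.orderOf_mk] at h1
    exact orderOf_dvd_iff_pow_eq_one.1 h1
  have h11 : g ^ 11 = 1 := by
    apply hf
    intro S
    by_cases hS : S ∈ MulAction.orbit (Q : Subgroup G) R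
    · have : ∀ k : ℕ, g ^ k • S = S := by
        intro k
        induction k with
        | zero => rw [pow_zero, one_smul]
        | succ k ih => rw [pow_succ, mul_smul, hfixR S hS, ih]
      exact this 11
    · have hd : Disjoint (MulAction.orbit (Q : Subgroup G) R) (MulAction.orbit (Q : Subgroup G) S) := by
        rcases MulAction.orbit.eq_or_disjoint (G := (Q : Subgroup G)) R S with h | h
        · exfalso; apply hS; rw [h]; exact MulAction.mem_orbit_self S
        · exact h
      have hU : MulAction.orbit (Q : Subgroup G) R ∪ MulAction.orbit (Q : Subgroup G) S = Set.univ := by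
        apply Set.eq_of_subset_of_ncard_le (Set.subset_univ _)
        rw [Set.ncard_union_eq hd, qorb hn hf, qorb hn hf, Set.ncard_univ, hn]
      have h1 : g • S ∈ MulAction.orbit (Q : Subgroup G) R ∪ MulAction.orbit (Q : Subgroup G) S := by rw [hU]; trivial
      rcases h1 with h1 | h1
      · exfalso
        have h2 := hfixR _ h1
        have h3 : g • S = S := MulAction.injective g h2
        rw [h3] at h1
        exact hS h1
      · obtain ⟨⟨x, hx⟩, h2⟩ := h1
        have h3 : x • S = g • S := h2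
        have h4 : ∀ k : ℕ, g ^ k • S = x ^ k • S := by
          intro k
          induction k with
          | zero => rw [pow_zero, pow_zero]
          | succ k ih =>
            rw [pow_succ', mul_smul, ih, ← mul_smul, ← hcc _ (Subgroup.pow_mem _ hx k), mul_smul, ← h3, ← mul_smul, ← pow_succ]
        rw [h4, hx11 x hx, one_smul]
  have h1 : orderOf g ∣ 11 := orderOf_dvd_of_pow_eq_one h11
  rcases (Nat.dvd_prime (by norm_num : Nat.Prime 11)).1 h1 with h2 | h2
  · exact orderOf_eq_one_iff.1 h2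
  · exfalso
    apply (norm_ndvd hn hf R).1
    have h3 : orderOf (⟨g, stab_mem.1 hR⟩ : Subgroup.normalizer (R : Set G)) ∣ _ := orderOf_dvd_natCard _
    rwa [Subgroup.orderOf_mk, h2] at h3

theorem centQ_dvd (hn : Nat.card (Sylow 3 G) = 22) (hf : ∀ g : G, (∀ P : Sylow 3 G, g • P = P) → g = 1)
    [Fact (Nat.Prime 11)] (Q : Sylow 11 G) : Nat.card (Subgroup.centralizer (Q : Set G)) ∣ 22 := by
  rw [← hn]
  apply dvd_of_orbits' (G := Subgroup.centralizer (Q : Set G))
  intro R
  have h1 := (MulAction.stabilizer (Subgroup.centralizer (Q : Set G)) R).card_mul_index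
  rw [MulAction.index_stabilizer] at h1
  have h2 : MulAction.stabilizer (Subgroup.centralizer (Q : Set G)) R = ⊥ := by
    rw [eq_bot_iff]
    intro g hg
    rw [Subgroup.mem_bot]
    exact Subtype.ext (centQ_free hn hf Q g.2 hg)
  rw [h2, Subgroup.card_bot, one_mul] at h1
  rw [Nat.card_coe_set_eq, h1]

theorem normQ (hn : Nat.card (Sylow 3 G) = 22) (hf : ∀ g : G, (∀ P : Sylow 3 G, g • P = P) → g = 1)
    [Fact (Nat.Prime 11)] (Q : Sylow 11 G) :
    Nat.card (Subgroup.normalizer (Q : Set G)) = 2 * Nat.card (Subgroup.centralizer (Q : Set G)) := by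
  have hQ := card_Q hn hf Q
  obtain ⟨P⟩ : Nonempty (Sylow 3 G) := inferInstance
  have hG := card_G hn P
  obtain ⟨e, h1, h2, h3⟩ := NC_prime (H := (Q : Subgroup G)) (by norm_num : Nat.Prime 11) hQ
  have h5 : ¬ 5 ∣ Nat.card G := by
    rw [hG, Nat.Prime.dvd_mul (by norm_num)]
    rintro (h | h)
    · norm_num at h
    · exact (norm_ndvd hn hf P).2 h
  have h6 : ¬ 5 ∣ e := by
    intro h
    apply h5
    refine h.trans (Dvd.dvd.trans (Dvd.intro_left _ h2) (Subgroup.card_subgroup_dvd_card _))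
  have h7 : e ≠ 1 := by
    rintro rfl
    have hle : Subgroup.normalizer (Q : Set G) ≤ Subgroup.centralizer (Q : Set G) := by
      intro g hg
      have := h3 g hg
      rwa [pow_one] at this
    have hc := MonoidHom.ker_transferSylow_isComplement' Q hle
    have hcard := hc.card_mul_card
    have hM : (MonoidHom.transferSylow Q hle).ker ≠ ⊥ := by
      intro h
      rw [h, Subgroup.card_bot, one_mul, show Nat.card (Q : Subgroup G) = 11 from hQ, hG] at hcard
      omega
    have h22 := normal_22 hn hf _ hM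
    exact MonoidHom.not_dvd_card_ker_transferSylow Q hle ((by norm_num : 11 ∣ 22).trans h22)
  have h8 : e = 2 := by
    have h9 : e ≤ 10 := Nat.le_of_dvd (by norm_num) h1
    have h10 : e ∣ 10 := h1
    interval_cases e <;> omega
  rw [h8] at h2
  rw [mul_comm]
  exact h2.symm

theorem syl11_cases (hn : Nat.card (Sylow 3 G) = 22) (hf : ∀ g : G, (∀ P : Sylow 3 G, g • P = P) → g = 1)
    [Fact (Nat.Prime 11)] (Q : Sylow 11 G) : Nat.card (Sylow 11 G) = 12 ∧
      (Nat.card (Subgroup.centralizer (Q : Set G)) = 22 ∨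
        (Nat.card (Subgroup.centralizer (Q : Set G)) = 11 ∧ Nat.card G = 264 ∧
          ∀ P : Sylow 3 G, 2 ∣ Nat.card (Subgroup.centralizer (P : Set G)))) := by
  have h1 := centQ_dvd hn hf Q
  have h2 := normQ hn hf Q
  have h3 := Q.card_eq_index_normalizer
  have h4 := (Subgroup.normalizer (Q : Set G)).card_mul_index
  rw [← h3, h2] at h4
  have h5 := card_sylow_modEq_one 11 G
  rw [Nat.ModEq] at h5
  have h6 : 11 ≤ Nat.card (Subgroup.centralizer (Q : Set G)) := by
    have hQ := card_Q hn hf Q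
    have hle : (Q : Subgroup G) ≤ Subgroup.centralizer (Q : Set G) := by
      haveI : IsCyclic Q := isCyclic_of_prime_card hQ
      intro x hx
      rw [Subgroup.mem_centralizer_iff]
      intro y hy
      have h : (⟨y, hy⟩ : Q) * ⟨x, hx⟩ = ⟨x, hx⟩ * ⟨y, hy⟩ := by
        letI := IsCyclic.commGroup (α := Q)
        exact mul_comm _ _
      exact congrArg Subtype.val h
    have := Subgroup.card_le_of_le hle
    rwa [show Nat.card (Q : Subgroup G) = 11 from hQ] at this
  have h7 : Nat.card (Subgroup.centralizer (Q : Set G)) = 11 ∨ Nat.card (Subgroup.centralizer (Q : Set G)) = 22 := by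
    have h8 : Nat.card (Subgroup.centralizer (Q : Set G)) ≤ 22 := Nat.le_of_dvd (by norm_num) h1
    generalize Nat.card (Subgroup.centralizer (Q : Set G)) = c at *
    interval_cases c <;> omega
  have key : ∀ P : Sylow 3 G, Nat.card (Sylow 11 G) = 12 ∧ (Nat.card (Subgroup.centralizer (Q : Set G)) = 22 ∨
        (Nat.card (Subgroup.centralizer (Q : Set G)) = 11 ∧ Nat.card G = 264 ∧
          2 ∣ Nat.card (Subgroup.centralizer (P : Set G)))) := by
    intro P
    obtain ⟨κ, e, k1, k2, k3, k4, k5⟩ := norm_card hn hf P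
    have hG := card_G hn P
    rw [k5] at hG
    rw [k1]
    rw [hG] at h4 ⊢
    have k6 : κ ∈ Nat.divisors 112 := Nat.mem_divisors.2 ⟨k2, by norm_num⟩
    have k7 : Nat.divisors 112 = {1, 2, 4, 7, 8, 14, 16, 28, 56, 112} := by decide +kernel
    rw [k7] at k6
    have k8 : e = 1 ∨ e = 2 := (Nat.dvd_prime Nat.prime_two).1 k4
    generalize Nat.card (Subgroup.centralizer (Q : Set G)) = c at *
    generalize Nat.card (Sylow 11 G) = n at *
    simp only [Finset.mem_insert, Finset.mem_singleton] at k6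
    rcases h7 with rfl | rfl <;> rcases k8 with rfl | rfl <;>
      rcases k6 with rfl | rfl | rfl | rfl | rfl | rfl | rfl | rfl | rfl | rfl <;> omega
  obtain ⟨P⟩ : Nonempty (Sylow 3 G) := inferInstance
  refine ⟨(key P).1, ?_⟩
  rcases (key P).2 with h | h
  · exact Or.inl h
  · refine Or.inr ⟨h.1, h.2.1, fun P' => ?_⟩
    rcases (key P').2 with h' | h'
    · omega
    · exact h'.2.2

end Cfsg.Agent.H29
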