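import Cfsg.Agent.H29.SylG

/-!
No group has exactly 22 Sylow 3-subgroups.
-/
set_option autoImplicit false
set_option linter.style.haveILetI false
set_option linter.unusedSectionVars false

namespace Cfsg.Agent.H29
open scoped Pointwise

variable {G : Type*} [Group G] [Finite G]

/-- orbits of a Sylow 11-subgroup on the other ones -/
theorem qorb_self [Fact (Nat.Prime 11)] {Q R : Sylow 11 G} (hQ : Nat.card Q = 11) (hn : Nat.card (Sylow 11 G) = 12)
    (hR : R ≠ Q) : MulAction.orbit (Q : Subgroup G) R = {Q}ᶜ := by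
  have h1 := (MulAction.stabilizer (Q : Subgroup G) R).card_mul_index
  rw [MulAction.index_stabilizer, show Nat.card (Q : Subgroup G) = 11 from hQ] at h1
  have h2 : (MulAction.orbit (Q : Subgroup G) R).ncard = 11 := by
    rcases (Nat.dvd_prime (by norm_num : Nat.Prime 11)).1 (Dvd.intro_left _ h1) with h3 | h3
    · exfalso
      apply hR
      obtain ⟨a, ha⟩ := Set.ncard_eq_one.1 h3
      have h4 : R ∈ MulAction.orbit (Q : Subgroup G) R := MulAction.mem_orbit_self R
      have : (Q : Subgroup G) ≤ R := by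
        rw [← pfix Q.2]
        intro h hh
        have h5 : h • R ∈ MulAction.orbit (Q : Subgroup G) R := ⟨⟨h, hh⟩, rfl⟩
        rw [ha, Set.mem_singleton_iff] at h4 h5
        exact h5.trans h4.symm
      exact (syl_le_iff.1 this).symm
    · exact h3
  refine Set.eq_of_subset_of_ncard_le ?_ ?_ (Set.toFinite _)
  · rintro _ ⟨x, rfl⟩ h
    apply hR
    have h3 : (x : G) • R = Q := h
    have h4 : (x : G) • Q = Q := (pfix Q.2).2 le_rfl x x.2
    exact smul_left_cancel _ (h3.trans h4.symm)
  · rw [h2, Set.ncard_compl, Set.ncard_singleton, hn]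

theorem no_22 (hn : Nat.card (Sylow 3 G) = 22) (hf : ∀ g : G, (∀ P : Sylow 3 G, g • P = P) → g = 1)
    [Fact (Nat.Prime 11)] (Q : Sylow 11 G) (h12 : Nat.card (Sylow 11 G) = 12)
    (hC : Nat.card (Subgroup.centralizer (Q : Set G)) = 22) : False := by
  have hQ := card_Q hn hf Q
  haveI : Fact (Nat.Prime 2) := ⟨Nat.prime_two⟩
  obtain ⟨⟨z, hzC⟩, hz⟩ := exists_prime_orderOf_dvd_card' (G := Subgroup.centralizer (Q : Set G)) 2 (by rw [hC]; norm_num)
  rw [Subgroup.orderOf_mk] at hz
  have hzQ : z • Q = Q := stab_mem.2 (Subgroup.centralizer_le_normalizer _ hzC)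
  have hst : ∀ x ∈ ({Q}ᶜ : Set (Sylow 11 G)), z • x ∈ ({Q}ᶜ : Set (Sylow 11 G)) := by
    intro x hx h
    have h1 : z • x = Q := h
    exact hx (smul_left_cancel _ (h1.trans hzQ.symm))
  have h1 := fix_mod Nat.prime_two hz ({Q}ᶜ : Set (Sylow 11 G)) hst
  rw [Set.ncard_compl, Set.ncard_singleton, h12, Nat.ModEq] at h1
  have hne : {x : Sylow 11 G | x ∈ ({Q}ᶜ : Set (Sylow 11 G)) ∧ z • x = x}.Nonempty := by
    rw [← Set.ncard_pos]
    omega
  obtain ⟨R, hR1, hR2⟩ := hne
  have horb := qorb_self hQ h12 (show R ≠ Q from hR1)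
  have hall : ∀ S : Sylow 11 G, z • S = S := by
    intro S
    by_cases hS : S = Q
    · rw [hS]; exact hzQ
    · have : S ∈ MulAction.orbit (Q : Subgroup G) R := by rw [horb]; exact hS
      obtain ⟨⟨x, hx⟩, rfl⟩ := this
      show z • x • R = x • R
      rw [smul_smul, ← Subgroup.mem_centralizer_iff.1 hzC x hx, mul_smul, hR2]
  set L := (MulAction.toPermHom G (Sylow 11 G)).ker with hL
  have hLz : z ∈ L := by
    rw [hL, MonoidHom.mem_ker]
    ext1 S
    exact hall S
  have hL1 : L ≠ ⊥ := by
    intro h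
    rw [h, Subgroup.mem_bot] at hLz
    rw [hLz, orderOf_one] at hz
    norm_num at hz
  have h22 := normal_22 hn hf L hL1
  obtain ⟨⟨y, hyL⟩, hy⟩ := exists_prime_orderOf_dvd_card' (G := L) 11 ((by norm_num : 11 ∣ 22).trans h22)
  rw [Subgroup.orderOf_mk] at hy
  have hy11 : IsPGroup 11 (Subgroup.zpowers y) := IsPGroup.of_card (n := 1) (by rw [Nat.card_zpowers, hy, pow_one])
  have hle : ∀ S : Sylow 11 G, Subgroup.zpowers y = S := by
    intro S
    have h2 : Subgroup.zpowers y ≤ S := by
      rw [← pfix hy11]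
      intro h hh
      have h3 : y ∈ MulAction.stabilizer G S := by
        rw [MulAction.mem_stabilizer_iff]
        exact DFunLike.congr_fun (MonoidHom.mem_ker.1 hyL) S
      exact (Subgroup.zpowers_le.2 h3) hh
    apply Subgroup.eq_of_le_of_card_ge h2
    rw [Nat.card_zpowers, hy]
    exact (card_Q hn hf S).le
  apply hR1
  exact Sylow.ext ((hle R).symm.trans (hle Q))

/-- the number of elements of order `p` -/
theorem card_order_p {p : ℕ} (hp : p.Prime) [Fact p.Prime] (h : ∀ P : Sylow p G, Nat.card P = p) :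
    Nat.card (Sylow p G) * (p - 1) ≤ {g : G | orderOf g = p}.ncard := by
  classical
  have := Fintype.ofFinite (Sylow p G)
  have h1 : ∀ P : Sylow p G, Nat.card {x : P // x ≠ 1} = p - 1 := by
    intro P
    have h2 : Nat.card {x : P // x ≠ 1} = ({1}ᶜ : Set P).ncard := rfl
    rw [h2, Set.ncard_compl, Set.ncard_singleton, show Nat.card P = p from h P]
  have h2 : Nat.card (Σ P : Sylow p G, {x : P // x ≠ 1}) = Nat.card (Sylow p G) * (p - 1) := by
    rw [Nat.card_sigma]
    simp only [h1, Finset.sum_const, Finset.card_univ, smul_eq_mul]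
    rw [← Nat.card_eq_fintype_card]
  have ho : ∀ (P : Sylow p G) (x : P), x ≠ 1 → orderOf (x : G) = p := by
    intro P x hx
    rw [Subgroup.orderOf_coe]
    have h3 : orderOf x ∣ p := (orderOf_dvd_natCard x).trans (dvd_of_eq (h P))
    rcases (Nat.dvd_prime hp).1 h3 with h4 | h4
    · exact absurd (orderOf_eq_one_iff.1 h4) hx
    · exact h4
  rw [← h2, ← Nat.card_coe_set_eq]
  refine Nat.card_le_card_of_injective (fun x => (⟨(x.2.1 : G), ho x.1 x.2.1 x.2.2⟩ : {g : G | orderOf g = p})) ?_
  rintro ⟨P, ⟨x, hx⟩, hx1⟩ ⟨Q, ⟨y, hy⟩, hy1⟩ hxy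
  have e : x = y := congrArg Subtype.val hxy
  subst e
  have h3 : orderOf x = p := ho P ⟨x, hx⟩ hx1
  have h4 : ∀ R : Sylow p G, x ∈ R → Subgroup.zpowers x = R := by
    intro R hR
    apply Subgroup.eq_of_le_of_card_ge (Subgroup.zpowers_le.2 hR)
    rw [Nat.card_zpowers, h3]
    exact (h R).le
  have h5 : P = Q := Sylow.ext ((h4 P hx).symm.trans (h4 Q hy))
  subst h5
  rfl

theorem no_264 (hn : Nat.card (Sylow 3 G) = 22) (hf : ∀ g : G, (∀ P : Sylow 3 G, g • P = P) → g = 1)
    [Fact (Nat.Prime 11)] (h12 : Nat.card (Sylow 11 G) = 12)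
    (hC : ∀ Q : Sylow 11 G, Nat.card (Subgroup.centralizer (Q : Set G)) = 11) (hG : Nat.card G = 264)
    (h2C : ∀ P : Sylow 3 G, 2 ∣ Nat.card (Subgroup.centralizer (P : Set G))) : False := by
  classical
  haveI : Fact (Nat.Prime 2) := ⟨Nat.prime_two⟩
  haveI : Fact (Nat.Prime 3) := ⟨Nat.prime_three⟩
  have h3 : 44 ≤ {g : G | orderOf g = 3}.ncard := by
    have := card_order_p Nat.prime_three (G := G) (card_P hn hf)
    rwa [hn] at this
  have h11 : 120 ≤ {g : G | orderOf g = 11}.ncard := by
    have := card_order_p (by norm_num : Nat.Prime 11) (G := G) (card_Q hn hf)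
    rwa [h12] at this
  -- elements of order 6
  have hz : ∀ g : G, orderOf g = 3 → ∃ z : G, orderOf z = 2 ∧ z * g = g * z := by
    intro g hg
    have h0 : IsPGroup 3 (Subgroup.zpowers g) := IsPGroup.of_card (n := 1) (by rw [Nat.card_zpowers, hg, pow_one])
    obtain ⟨P, hP⟩ := h0.exists_le_sylow
    obtain ⟨⟨z, hzC⟩, hz⟩ := exists_prime_orderOf_dvd_card' (G := Subgroup.centralizer (P : Set G)) 2 (h2C P)
    rw [Subgroup.orderOf_mk] at hz
    exact ⟨z, hz, (Subgroup.mem_centralizer_iff.1 hzC g (hP (Subgroup.mem_zpowers g))).symm⟩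
  choose! zf hzf using hz
  have h6 : 44 ≤ {g : G | orderOf g = 6}.ncard := by
    refine h3.trans ?_
    refine Set.ncard_le_ncard_of_injOn (fun g => g * zf g) ?_ ?_ (Set.toFinite _)
    · intro g hg
      have hg' : orderOf g = 3 := hg
      obtain ⟨h1, h2⟩ := hzf g hg'
      show orderOf (g * zf g) = 6
      rw [Commute.orderOf_mul_eq_mul_orderOf_of_coprime (show Commute g (zf g) from h2.symm) (by rw [hg', h1]; norm_num), hg', h1]
    · intro g hg g' hg' e
      have key : ∀ g : G, orderOf g = 3 → (g * zf g) ^ 4 = g := by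
        intro g hg
        obtain ⟨h1, h2⟩ := hzf g hg
        rw [(show Commute g (zf g) from h2.symm).mul_pow]
        have e1 : g ^ 4 = g := by
          have : g ^ 3 = 1 := by rw [← hg]; exact pow_orderOf_eq_one g
          rw [show (4 : ℕ) = 3 + 1 from rfl, pow_add, this, one_mul, pow_one]
        have e2 : zf g ^ 4 = 1 := by
          have : zf g ^ 2 = 1 := by rw [← h1]; exact pow_orderOf_eq_one _
          rw [show (4 : ℕ) = 2 * 2 from rfl, pow_mul, this, one_pow]
        rw [e1, e2, mul_one]
      have e' : g * zf g = g' * zf g' := e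
      rw [← key g hg, ← key g' hg', e']
  -- involutions
  have hnorm : ∀ Q : Sylow 11 G, Nat.card (Subgroup.normalizer (Q : Set G)) = 22 := by
    intro Q
    rw [normQ hn hf Q, hC]
  have hQ11 : ∀ Q : Sylow 11 G, Nat.card Q = 11 := card_Q hn hf
  -- the stabilizer of two points has order 2
  have hst2 : ∀ Q R : Sylow 11 G, R ≠ Q →
      Nat.card (Subgroup.normalizer (Q : Set G) ⊓ Subgroup.normalizer (R : Set G) : Subgroup G) = 2 := by
    intro Q R hR
    have h1 := (MulAction.stabilizer (Subgroup.normalizer (Q : Set G)) R).card_mul_index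
    rw [MulAction.index_stabilizer, hnorm] at h1
    have h2 : MulAction.orbit (Subgroup.normalizer (Q : Set G)) R = {Q}ᶜ := by
      apply Set.Subset.antisymm
      · rintro _ ⟨x, rfl⟩ h
        apply hR
        have h3 : (x : G) • R = Q := h
        have h4 : (x : G) • Q = Q := stab_mem.2 x.2
        exact smul_left_cancel _ (h3.trans h4.symm)
      · rw [← qorb_self (hQ11 Q) h12 hR]
        rintro _ ⟨x, rfl⟩
        exact ⟨⟨x, Subgroup.le_normalizer x.2⟩, rfl⟩
    rw [h2, Set.ncard_compl, Set.ncard_singleton, h12] at h1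
    have h3 : Nat.card (MulAction.stabilizer (Subgroup.normalizer (Q : Set G)) R) =
        Nat.card (Subgroup.normalizer (Q : Set G) ⊓ Subgroup.normalizer (R : Set G) : Subgroup G) := by
      have e : MulAction.stabilizer (Subgroup.normalizer (Q : Set G)) R =
          (Subgroup.normalizer (Q : Set G) ⊓ Subgroup.normalizer (R : Set G)).subgroupOf (Subgroup.normalizer (Q : Set G)) := by
        ext x
        rw [MulAction.mem_stabilizer_iff, Subgroup.mem_subgroupOf, Subgroup.mem_inf]
        constructor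
        · intro h; exact ⟨x.2, stab_mem.1 h⟩
        · intro h; exact stab_mem.2 h.2
      rw [e]
      exact Nat.card_congr (Subgroup.subgroupOfEquivOfLe inf_le_left).toEquiv
    rw [h3] at h1
    omega
  have ht : ∀ Q R : Sylow 11 G, R ≠ Q → ∃ t : G, orderOf t = 2 ∧ t • Q = Q ∧ t • R = R ∧
      ∀ S : Sylow 11 G, t • S = S → S = Q ∨ S = R := by
    intro Q R hR
    obtain ⟨⟨t, htm⟩, ht⟩ := exists_prime_orderOf_dvd_card'
      (G := (Subgroup.normalizer (Q : Set G) ⊓ Subgroup.normalizer (R : Set G) : Subgroup G)) 2 (by rw [hst2 Q R hR])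
    rw [Subgroup.orderOf_mk] at ht
    have htQ : t • Q = Q := stab_mem.2 htm.1
    have htR : t • R = R := stab_mem.2 htm.2
    refine ⟨t, ht, htQ, htR, fun S hS => ?_⟩
    by_contra hcon
    rw [not_or] at hcon
    have h1 : S ∈ MulAction.orbit (Q : Subgroup G) R := by
      rw [qorb_self (hQ11 Q) h12 hR]; exact hcon.1
    obtain ⟨⟨y, hy⟩, hyS⟩ := h1
    have hyS' : y • R = S := hyS
    have hy1 : y ≠ 1 := by
      rintro rfl
      rw [one_smul] at hyS'
      exact hcon.2 hyS'.symm
    have hyQ : y • Q = Q := (pfix Q.2).2 le_rfl y hy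
    -- the conjugate of t
    have hmem : y⁻¹ * t * y ∈ (Subgroup.normalizer (Q : Set G) ⊓ Subgroup.normalizer (R : Set G) : Subgroup G) := by
      refine ⟨stab_mem.1 ?_, stab_mem.1 ?_⟩
      · rw [mul_smul, mul_smul, hyQ, htQ]
        have := congrArg (fun x => y⁻¹ • x) hyQ
        simp only [inv_smul_smul] at this
        exact this.symm
      · rw [mul_smul, mul_smul, hyS', hS, ← hyS', inv_smul_smul]
    have hcard := hst2 Q R hR
    have heq : y⁻¹ * t * y = t := by
      by_contra hne
      have h1 : ({1, t, y⁻¹ * t * y} : Finset G).card = 3 := by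
        rw [Finset.card_eq_three]
        refine ⟨1, t, y⁻¹ * t * y, ?_, ?_, Ne.symm hne, rfl⟩
        · rintro rfl; rw [orderOf_one] at ht; norm_num at ht
        · intro h
          have : t = 1 := by
            have h4 : t = y * (y⁻¹ * t * y) * y⁻¹ := by group
            rw [← h] at h4
            simpa using h4
          rw [this, orderOf_one] at ht; norm_num at ht
      have h2 : ((({1, t, y⁻¹ * t * y} : Finset G) : Set G)).ncard ≤
          ((Subgroup.normalizer (Q : Set G) ⊓ Subgroup.normalizer (R : Set G) : Subgroup G) : Set G).ncard := by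
        refine Set.ncard_le_ncard ?_ (Set.toFinite _)
        intro x hx
        rw [Finset.mem_coe, Finset.mem_insert, Finset.mem_insert, Finset.mem_singleton] at hx
        rcases hx with rfl | rfl | rfl
        · exact one_mem _
        · exact htm
        · exact hmem
      rw [Set.ncard_coe_finset, h1, ← Nat.card_coe_set_eq] at h2
      have h5 : Nat.card ((Subgroup.normalizer (Q : Set G) ⊓ Subgroup.normalizer (R : Set G) : Subgroup G) : Set G) = 2 := hcard
      omega
    have hcomm : t * y = y * t := by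
      calc t * y = y * (y⁻¹ * t * y) := by group
        _ = y * t := by rw [heq]
    have hyo : orderOf y = 11 := by
      have h1 : orderOf (⟨y, hy⟩ : Q) ∣ Nat.card Q := orderOf_dvd_natCard _
      rw [hQ11, Subgroup.orderOf_mk] at h1
      rcases (Nat.dvd_prime (by norm_num : Nat.Prime 11)).1 h1 with h2 | h2
      · exact absurd (orderOf_eq_one_iff.1 h2) hy1
      · exact h2
    have hzy : Subgroup.zpowers y = (Q : Subgroup G) := by
      apply Subgroup.eq_of_le_of_card_ge (Subgroup.zpowers_le.2 hy)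
      rw [Nat.card_zpowers, hyo]
      exact (hQ11 Q).le
    have htC : t ∈ Subgroup.centralizer (Q : Set G) := by
      rw [Subgroup.mem_centralizer_iff]
      intro x hx
      have hx' : x ∈ Subgroup.zpowers y := by rw [hzy]; exact hx
      obtain ⟨k, rfl⟩ := hx'
      exact ((show Commute t y from hcomm).zpow_right k).eq.symm
    have h6 : orderOf (⟨t, htC⟩ : Subgroup.centralizer (Q : Set G)) ∣ _ := orderOf_dvd_natCard _
    rw [hC, Subgroup.orderOf_mk, ht] at h6
    norm_num at h6
  choose! tf htf using ht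
  haveI := Fintype.ofFinite (Sylow 11 G)
  haveI := Fintype.ofFinite G
  have h2 : 66 ≤ {g : G | orderOf g = 2}.ncard := by
    have hcard : (Finset.univ : Finset (Sylow 11 G)).offDiag.card = 132 := by
      rw [Finset.offDiag_card, Finset.card_univ, ← Nat.card_eq_fintype_card, h12]
    have h1 := Finset.card_le_mul_card_image (f := fun x : Sylow 11 G × Sylow 11 G => tf x.1 x.2)
      (s := (Finset.univ : Finset (Sylow 11 G)).offDiag) 2 (by
        intro t ht
        rw [Finset.mem_image] at ht
        obtain ⟨⟨Q, R⟩, hQR, rfl⟩ := ht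
        have hne : R ≠ Q := (Finset.mem_offDiag.1 hQR).2.2.symm
        have hs : (Finset.univ.offDiag.filter fun x : Sylow 11 G × Sylow 11 G => tf x.1 x.2 = tf Q R) ⊆ {(Q, R), (R, Q)} := by
          rintro ⟨A, B⟩ hAB
          rw [Finset.mem_filter, Finset.mem_offDiag] at hAB
          have hBA : B ≠ A := hAB.1.2.2.symm
          have e : tf A B = tf Q R := hAB.2
          have h4 := htf A B hBA
          have h5 := htf Q R hne
          rw [e] at h4
          have hA := h5.2.2.2 A h4.2.1
          have hB := h5.2.2.2 B h4.2.2.1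
          rw [Finset.mem_insert, Finset.mem_singleton]
          rcases hA with rfl | rfl <;> rcases hB with rfl | rfl
          · exact absurd rfl hBA
          · exact Or.inl rfl
          · exact Or.inr rfl
          · exact absurd rfl hBA
        exact (Finset.card_le_card hs).trans Finset.card_le_two)
    rw [hcard] at h1
    have h3 : (((Finset.univ : Finset (Sylow 11 G)).offDiag.image fun x : Sylow 11 G × Sylow 11 G => tf x.1 x.2) : Set G) ⊆
        {g : G | orderOf g = 2} := by
      intro t ht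
      rw [Finset.mem_coe, Finset.mem_image] at ht
      obtain ⟨⟨Q, R⟩, hQR, rfl⟩ := ht
      exact (htf Q R (Finset.mem_offDiag.1 hQR).2.2.symm).1
    have h4 := Set.ncard_le_ncard h3 (Set.toFinite _)
    rw [Set.ncard_coe_finset] at h4
    omega
  -- add up
  have hd : ∀ a b : ℕ, a ≠ b → Disjoint {g : G | orderOf g = a} {g : G | orderOf g = b} := by
    intro a b hab
    rw [Set.disjoint_left]
    intro g h1 h2
    exact hab ((show orderOf g = a from h1).symm.trans h2)
  have hsum : ({g : G | orderOf g = 2} ∪ {g : G | orderOf g = 3} ∪ ({g : G | orderOf g = 6} ∪ {g : G | orderOf g = 11})).ncard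
      ≤ 264 := by
    rw [← hG]
    exact Set.ncard_le_card _
  rw [Set.ncard_union_eq, Set.ncard_union_eq (hd 2 3 (by norm_num)), Set.ncard_union_eq (hd 6 11 (by norm_num))] at hsum
  · omega
  · rw [Set.disjoint_union_left, Set.disjoint_union_right, Set.disjoint_union_right]
    exact ⟨⟨hd _ _ (by norm_num), hd _ _ (by norm_num)⟩, hd _ _ (by norm_num), hd _ _ (by norm_num)⟩

theorem no_faithful (hn : Nat.card (Sylow 3 G) = 22) (hf : ∀ g : G, (∀ P : Sylow 3 G, g • P = P) → g = 1) : False := by
  haveI : Fact (Nat.Prime 11) := ⟨by norm_num⟩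
  obtain ⟨Q⟩ : Nonempty (Sylow 11 G) := inferInstance
  obtain ⟨h12, h | h⟩ := syl11_cases hn hf Q
  · exact no_22 hn hf Q h12 h
  · refine no_264 hn hf h12 (fun Q' => ?_) h.2.1 h.2.2
    obtain ⟨-, h' | h'⟩ := syl11_cases hn hf Q'
    · exact (no_22 hn hf Q' h12 h').elim
    · exact h'.1

end Cfsg.Agent.H29
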