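import Mathlib

set_option autoImplicit false
set_option linter.unusedSectionVars false
set_option linter.style.haveILetI false

/-!
Sylow numbers: quotients, subgroups, counting p-elements; Sylow numbers of PSL(2,17).
-/

namespace Cfsg.Agent.H29.SylNum

open Subgroup
open scoped Pointwise

variable {G H : Type*} [Group G] [Group H] [Finite G] [Finite H]

/-- Sylow numbers of a quotient divide the Sylow numbers of the group. -/
theorem card_sylow_dvd_of_surj (p : ℕ) [Fact p.Prime] (f : G →* H) (hf : Function.Surjective f) :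
    Nat.card (Sylow p H) ∣ Nat.card (Sylow p G) := by
  obtain ⟨P⟩ : Nonempty (Sylow p G) := inferInstance
  set Q : Sylow p H := Sylow.mapSurjective hf P with hQ
  rw [Sylow.card_eq_index_normalizer P, Sylow.card_eq_index_normalizer Q]
  have h1 : ((Subgroup.normalizer (Q : Set H)).comap f).index = (Subgroup.normalizer (Q : Set H)).index :=
    Subgroup.index_comap_of_surjective _ hf
  rw [← h1]
  apply Subgroup.index_dvd_of_le
  intro g hg
  change g ∈ Subgroup.normalizer ((P : Subgroup G) : Set G) at hg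
  change g ∈ (Subgroup.normalizer ((Q : Subgroup H) : Set H)).comap f
  rw [Subgroup.mem_comap, Subgroup.mem_normalizer_iff]
  intro h
  have hQ' : (Q : Subgroup H) = (P : Subgroup G).map f := by
    rw [hQ]; exact Sylow.coe_mapSurjective hf P
  rw [hQ']
  rw [Subgroup.mem_normalizer_iff] at hg
  constructor
  · rintro ⟨x, hx, rfl⟩
    refine ⟨g * x * g⁻¹, (hg x).1 hx, by simp⟩
  · rintro ⟨x, hx, hxe⟩
    refine ⟨g⁻¹ * x * g, ?_, ?_⟩
    · refine (hg (g⁻¹ * x * g)).2 ?_
      have : g * (g⁻¹ * x * g) * g⁻¹ = x := by group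
      rw [this]; exact hx
    · simp only [map_mul, map_inv]
      rw [hxe]; group

/-- If the quotient has at least as many Sylow p-subgroups, the kernel normalizes all Sylow p-subgroups. -/
theorem ker_smul_eq (p : ℕ) [Fact p.Prime] (f : G →* H) (hf : Function.Surjective f)
    (hc : Nat.card (Sylow p G) ≤ Nat.card (Sylow p H)) (P : Sylow p G) {k : G} (hk : f k = 1) : k • P = P := by
  have hs := Sylow.mapSurjective_surjective hf p
  haveI : Finite (Sylow p G) := inferInstance
  haveI : Finite (Sylow p H) := inferInstance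
  have hinj : Function.Injective (Sylow.mapSurjective hf : Sylow p G → Sylow p H) := by
    have hbij : Function.Bijective (Sylow.mapSurjective hf : Sylow p G → Sylow p H) := by
      rw [Nat.bijective_iff_surjective_and_card]
      exact ⟨hs, le_antisymm hc (Nat.card_le_card_of_surjective _ hs)⟩
    exact hbij.1
  apply hinj
  apply Sylow.ext
  rw [Sylow.coe_mapSurjective, Sylow.coe_mapSurjective]
  ext y
  constructor
  · rintro ⟨x, hx, rfl⟩
    have hx' : x ∈ (MulAut.conj k) • (P : Subgroup G) := hx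
    rw [Subgroup.mem_pointwise_smul_iff_inv_smul_mem] at hx'
    refine ⟨_, hx', ?_⟩
    rw [← map_inv, MulAut.smul_def, MulAut.conj_apply]
    simp [hk]
  · rintro ⟨x, hx, rfl⟩
    refine ⟨k * x * k⁻¹, ?_, by simp [hk]⟩
    change k * x * k⁻¹ ∈ (MulAut.conj k) • (P : Subgroup G)
    rw [Subgroup.mem_pointwise_smul_iff_inv_smul_mem, ← map_inv, MulAut.smul_def, MulAut.conj_apply]
    have hx2 : x ∈ (P : Subgroup G) := hx
    have : k⁻¹ * (k * x * k⁻¹) * k⁻¹⁻¹ = x := by group
    rw [this]; exact hx2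

/-- Sylow numbers are monotone. -/
theorem card_sylow_le_of_inj (p : ℕ) [Fact p.Prime] (f : H →* G) (hf : Function.Injective f) :
    Nat.card (Sylow p H) ≤ Nat.card (Sylow p G) := by
  have h1 : ∀ P : Sylow p H, ∃ Q : Sylow p G, (Q : Subgroup G).comap f = P := fun P =>
    P.exists_comap_eq_of_injective hf
  choose F hF using h1
  refine Nat.card_le_card_of_injective F ?_
  intro P Q h
  apply Sylow.ext
  rw [← hF P, ← hF Q, h]

/-- Counting p-elements. -/
theorem card_le_mul_sylow (p : ℕ) [Fact p.Prime] (q : ℕ) (hq : ∀ P : Sylow p G, Nat.card P ≤ q)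
    (S : Finset G) (hS : ∀ x ∈ S, x ≠ 1 ∧ ∃ k : ℕ, x ^ p ^ k = 1) :
    S.card ≤ (q - 1) * Nat.card (Sylow p G) := by
  classical
  haveI := Fintype.ofFinite G
  haveI : Finite (Sylow p G) := inferInstance
  haveI := Fintype.ofFinite (Sylow p G)
  have h1 : S ⊆ Finset.univ.biUnion (fun P : Sylow p G => (Finset.univ.filter (fun x : G => x ∈ (P : Subgroup G))).erase 1) := by
    intro x hx
    obtain ⟨hx1, k, hk⟩ := hS x hx
    have hp : IsPGroup p (zpowers x) := by
      rw [IsPGroup.iff_orderOf]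
      intro g
      obtain ⟨g, hg⟩ := g
      have h2 : orderOf x ∣ p ^ k := orderOf_dvd_of_pow_eq_one hk
      have h3 : orderOf g ∣ orderOf x := by
        obtain ⟨n, rfl⟩ := Subgroup.mem_zpowers_iff.1 hg
        exact orderOf_dvd_of_mem_zpowers ⟨n, rfl⟩
      obtain ⟨j, -, hj⟩ := (Nat.dvd_prime_pow (Fact.out : p.Prime)).1 (h3.trans h2)
      exact ⟨j, by rw [← hj, Subgroup.orderOf_mk]⟩
    obtain ⟨P, hP⟩ := hp.exists_le_sylow
    simp only [Finset.mem_biUnion, Finset.mem_univ, true_and, Finset.mem_erase, Finset.mem_filter]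
    exact ⟨P, hx1, hP (mem_zpowers x)⟩
  refine (Finset.card_le_card h1).trans (Finset.card_biUnion_le.trans ?_)
  have h4 : ∀ P ∈ (Finset.univ : Finset (Sylow p G)), ((Finset.univ.filter (fun x : G => x ∈ (P : Subgroup G))).erase 1).card ≤ q - 1 := by
    intro P _
    rw [Finset.card_erase_of_mem (by simp)]
    have h5 : (Finset.univ.filter (fun x : G => x ∈ (P : Subgroup G))).card = Nat.card P := by
      rw [Nat.card_eq_fintype_card, Fintype.card_subtype]
    rw [h5]
    have := hq P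
    omega
  refine (Finset.sum_le_card_nsmul _ _ _ h4).trans ?_
  rw [Finset.card_univ, smul_eq_mul, mul_comm, Nat.card_eq_fintype_card]

/-! ### SL(2,17) -/

abbrev Z17 := ZMod 17

instance fact17 : Fact (Nat.Prime 17) := ⟨by norm_num⟩

/-- triples (a,b,c) giving determinant one matrices of trace t -/
def TS (t : Z17) : Finset (Z17 × Z17 × Z17) :=
  Finset.univ.filter (fun x => x.1 * (t - x.1) - x.2.1 * x.2.2 = 1)

theorem card_TS3 : (TS 3).card = 272 := by decide +kernel
theorem card_TS4 : (TS 4).card = 272 := by decide +kernel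
theorem card_TS5 : (TS 5).card = 306 := by decide +kernel
theorem card_TS6 : (TS 6).card = 306 := by decide +kernel
theorem card_TS8 : (TS 8).card = 306 := by decide +kernel

/-- the recursion for powers of a matrix with determinant one and trace t -/
def st (t : Z17) (s : Z17 × Z17) : Z17 × Z17 := (t * s.1 + s.2, -s.1)

theorem pow_formula {x : Matrix (Fin 2) (Fin 2) Z17} {t : Z17} (hx : x * x = t • x - 1) (n : ℕ) :
    x ^ n = ((st t)^[n] (0, 1)).1 • x + ((st t)^[n] (0, 1)).2 • (1 : Matrix (Fin 2) (Fin 2) Z17) := by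
  induction n with
  | zero => simp
  | succ n ih =>
    rw [pow_succ, ih, Function.iterate_succ_apply']
    simp only [st]
    rw [add_mul, smul_mul_assoc, hx, smul_mul_assoc, one_mul, smul_sub, add_smul, neg_smul, smul_smul, mul_comm t]
    abel

/-- the matrix of a triple -/
def tm (t : Z17) (x : Z17 × Z17 × Z17) (h : x ∈ TS t) : Matrix.SpecialLinearGroup (Fin 2) Z17 :=
  ⟨!![x.1, x.2.1; x.2.2, t - x.1], by
    rw [Matrix.det_fin_two_of]; exact (Finset.mem_filter.1 h).2⟩

theorem tm_sq {t : Z17} {x : Z17 × Z17 × Z17} (h : x ∈ TS t) :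
    (tm t x h).1 * (tm t x h).1 = t • (tm t x h).1 - 1 := by
  have h1 := (Finset.mem_filter.1 h).2
  have e : (tm t x h).1 = !![x.1, x.2.1; x.2.2, t - x.1] := rfl
  rw [e]
  ext i j
  fin_cases i <;> fin_cases j <;>
    simp [Matrix.mul_apply, Fin.sum_univ_two] <;> first | (ring; done) | linear_combination (-1) * h1

theorem ord3_3 : ((st 3)^[9] (0, 1)).1 = 0 ∧ ((st 3)^[9] (0, 1)).2 ^ 2 = 1 := by decide +kernel
theorem ord3_4 : ((st 4)^[9] (0, 1)).1 = 0 ∧ ((st 4)^[9] (0, 1)).2 ^ 2 = 1 := by decide +kernel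
theorem ord2_5 : ((st 5)^[8] (0, 1)).1 = 0 ∧ ((st 5)^[8] (0, 1)).2 ^ 2 = 1 := by decide +kernel
theorem ord2_6 : ((st 6)^[8] (0, 1)).1 = 0 ∧ ((st 6)^[8] (0, 1)).2 ^ 2 = 1 := by decide +kernel
theorem ord2_8 : ((st 8)^[8] (0, 1)).1 = 0 ∧ ((st 8)^[8] (0, 1)).2 ^ 2 = 1 := by decide +kernel

theorem tm_pow {t : Z17} {x : Z17 × Z17 × Z17} (h : x ∈ TS t) (n : ℕ) (h0 : ((st t)^[n] (0, 1)).1 = 0) :
    ((tm t x h) ^ n).1 = ((st t)^[n] (0, 1)).2 • (1 : Matrix (Fin 2) (Fin 2) Z17) := by
  rw [Matrix.SpecialLinearGroup.coe_pow, pow_formula (tm_sq h) n, h0]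
  simp

/-- Injectivity of the parametrization modulo scalars. -/
theorem tm_inj {M : Type*} [Group M] (f : Matrix.SpecialLinearGroup (Fin 2) Z17 →* M)
    (hf : ∀ x y, f x = f y → ∃ r : Z17, r ^ 2 = 1 ∧ y.1 = r • x.1)
    {t t' : Z17} (htt : t ≠ -t') (ht : t ≠ 0) {x y : Z17 × Z17 × Z17} (hx : x ∈ TS t) (hy : y ∈ TS t')
    (h : f (tm t x hx) = f (tm t' y hy)) : t = t' ∧ x = y := by
  obtain ⟨r, hr, hxy⟩ := hf _ _ h
  have e1 : (tm t x hx).1 = !![x.1, x.2.1; x.2.2, t - x.1] := rfl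
  have e2 : (tm t' y hy).1 = !![y.1, y.2.1; y.2.2, t' - y.1] := rfl
  rw [e1, e2] at hxy
  have h00 := congrFun (congrFun hxy 0) 0
  have h01 := congrFun (congrFun hxy 0) 1
  have h10 := congrFun (congrFun hxy 1) 0
  have h11 := congrFun (congrFun hxy 1) 1
  simp at h00 h01 h10 h11
  have hr' : r = 1 ∨ r = -1 := mul_self_eq_one_iff.1 (by rw [← sq]; exact hr)
  have ht' : t' = r * t := by linear_combination h00 + h11
  rcases hr' with rfl | rfl
  · rw [one_mul] at h00 h01 h10 ht'
    exact ⟨ht'.symm, Prod.ext h00.symm (Prod.ext h01.symm h10.symm)⟩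
  · exact absurd (by rw [ht']; ring) htt

section count
variable {M : Type*} [Group M] [Finite M]

open Classical in
/-- images of the matrices of trace t -/
noncomputable def IM (f : Matrix.SpecialLinearGroup (Fin 2) Z17 →* M) (t : Z17) : Finset M :=
  (TS t).attach.image (fun x => f (tm t x.1 x.2))

variable (f : Matrix.SpecialLinearGroup (Fin 2) Z17 →* M)
  (hf : ∀ x y, f x = f y → ∃ r : Z17, r ^ 2 = 1 ∧ y.1 = r • x.1)
include hf

theorem card_IM {t : Z17} (ht : t ≠ 0) (ht2 : t ≠ -t) : (IM f t).card = (TS t).card := by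
  classical
  unfold IM
  rw [Finset.card_image_of_injective, Finset.card_attach]
  rintro ⟨x, hx⟩ ⟨y, hy⟩ h
  exact Subtype.ext (tm_inj f hf ht2 ht hx hy h).2

theorem disj_IM {t t' : Z17} (ht : t ≠ 0) (ht2 : t ≠ -t') (hne : t ≠ t') : Disjoint (IM f t) (IM f t') := by
  classical
  rw [Finset.disjoint_left]
  intro z h1 h2
  unfold IM at h1 h2
  obtain ⟨⟨x, hx⟩, -, h1⟩ := Finset.mem_image.1 h1
  obtain ⟨⟨y, hy⟩, -, h2⟩ := Finset.mem_image.1 h2
  exact hne (tm_inj f hf ht2 ht hx hy (h1.trans h2.symm)).1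

omit [Finite M] in
theorem ker_scalar (hc : ∀ x : Matrix.SpecialLinearGroup (Fin 2) Z17, ∀ r : Z17, r ^ 2 = 1 → x.1 = r • (1 : Matrix (Fin 2) (Fin 2) Z17) → f x = 1)
    {t : Z17} (n : ℕ) (h0 : ((st t)^[n] (0, 1)).1 = 0 ∧ ((st t)^[n] (0, 1)).2 ^ 2 = 1) {z : M} (hz : z ∈ IM f t) : z ^ n = 1 := by
  classical
  unfold IM at hz
  obtain ⟨⟨x, hx⟩, -, rfl⟩ := Finset.mem_image.1 hz
  rw [← map_pow]
  exact hc _ _ h0.2 (tm_pow hx n h0.1)

theorem ne_one_IM {t : Z17} (h2 : t ≠ 2) (h2' : t ≠ -2) {z : M} (hz : z ∈ IM f t) : z ≠ 1 := by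
  classical
  unfold IM at hz
  obtain ⟨⟨x, hx⟩, -, rfl⟩ := Finset.mem_image.1 hz
  intro h1
  obtain ⟨r, hr, hxy⟩ := hf 1 (tm t x hx) (by rw [map_one]; exact h1.symm)
  have e1 : (tm t x hx).1 = !![x.1, x.2.1; x.2.2, t - x.1] := rfl
  rw [e1] at hxy
  have h00 := congrFun (congrFun hxy 0) 0
  have h11 := congrFun (congrFun hxy 1) 1
  simp at h00 h11
  have hr' : r = 1 ∨ r = -1 := mul_self_eq_one_iff.1 (by rw [← sq]; exact hr)
  rcases hr' with rfl | rfl
  · apply h2; linear_combination h00 + h11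
  · apply h2'; linear_combination h00 + h11

theorem bound3 (hc : ∀ x : Matrix.SpecialLinearGroup (Fin 2) Z17, ∀ r : Z17, r ^ 2 = 1 → x.1 = r • (1 : Matrix (Fin 2) (Fin 2) Z17) → f x = 1)
    [Fact (Nat.Prime 3)] (hS : ∀ P : Sylow 3 M, Nat.card P ≤ 9) : 68 ≤ Nat.card (Sylow 3 M) := by
  classical
  have h1 := card_le_mul_sylow (G := M) 3 9 hS (IM f 3 ∪ IM f 4) (by
    intro x hx
    rcases Finset.mem_union.1 hx with h | h
    · exact ⟨ne_one_IM f hf (by decide) (by decide) h, 2, ker_scalar f hf hc 9 ord3_3 h⟩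
    · exact ⟨ne_one_IM f hf (by decide) (by decide) h, 2, ker_scalar f hf hc 9 ord3_4 h⟩)
  rw [Finset.card_union_of_disjoint (disj_IM f hf (by decide) (by decide) (by decide)),
    card_IM f hf (by decide) (by decide), card_IM f hf (by decide) (by decide), card_TS3, card_TS4] at h1
  omega

theorem bound2 (hc : ∀ x : Matrix.SpecialLinearGroup (Fin 2) Z17, ∀ r : Z17, r ^ 2 = 1 → x.1 = r • (1 : Matrix (Fin 2) (Fin 2) Z17) → f x = 1)
    [Fact (Nat.Prime 2)] (hS : ∀ P : Sylow 2 M, Nat.card P ≤ 16) : 62 ≤ Nat.card (Sylow 2 M) := by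
  classical
  have h1 := card_le_mul_sylow (G := M) 2 16 hS (IM f 5 ∪ IM f 6 ∪ IM f 8) (by
    intro x hx
    rcases Finset.mem_union.1 hx with h | h
    · rcases Finset.mem_union.1 h with h | h
      · exact ⟨ne_one_IM f hf (by decide) (by decide) h, 3, ker_scalar f hf hc 8 ord2_5 h⟩
      · exact ⟨ne_one_IM f hf (by decide) (by decide) h, 3, ker_scalar f hf hc 8 ord2_6 h⟩
    · exact ⟨ne_one_IM f hf (by decide) (by decide) h, 3, ker_scalar f hf hc 8 ord2_8 h⟩)
  rw [Finset.card_union_of_disjoint (Finset.disjoint_union_left.2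
      ⟨disj_IM f hf (by decide) (by decide) (by decide), disj_IM f hf (by decide) (by decide) (by decide)⟩),
    Finset.card_union_of_disjoint (disj_IM f hf (by decide) (by decide) (by decide)),
    card_IM f hf (by decide) (by decide), card_IM f hf (by decide) (by decide),
    card_IM f hf (by decide) (by decide), card_TS5, card_TS6, card_TS8] at h1
  omega

end count

end Cfsg.Agent.H29.SylNum
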