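import Cfsg.Agent.H29.SylNum
import Cfsg.Agent.H9.Syl
import Cfsg.Agent.H9.Count

set_option autoImplicit false
set_option linter.unusedSectionVars false
set_option linter.style.haveILetI false

/-!
Sylow numbers: further lemmas (kernels normalizing Sylow subgroups).
-/

namespace Cfsg.Agent.H29.SylNum

open Subgroup
open scoped Pointwise

variable {G : Type*} [Group G] [Finite G]

/-- Coprime action count: `|P| ≡ |P ∩ N(Q)|` mod r. -/
theorem card_modEq_normalizer {p r : ℕ} [Fact p.Prime] [Fact r.Prime] (hpr : p ≠ r) (P Q : Subgroup G)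
    (hP : IsPGroup p P) (hQ : IsPGroup r Q) (hn : ∀ q ∈ Q, ∀ y ∈ P, q * y * q⁻¹ ∈ P) :
    Nat.card P ≡ Nat.card (P ⊓ normalizer (Q : Set G) : Subgroup G) [MOD r] := by
  letI act : MulAction Q P :=
    { smul := fun q y => ⟨q.1 * y.1 * q.1⁻¹, hn q.1 q.2 y.1 y.2⟩
      one_smul := fun y => Subtype.ext (by change (1 : G) * y.1 * (1 : G)⁻¹ = y.1; simp)
      mul_smul := fun a b y => Subtype.ext (by
        change (a.1 * b.1) * y.1 * (a.1 * b.1)⁻¹ = a.1 * (b.1 * y.1 * b.1⁻¹) * a.1⁻¹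
        group) }
  have hsm : ∀ (q : Q) (y : P), ((q • y : P) : G) = q.1 * y.1 * q.1⁻¹ := fun _ _ => rfl
  haveI : Finite P := inferInstance
  have h1 := hQ.card_modEq_card_fixedPoints P
  refine h1.trans ?_
  have h2 : Nat.card (MulAction.fixedPoints Q P) = Nat.card (P ⊓ normalizer (Q : Set G) : Subgroup G) := by
    have hdis : P ⊓ Q = ⊥ := (IsPGroup.disjoint_of_ne p r hpr P Q hP hQ).eq_bot
    refine Nat.card_congr
      { toFun := fun y => ⟨y.1.1, y.1.2, ?_⟩
        invFun := fun y => ⟨⟨y.1, y.2.1⟩, ?_⟩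
        left_inv := fun y => rfl
        right_inv := fun y => rfl }
    · change y.1.1 ∈ normalizer ((Q : Subgroup G) : Set G)
      rw [Subgroup.mem_normalizer_iff]
      have hc : ∀ q ∈ Q, q * y.1.1 * q⁻¹ = y.1.1 := fun q hq => by
        have := y.2 ⟨q, hq⟩
        have := congrArg Subtype.val this
        rwa [hsm] at this
      have hc' : ∀ q ∈ Q, y.1.1 * q * y.1.1⁻¹ = q := fun q hq => by
        have h := hc q hq
        rw [mul_inv_eq_iff_eq_mul] at h
        rw [← h]; group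
      intro q
      constructor
      · intro hq; rw [hc' q hq]; exact hq
      · intro hq
        have h := hc' _ hq
        have : q = y.1.1 * q * y.1.1⁻¹ := by
          have h' := congrArg (fun z => y.1.1⁻¹ * z * y.1.1) h
          have e1 : y.1.1⁻¹ * (y.1.1 * (y.1.1 * q * y.1.1⁻¹) * y.1.1⁻¹) * y.1.1 = y.1.1 * q * y.1.1⁻¹ := by group
          have e2 : y.1.1⁻¹ * (y.1.1 * q * y.1.1⁻¹) * y.1.1 = q := by group
          rw [e1, e2] at h'
          exact h'.symm
        rw [this]; exact hq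
    · intro q
      apply Subtype.ext
      rw [hsm]
      have hy := y.2.2
      have hy' : y.1 ∈ normalizer ((Q : Subgroup G) : Set G) := hy
      rw [Subgroup.mem_normalizer_iff] at hy'
      have h1 : q.1 * y.1 * q.1⁻¹ * y.1⁻¹ ∈ P := P.mul_mem (hn _ q.2 _ y.2.1) (P.inv_mem y.2.1)
      have h2 : q.1 * (y.1 * q.1⁻¹ * y.1⁻¹) ∈ Q := Q.mul_mem q.2 ((hy' _).1 (Q.inv_mem q.2))
      have h3 : q.1 * y.1 * q.1⁻¹ * y.1⁻¹ ∈ P ⊓ Q := ⟨h1, by
        have e : q.1 * y.1 * q.1⁻¹ * y.1⁻¹ = q.1 * (y.1 * q.1⁻¹ * y.1⁻¹) := by group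
        rw [e]; exact h2⟩
      rw [hdis, Subgroup.mem_bot] at h3
      exact mul_inv_eq_one.1 h3
  rw [h2]

/-- For every Sylow `r`-subgroup `Q` there is a Sylow `p`-subgroup `P` with `P ∩ N(Q)` Sylow in `N(Q)`:
`|P| = |P ∩ N(Q)| * (n_r)_p`. -/
theorem exists_sylow_inf {p r a m : ℕ} [Fact p.Prime] [Fact r.Prime] (Q : Sylow r G)
    (hn : Nat.card (Sylow r G) = p ^ a * m) (hm : ¬ p ∣ m) :
    ∃ P : Sylow p G, Nat.card (P : Subgroup G) = p ^ a * Nat.card ((P : Subgroup G) ⊓ normalizer ((Q : Subgroup G) : Set G) : Subgroup G) := by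
  set N : Subgroup G := normalizer ((Q : Subgroup G) : Set G) with hN
  obtain ⟨S⟩ : Nonempty (Sylow p N) := inferInstance
  have hS : IsPGroup p ((S : Subgroup N).map N.subtype) := S.2.map _
  obtain ⟨P, hP⟩ := hS.exists_le_sylow
  refine ⟨P, ?_⟩
  have h1 : (P : Subgroup G).subgroupOf N = S := by
    apply S.3
    · exact P.2.comap_of_injective N.subtype N.subtype_injective
    · intro x hx
      rw [Subgroup.mem_subgroupOf]
      exact hP ⟨x, hx, rfl⟩
  have h2 : Nat.card ((P : Subgroup G) ⊓ N : Subgroup G) = Nat.card S := by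
    have h3 : ((P : Subgroup G) ⊓ N : Subgroup G) = ((P : Subgroup G).subgroupOf N).map N.subtype := by
      rw [Subgroup.subgroupOf_map_subtype]
    rw [h3, h1, Nat.card_congr ((S : Subgroup N).equivMapOfInjective N.subtype N.subtype_injective).symm.toEquiv]
  rw [h2, P.card_eq_multiplicity, S.card_eq_multiplicity]
  have h4 := Cfsg.Agent.H9.Syl.card_normalizer_mul Q
  rw [← hN, hn] at h4
  have hNpos : Nat.card N ≠ 0 := Nat.card_pos.ne'
  have hpa : p ^ a * m ≠ 0 := by
    rw [← hn]; exact Nat.card_pos.ne'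
  rw [← h4, Nat.factorization_mul hNpos hpa]
  have hp0 : p ^ a ≠ 0 := fun h => hpa (by rw [h, zero_mul])
  have hm0 : m ≠ 0 := fun h => hpa (by rw [h, mul_zero])
  rw [Nat.factorization_mul hp0 hm0]
  have hpp : p.Prime := Fact.out
  simp only [Finsupp.add_apply]
  rw [Nat.Prime.factorization_pow hpp, Finsupp.single_eq_same, Nat.factorization_eq_zero_of_not_dvd hm, add_zero,
    pow_add, mul_comm]

/-- A nontrivial normal `p`-subgroup meets the centre of a `p`-subgroup. -/
theorem exists_central {p : ℕ} [Fact p.Prime] (P A : Subgroup G) (hP : IsPGroup p P) (hA : IsPGroup p A)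
    (hA1 : A ≠ ⊥) (hn : ∀ q ∈ P, ∀ y ∈ A, q * y * q⁻¹ ∈ A) : ∃ z ∈ A, z ≠ 1 ∧ ∀ x ∈ P, x * z = z * x := by
  letI act : MulAction P A :=
    { smul := fun q y => ⟨q.1 * y.1 * q.1⁻¹, hn q.1 q.2 y.1 y.2⟩
      one_smul := fun y => Subtype.ext (by change (1 : G) * y.1 * (1 : G)⁻¹ = y.1; simp)
      mul_smul := fun a b y => Subtype.ext (by
        change (a.1 * b.1) * y.1 * (a.1 * b.1)⁻¹ = a.1 * (b.1 * y.1 * b.1⁻¹) * a.1⁻¹
        group) }
  have hsm : ∀ (q : P) (y : A), ((q • y : A) : G) = q.1 * y.1 * q.1⁻¹ := fun _ _ => rfl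
  haveI : Finite A := inferInstance
  have hpA : p ∣ Nat.card A := by
    obtain ⟨n, hn⟩ := IsPGroup.iff_card.1 hA
    rw [hn]
    apply dvd_pow_self
    rintro rfl
    rw [pow_zero] at hn
    exact hA1 (Subgroup.card_eq_one.1 hn)
  obtain ⟨b, hb, hb1⟩ := hP.exists_fixed_point_of_prime_dvd_card_of_fixed_point A hpA (a := (1 : A)) (by
    intro q; apply Subtype.ext; rw [hsm]; simp)
  refine ⟨b.1, b.2, fun h => hb1 (Subtype.ext h.symm), fun x hx => ?_⟩
  have := congrArg Subtype.val (hb ⟨x, hx⟩)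
  rw [hsm] at this
  exact mul_inv_eq_iff_eq_mul.1 this

/-- A normal subgroup which normalizes every Sylow subgroup of a group with trivial centre is trivial. -/
theorem eq_bot_of_norm_sylows (K : Subgroup G) [K.Normal] (hZ : Subgroup.center G = ⊥)
    (hK : ∀ (p : ℕ) [Fact p.Prime], p ∣ Nat.card G → ∀ P : Sylow p G, ∀ k ∈ K, k • P = P) : K = ⊥ := by
  by_contra hne
  have hK1 : Nat.card K ≠ 1 := fun h => hne (Subgroup.card_eq_one.1 h)
  obtain ⟨p, hp, hpK⟩ := Nat.exists_prime_and_dvd hK1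
  haveI : Fact p.Prime := ⟨hp⟩
  have hpG : p ∣ Nat.card G := hpK.trans (Subgroup.card_subgroup_dvd_card K)
  obtain ⟨P⟩ : Nonempty (Sylow p G) := inferInstance
  set A : Subgroup G := (P : Subgroup G) ⊓ K with hA
  -- A is normal
  have hmem : ∀ x ∈ K, IsPGroup p (zpowers x) → x ∈ A := by
    intro x hx hxp
    refine ⟨?_, hx⟩
    obtain ⟨Q, hQ⟩ := hxp.exists_le_sylow
    have h1 := hK p hpG P x hx
    exact (Cfsg.Agent.H9.Count.smul_eq_iff_of_mem hxp (mem_zpowers x)).1 h1
  have hAp : IsPGroup p A := P.2.to_le inf_le_left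
  have hAn : ∀ g : G, ∀ y ∈ A, g * y * g⁻¹ ∈ A := by
    intro g y hy
    apply hmem _ (Subgroup.Normal.conj_mem inferInstance y hy.2 g)
    have h1 : IsPGroup p (zpowers y) := P.2.to_le (by
      rw [zpowers_le]; exact hy.1)
    have h2 : zpowers (g * y * g⁻¹) = (zpowers y).map (MulAut.conj g).toMonoidHom := by
      rw [MonoidHom.map_zpowers]; rfl
    rw [h2]; exact h1.map _
  have hA1 : A ≠ ⊥ := by
    obtain ⟨x, hx⟩ := exists_prime_orderOf_dvd_card' (G := K) p hpK
    intro h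
    have h1 : (x : G) ∈ A := hmem _ x.2 (by
      rw [IsPGroup.iff_card, Nat.card_zpowers]
      exact ⟨1, by rw [Subgroup.orderOf_coe, hx, pow_one]⟩)
    rw [h, Subgroup.mem_bot] at h1
    have : x = 1 := Subtype.ext h1
    rw [this, orderOf_one] at hx
    exact hp.one_lt.ne hx
  obtain ⟨z, hzA, hz1, hzP⟩ := exists_central (P : Subgroup G) A P.2 hAp hA1 (fun q _ y hy => hAn q y hy)
  -- the centralizer of z contains a Sylow q-subgroup for every q
  have hC : ∀ q : ℕ, q.Prime → q ∣ Nat.card G → ¬ q ∣ (centralizer ({z} : Set G)).index := by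
    intro q hq hqG hdiv
    haveI : Fact q.Prime := ⟨hq⟩
    by_cases hqp : q = p
    · subst hqp
      have h1 : (P : Subgroup G) ≤ centralizer ({z} : Set G) := by
        intro x hx
        rw [Subgroup.mem_centralizer_singleton_iff]
        exact hzP x hx
      exact P.not_dvd_index (hdiv.trans (Subgroup.index_dvd_of_le h1))
    · obtain ⟨Q⟩ : Nonempty (Sylow q G) := inferInstance
      have hdis : A ⊓ (Q : Subgroup G) = ⊥ := (IsPGroup.disjoint_of_ne p q (Ne.symm hqp) A Q hAp Q.2).eq_bot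
      have h1 : (Q : Subgroup G) ≤ centralizer ({z} : Set G) := by
        intro x hx
        rw [Subgroup.mem_centralizer_singleton_iff]
        have hzQ := hK q hqG Q z hzA.2
        have h2 : z * x⁻¹ * z⁻¹ ∈ (Q : Subgroup G) := by
          have := Cfsg.Agent.H9.Syl.smul_mem_smul (g := z) (Q.1.inv_mem hx)
          rwa [hzQ] at this
        have h3 : x * z * x⁻¹ * z⁻¹ ∈ A ⊓ (Q : Subgroup G) := by
          refine ⟨A.mul_mem (hAn x z hzA) (A.inv_mem hzA), ?_⟩
          have e : x * z * x⁻¹ * z⁻¹ = x * (z * x⁻¹ * z⁻¹) := by group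
          rw [e]; exact Q.1.mul_mem hx h2
        rw [hdis, Subgroup.mem_bot] at h3
        exact mul_inv_eq_iff_eq_mul.1 (mul_inv_eq_one.1 h3)
      exact Q.not_dvd_index (hdiv.trans (Subgroup.index_dvd_of_le h1))
  have hC1 : (centralizer ({z} : Set G)).index = 1 := by
    by_contra h
    obtain ⟨q, hq, hqd⟩ := Nat.exists_prime_and_dvd h
    exact hC q hq (hqd.trans (Subgroup.index_dvd_card _)) hqd
  rw [Subgroup.index_eq_one] at hC1
  have hzc : z ∈ Subgroup.center G := by
    rw [Subgroup.mem_center_iff]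
    intro g
    have : g ∈ centralizer ({z} : Set G) := by rw [hC1]; trivial
    rw [Subgroup.mem_centralizer_singleton_iff] at this
    exact this
  rw [hZ, Subgroup.mem_bot] at hzc
  exact hz1 hzc

end Cfsg.Agent.H29.SylNum
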