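import Mathlib

/-!
# Non-scalar invertible `3 × 3` matrices: a normal form with prescribed minors (helper29)
-/

set_option autoImplicit false
set_option linter.style.haveILetI false
set_option linter.unusedSectionVars false
set_option linter.unusedSimpArgs false

namespace Cfsg.Agent.H29.ThreeFac

open Matrix

variable {F : Type*} [Field F]

/-- the determinant of three vectors -/
def D (a b c : Fin 3 → F) : F := (Matrix.of ![a, b, c]).det

theorem D_eq (a b c : Fin 3 → F) : D a b c = a 0 * b 1 * c 2 - a 0 * b 2 * c 1 - a 1 * b 0 * c 2 +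
    a 1 * b 2 * c 0 + a 2 * b 0 * c 1 - a 2 * b 1 * c 0 := by
  unfold D
  rw [Matrix.det_fin_three]
  simp [Matrix.of_apply]

theorem mv (M : Matrix (Fin 3) (Fin 3) F) (v : Fin 3 → F) (i : Fin 3) :
    (M *ᵥ v) i = M i 0 * v 0 + M i 1 * v 1 + M i 2 * v 2 := by
  rw [Matrix.mulVec, dotProduct, Fin.sum_univ_three]

/-- a nonscalar matrix moves some line -/
theorem exists_v (M : Matrix (Fin 3) (Fin 3) F) (hns : ∀ c : F, M ≠ c • (1 : Matrix (Fin 3) (Fin 3) F)) :
    ∃ v t : Fin 3 → F, D v (M *ᵥ v) t ≠ 0 := by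
  by_contra hcon
  push Not at hcon
  have h10 : M 1 0 = 0 := by
    have := hcon ![1, 0, 0] ![0, 0, 1]
    rw [D_eq] at this; simpa [mv] using this
  have h20 : M 2 0 = 0 := by
    have := hcon ![1, 0, 0] ![0, 1, 0]
    rw [D_eq] at this; simpa [mv] using this
  have h01 : M 0 1 = 0 := by
    have := hcon ![0, 1, 0] ![0, 0, 1]
    rw [D_eq] at this; simpa [mv] using this
  have h21 : M 2 1 = 0 := by
    have := hcon ![0, 1, 0] ![1, 0, 0]
    rw [D_eq] at this; simpa [mv] using this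
  have h02 : M 0 2 = 0 := by
    have := hcon ![0, 0, 1] ![0, 1, 0]
    rw [D_eq] at this; simpa [mv] using this
  have h12 : M 1 2 = 0 := by
    have := hcon ![0, 0, 1] ![1, 0, 0]
    rw [D_eq] at this; simpa [mv] using this
  have h1 : M 1 1 = M 0 0 := by
    have := hcon ![1, 1, 0] ![0, 0, 1]
    rw [D_eq] at this
    simp [mv, h01, h10, h02, h12, h20, h21] at this
    linear_combination this
  have h2 : M 2 2 = M 1 1 := by
    have := hcon ![0, 1, 1] ![1, 0, 0]
    rw [D_eq] at this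
    simp [mv, h01, h10, h02, h12, h20, h21] at this
    linear_combination this
  apply hns (M 0 0)
  ext i j
  fin_cases i <;> fin_cases j <;> simp [h01, h10, h02, h12, h20, h21, h1, h2]

theorem D_kernel {a b c n : Fin 3 → F} (hn : n ≠ 0) (ha : a 0 * n 0 + a 1 * n 1 + a 2 * n 2 = 0)
    (hb : b 0 * n 0 + b 1 * n 1 + b 2 * n 2 = 0) (hc : c 0 * n 0 + c 1 * n 1 + c 2 * n 2 = 0) :
    D a b c = 0 := by
  unfold D
  rw [← Matrix.exists_mulVec_eq_zero_iff]
  refine ⟨n, hn, ?_⟩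
  ext i
  rw [mv]
  fin_cases i
  · exact ha
  · exact hb
  · exact hc

theorem D_mul (M : Matrix (Fin 3) (Fin 3) F) (a b c : Fin 3 → F) :
    D (M *ᵥ a) (M *ᵥ b) (M *ᵥ c) = M.det * D a b c := by
  rw [D_eq, D_eq, Matrix.det_fin_three]
  simp only [mv]
  ring

/-- the two vectors -/
theorem exists_vu (M : Matrix (Fin 3) (Fin 3) F) (hdet : M.det ≠ 0)
    (hns : ∀ c : F, M ≠ c • (1 : Matrix (Fin 3) (Fin 3) F)) :
    ∃ v u : Fin 3 → F, D v (M *ᵥ v) (M *ᵥ u) ≠ 0 ∧ D u (M *ᵥ u) v ≠ 0 := by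
  obtain ⟨v, t, hvt⟩ := exists_v M hns
  by_cases hcyc : D v (M *ᵥ v) (M *ᵥ (M *ᵥ v)) = 0
  · have hA : D v (M *ᵥ v) (M *ᵥ t) ≠ 0 := by
      intro hz
      set n : Fin 3 → F := ![v 1 * (M *ᵥ v) 2 - v 2 * (M *ᵥ v) 1,
        v 2 * (M *ᵥ v) 0 - v 0 * (M *ᵥ v) 2, v 0 * (M *ᵥ v) 1 - v 1 * (M *ᵥ v) 0] with hn
      have hD : ∀ x : Fin 3 → F, x 0 * n 0 + x 1 * n 1 + x 2 * n 2 = D v (M *ᵥ v) x := by
        intro x
        rw [D_eq, hn]
        simp only [Matrix.cons_val_zero, Matrix.cons_val_one, Matrix.cons_val]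
        ring
      have hn0 : n ≠ 0 := by
        intro h
        apply hvt
        rw [← hD, h]; simp
      have h1 := D_kernel hn0 (a := M *ᵥ v) (b := M *ᵥ (M *ᵥ v)) (c := M *ᵥ t)
        (by rw [hD, D_eq]; ring) (by rw [hD, hcyc]) (by rw [hD, hz])
      rw [D_mul] at h1
      rcases mul_eq_zero.1 h1 with h | h
      · exact hdet h
      · exact hvt h
    by_cases hE : D t (M *ᵥ t) v = 0
    · refine ⟨v, t + v, ?_, ?_⟩
      · have : D v (M *ᵥ v) (M *ᵥ (t + v)) = D v (M *ᵥ v) (M *ᵥ t) := by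
          rw [Matrix.mulVec_add, D_eq, D_eq]
          simp only [Pi.add_apply]
          ring
        rw [this]; exact hA
      · have : D (t + v) (M *ᵥ (t + v)) v = D t (M *ᵥ t) v - D v (M *ᵥ v) t := by
          rw [Matrix.mulVec_add, D_eq, D_eq, D_eq]
          simp only [Pi.add_apply]
          ring
        rw [this, hE, zero_sub, neg_ne_zero]
        exact hvt
    · exact ⟨v, t, hA, hE⟩
  · refine ⟨v, M *ᵥ v, hcyc, ?_⟩
    intro h
    apply hcyc
    rw [← h, D_eq, D_eq]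
    ring

/-- a functional with prescribed values on a basis -/
theorem exists_fun {a b c : Fin 3 → F} (h : D a b c ≠ 0) (x y z : F) : ∃ f : Fin 3 → F,
    a 0 * f 0 + a 1 * f 1 + a 2 * f 2 = x ∧ b 0 * f 0 + b 1 * f 1 + b 2 * f 2 = y ∧
      c 0 * f 0 + c 1 * f 1 + c 2 * f 2 = z := by
  have hu : IsUnit (Matrix.of ![a, b, c]).det := Ne.isUnit h
  have h1 : (Matrix.of ![a, b, c]) *ᵥ ((Matrix.of ![a, b, c])⁻¹ *ᵥ ![x, y, z]) = ![x, y, z] := by
    rw [Matrix.mulVec_mulVec, Matrix.mul_nonsing_inv _ hu, Matrix.one_mulVec]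
  refine ⟨(Matrix.of ![a, b, c])⁻¹ *ᵥ ![x, y, z], ?_, ?_, ?_⟩
  · have := congrFun h1 0
    rw [mv] at this
    simpa using this
  · have := congrFun h1 1
    rw [mv] at this
    simpa using this
  · have := congrFun h1 2
    rw [mv] at this
    simpa using this

/-- **normal form** -/
theorem normal_form (M : Matrix (Fin 3) (Fin 3) F) (hdet : M.det = 1)
    (hns : ∀ c : F, M ≠ c • (1 : Matrix (Fin 3) (Fin 3) F)) (d e : F) :
    ∃ N M' : Matrix (Fin 3) (Fin 3) F, N.det = 1 ∧ M'.det = 1 ∧ M * N = N * M' ∧ M' 0 0 = d ∧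
      M' 0 0 * M' 1 1 - M' 0 1 * M' 1 0 = e ∧ M' 0 0 * M' 1 2 - M' 0 2 * M' 1 0 ≠ 0 := by
  obtain ⟨v, u, h1, h2⟩ := exists_vu M (by rw [hdet]; exact one_ne_zero) hns
  set w := M *ᵥ u with hw
  obtain ⟨f, hf1, hf2, hf3⟩ := exists_fun h1 1 d 0
  have h3 : D w u v ≠ 0 := by
    intro h
    apply h2
    have : D u w v = - D w u v := by rw [D_eq, D_eq]; ring
    rw [this, h, neg_zero]
  obtain ⟨g, hg1, hg2, hg3⟩ := exists_fun h3 1 e 0
  set x : Fin 3 → F := ![g 1 * f 2 - g 2 * f 1, g 2 * f 0 - g 0 * f 2, g 0 * f 1 - g 1 * f 0] with hx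
  have x0 : x 0 = g 1 * f 2 - g 2 * f 1 := rfl
  have x1 : x 1 = g 2 * f 0 - g 0 * f 2 := rfl
  have x2 : x 2 = g 0 * f 1 - g 1 * f 0 := rfl
  let N : Matrix (Fin 3) (Fin 3) F := Matrix.of ![![v 0, x 0, w 0], ![v 1, x 1, w 1], ![v 2, x 2, w 2]]
  have n0 : ∀ i, N i 0 = v i := by intro i; fin_cases i <;> rfl
  have n1 : ∀ i, N i 1 = x i := by intro i; fin_cases i <;> rfl
  have n2 : ∀ i, N i 2 = w i := by intro i; fin_cases i <;> rfl
  have hN : N.det = 1 := by
    rw [Matrix.det_fin_three]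
    simp only [n0, n1, n2, x0, x1, x2]
    have key : (v 0 * f 0 + v 1 * f 1 + v 2 * f 2) * (w 0 * g 0 + w 1 * g 1 + w 2 * g 2) -
        (w 0 * f 0 + w 1 * f 1 + w 2 * f 2) * (v 0 * g 0 + v 1 * g 1 + v 2 * g 2) = 1 := by
      rw [hf1, hg1, hf3, hg3]; ring
    linear_combination key
  have hNu : IsUnit N.det := by rw [hN]; exact isUnit_one
  have hNN : N * N⁻¹ = 1 := Matrix.mul_nonsing_inv _ hNu
  have hNN' : N⁻¹ * N = 1 := Matrix.nonsing_inv_mul _ hNu
  set M' := N⁻¹ * M * N with hM'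
  have hM'd : M'.det = 1 := by
    rw [hM', Matrix.det_mul, Matrix.det_mul, hdet, mul_one, ← Matrix.det_mul, hNN', Matrix.det_one]
  have hMN : M * N = N * M' := by
    rw [hM', ← mul_assoc, ← mul_assoc, hNN, one_mul]
  -- rows of the inverse
  have hrow0 : ∀ j, N⁻¹ 0 j = f j := by
    have e1 : f ᵥ* N = Pi.single 0 1 := by
      ext j
      rw [Matrix.vecMul, dotProduct, Fin.sum_univ_three]
      fin_cases j
      · simp only [Fin.zero_eta, n0]; rw [Pi.single_eq_same]; linear_combination hf1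
      · simp only [Fin.mk_one, n1, x0, x1, x2]; rw [Pi.single_eq_of_ne (by decide)]; ring
      · simp only [Fin.reduceFinMk, n2]; rw [Pi.single_eq_of_ne (by decide)]; linear_combination hf3
    have e2 : f = (Pi.single 0 1) ᵥ* N⁻¹ := by
      rw [← e1, Matrix.vecMul_vecMul, hNN, Matrix.vecMul_one]
    intro j
    rw [e2, Matrix.single_one_vecMul]
    rfl
  have hrow2 : ∀ j, N⁻¹ 2 j = g j := by
    have e1 : g ᵥ* N = Pi.single 2 1 := by
      ext j
      rw [Matrix.vecMul, dotProduct, Fin.sum_univ_three]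
      fin_cases j
      · simp only [Fin.zero_eta, n0]; rw [Pi.single_eq_of_ne (by decide)]; linear_combination hg3
      · simp only [Fin.mk_one, n1, x0, x1, x2]; rw [Pi.single_eq_of_ne (by decide)]; ring
      · simp only [Fin.reduceFinMk, n2]; rw [Pi.single_eq_same]; linear_combination hg1
    have e2 : g = (Pi.single 2 1) ᵥ* N⁻¹ := by
      rw [← e1, Matrix.vecMul_vecMul, hNN, Matrix.vecMul_one]
    intro j
    rw [e2, Matrix.single_one_vecMul]
    rfl
  have hcol0 : N *ᵥ Pi.single 0 1 = v := by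
    ext i; rw [Matrix.mulVec_single_one]; exact n0 i
  have hcol2 : N *ᵥ Pi.single 2 1 = w := by
    ext i; rw [Matrix.mulVec_single_one]; exact n2 i
  have hM00 : M' 0 0 = d := by
    have e1 : M' 0 0 = (M' *ᵥ Pi.single 0 1) 0 := by rw [Matrix.mulVec_single_one]; rfl
    rw [e1, hM', ← Matrix.mulVec_mulVec, hcol0, ← Matrix.mulVec_mulVec, mv, hrow0, hrow0, hrow0]
    linear_combination hf2
  set y := N⁻¹ *ᵥ u with hy
  have hy2 : y 2 = e := by
    rw [hy, mv, hrow2, hrow2, hrow2]; linear_combination hg2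
  have hMy : M' *ᵥ y = Pi.single 2 1 := by
    rw [hM', hy, Matrix.mulVec_mulVec, mul_assoc, hNN, mul_one, ← Matrix.mulVec_mulVec, ← hw, ← hcol2,
      Matrix.mulVec_mulVec, hNN', Matrix.one_mulVec]
  have hadj : ∀ i, y i = M'.adjugate i 2 := by
    intro i
    have e1 : M'.adjugate *ᵥ (M' *ᵥ y) = y := by
      rw [Matrix.mulVec_mulVec, Matrix.adjugate_mul, hM'd, one_smul, Matrix.one_mulVec]
    rw [← e1, hMy, Matrix.mulVec_single_one]; rfl
  have hy1 : y 1 ≠ 0 := by
    intro h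
    apply h2
    have e1 : u = N *ᵥ y := by rw [hy, Matrix.mulVec_mulVec, hNN, Matrix.one_mulVec]
    have e2 : ∀ i, u i = v i * y 0 + w i * y 2 := by
      intro i
      have := congrFun e1 i
      rw [mv, n0, n1, n2, h, mul_zero, add_zero] at this
      exact this
    rw [D_eq, e2, e2, e2]
    ring
  refine ⟨N, M', hN, hM'd, hMN, hM00, ?_, ?_⟩
  · rw [← hy2, hadj, Matrix.adjugate_fin_three]
    simp
  · intro h
    apply hy1
    rw [hadj, Matrix.adjugate_fin_three]
    simp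
    linear_combination (-1) * h

end Cfsg.Agent.H29.ThreeFac
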